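import Cfsg.Agent.Helper16.S4Defs2

/-!
# CALL S3702 (helper16), PIECE SUPP: `s4_supp` (helper51)
-/

set_option autoImplicit false
set_option linter.unusedVariables false

namespace Cfsg.Agent.Helper51

open Cfsg DihedralGroup Cfsg.Agent.Helper16

set_option maxRecDepth 100000 in
theorem s4supp_R_ord3 : ∀ m : SM, sR m → m ^ 3 = 1 → ∃ s : SM, m = s * sx * s⁻¹ := by
  decide +kernel

set_option maxRecDepth 100000 in
theorem s4supp_P : ∀ p : SM, sP p → kap p ≠ 0 → sR p ∧ p ^ 3 = 1 := by decide +kernel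

theorem s4supp_b : sb * sx⁻¹ * sb⁻¹ = sx ∧ kap 1 = 0 := by decide +kernel

section

variable {G : Type*} [Group G] {φ : SM →* G} {W : Subgroup G}

-- SUPP
theorem s4_supp [Finite G] (h : S4Cfg φ) (hW : XData φ W) (hX : XFacts φ W) (g : G)
    (hg : (s4N1 φ g).Nonempty ∨ (s4NC φ W g).Nonempty ∨ (s4NP φ g).Nonempty) :
    IsN9 φ g ∨ IsXW φ W g := by
  have key : ∀ (t : G) (m : SM), sR m → t⁻¹ * g * t = φ m → IsN9 φ g ∨ IsXW φ W g := by
    intro t m hm htm
    by_cases hm3 : m ^ 3 = 1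
    · right
      obtain ⟨s, hs⟩ := s4supp_R_ord3 m hm hm3
      refine ⟨t * φ s, 1, W.one_mem, ?_⟩
      have e1 : (t * φ s)⁻¹ * g * (t * φ s) = (φ s)⁻¹ * (t⁻¹ * g * t) * φ s := by group
      rw [mul_one, e1, htm, hs, map_mul, map_mul, map_inv]
      group
    · left
      exact ⟨t, m, hm, hm3, htm⟩
  rcases hg with ⟨t, m, hm, htm⟩ | ⟨t, w, hw, m, hmP, hmk, htm⟩ | ⟨t, m, hmP, hmk, htm⟩
  · exact key t m hm htm
  · by_cases h1 : m = sx
    · right
      refine ⟨t, w, hw, ?_⟩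
      rw [htm, h1]
      exact hW.le w hw
    · by_cases h2 : m = sx⁻¹
      · right
        refine ⟨t * (φ sb)⁻¹, φ sb * w * (φ sb)⁻¹, hX.b w hw, ?_⟩
        have e1 : (t * (φ sb)⁻¹)⁻¹ * g * (t * (φ sb)⁻¹) = φ sb * (t⁻¹ * g * t) * (φ sb)⁻¹ := by
          group
        have e2 : φ sb * φ sx⁻¹ * (φ sb)⁻¹ = φ sx := by
          rw [← map_inv, ← map_mul, ← map_mul, s4supp_b.1]
        have e3 : φ sb * (w * φ sx⁻¹) * (φ sb)⁻¹
            = (φ sb * w * (φ sb)⁻¹) * (φ sb * φ sx⁻¹ * (φ sb)⁻¹) := by group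
        rw [e1, htm, h2, e3, e2]
        exact hW.le _ (hX.b w hw)
      · have hm1 : m ≠ 1 := by
          rintro rfl
          exact hmk s4supp_b.2
        obtain ⟨c, hc, hcm⟩ := hX.frob m hmP hm1 h1 h2 w hw
        apply key (t * c) m (s4supp_P m hmP hmk).1
        have e1 : (t * c)⁻¹ * g * (t * c) = c⁻¹ * (t⁻¹ * g * t) * c := by group
        rw [e1, htm, ← hcm]
        group
  · exact key t m (s4supp_P m hmP hmk).1 htm

end

end Cfsg.Agent.Helper51
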