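import Cfsg.Agent.Helper16.S4Defs2
import Cfsg.Agent.Helper16.H3Glue
import Cfsg.Agent.Helper51.S4SUPP

/-!
# CALL S3702 (helper16), PIECE V9: `s4_v9` (helper51)
-/

set_option autoImplicit false
set_option linter.unusedVariables false

namespace Cfsg.Agent.Helper51

open Cfsg DihedralGroup Cfsg.Agent.Helper16

set_option maxRecDepth 100000 in
theorem s4v9_R_E : ∀ e : SM, sR e → e ^ 3 ≠ 1 → sE e ∧ sJ (e ^ 3) := by decide +kernel

theorem s4v9_card : Fintype.card SM = 648 := by decide +kernel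

theorem s4v9_d : ∀ k m : DihedralGroup 3, dRefl m = false → m ≠ 1 →
    dRefl (k⁻¹ * m * k) = false ∧ k⁻¹ * m * k ≠ 1 := by decide +kernel

theorem s4v9_R_conj (k m : SM) (hm : sR m) : sR (k⁻¹ * m * k) :=
  s4v9_d k.d m.d hm.1 hm.2

set_option maxRecDepth 100000 in
theorem s4v9_R_cent' : ∀ m : SM, m ^ 3 = 1 → ¬ sJ m → ∀ e : SM, sR e → e ^ 3 ≠ 1 →
    m * e ≠ e * m := by decide +kernel

theorem s4v9_R_cent (e m : SM) (he : sR e) (he3 : e ^ 3 ≠ 1) (hme : m * e = e * m)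
    (hm3 : m ^ 3 = 1) : sJ m := by
  by_contra hJ
  exact s4v9_R_cent' m hm3 hJ e he he3 hme

theorem s4v9_x : ¬ sJ sx ∧ sx ^ 3 = 1 := by decide +kernel

section

variable {G : Type*} [Group G] {φ : SM →* G} {W : Subgroup G}

-- V9
theorem s4_v9 [Finite G] (h : S4Cfg φ) (hTI : TICfg φ sE) (hW : XData φ W) (e : SM) (he : sR e)
    (he3 : e ^ 3 ≠ 1) :
    Nat.card (s4N1 φ (φ e)) = 648 ∧ s4NC φ W (φ e) = ∅ ∧ s4NP φ (φ e) = ∅ := by
  obtain ⟨heE, heJ⟩ := s4v9_R_E e he he3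
  refine ⟨?_, ?_, ?_⟩
  · have hset : s4N1 φ (φ e) = (φ.range : Set G) := by
      ext t
      constructor
      · rintro ⟨m, hm, htm⟩
        have h1 : t⁻¹ ∈ φ.range := by
          apply hTI.ti e heE t⁻¹
          rw [inv_inv, htm]
          exact ⟨m, rfl⟩
        have h2 := φ.range.inv_mem h1
        rwa [inv_inv] at h2
      · rintro ⟨s, rfl⟩
        refine ⟨s⁻¹ * e * s, s4v9_R_conj s e he, ?_⟩
        rw [map_mul, map_mul, map_inv]
    rw [hset]
    have h1 : Nat.card (φ.range : Set G) = Nat.card SM :=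
      Nat.card_congr (Equiv.ofInjective φ h.inj).symm
    rw [h1, Nat.card_eq_fintype_card, s4v9_card]
  · rw [Set.eq_empty_iff_forall_notMem]
    rintro t ⟨w, hw, p, hp, hpk, htp⟩
    -- `t⁻¹ φ e t` commutes with `x`
    have hc1 : (t⁻¹ * φ e * t) * φ sx = φ sx * (t⁻¹ * φ e * t) := by
      have hpx : φ p * φ sx = φ sx * φ p := by
        rw [← map_mul, ← map_mul]
        exact congrArg φ hp
      rw [htp, mul_assoc, hpx, ← mul_assoc, hW.le w hw, mul_assoc]
    -- so `t x t⁻¹` commutes with `φ e`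
    have hc2 : (t * φ sx * t⁻¹) * φ e = φ e * (t * φ sx * t⁻¹) := by
      have e1 : (t * φ sx * t⁻¹) * φ e = t * ((t⁻¹ * φ e * t) * φ sx)⁻¹⁻¹ * t⁻¹ := by
        rw [inv_inv, hc1]
        group
      have e2 : φ e * (t * φ sx * t⁻¹) = t * ((t⁻¹ * φ e * t) * φ sx) * t⁻¹ := by group
      rw [e2, e1, inv_inv]
    have hc3 : (t * φ sx * t⁻¹) * φ (e ^ 3) = φ (e ^ 3) * (t * φ sx * t⁻¹) := by
      rw [map_pow]
      exact (Commute.pow_right hc2 3)
    obtain ⟨m, hm⟩ := h.cent (e ^ 3) heJ he3 _ hc3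
    have hme : m * e = e * m := by
      apply h.inj
      rw [map_mul, map_mul, hm]
      exact hc2
    have hm3 : m ^ 3 = 1 := by
      apply h.inj
      rw [map_pow, hm, map_one]
      rw [conj_pow, ← map_pow, s4v9_x.2, map_one, mul_one, mul_inv_cancel]
    have hJm := s4v9_R_cent e m he he3 hme hm3
    obtain ⟨j', hj', hj'eq⟩ := h.sc m hJm t⁻¹ (by
      rw [hm, inv_inv]
      refine ⟨sx, ?_⟩
      group)
    have hxj : φ sx = φ j' := by
      rw [← hj'eq, hm, inv_inv]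
      group
    have hsx : sx = j' := h.inj hxj
    exact s4v9_x.1 (hsx ▸ hj')
  · rw [Set.eq_empty_iff_forall_notMem]
    rintro t ⟨m, hm, hmk, htm⟩
    have hm3 := (s4supp_P m hm hmk).2
    apply he3
    apply h.inj
    rw [map_pow, map_one]
    have e1 : φ e ^ 3 = t * (t⁻¹ * φ e * t) ^ 3 * t⁻¹ := by
      rw [pow_succ, pow_two, pow_succ, pow_two]
      group
    rw [e1, htm, ← map_pow, hm3, map_one, mul_one, mul_inv_cancel]

end

end Cfsg.Agent.Helper51
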