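import Cfsg.Agent.Helper16.S4Defs2
import Cfsg.Agent.Helper16.H3Glue
import Cfsg.Agent.Helper51.S4V9

/-!
# CALL S3702 (helper16), PIECE INVOL9: `s4_invol9` (helper51)
-/

set_option autoImplicit false
set_option linter.unusedVariables false

namespace Cfsg.Agent.Helper51

open Cfsg DihedralGroup Cfsg.Agent.Helper16

theorem s4i9_a : sa ^ 2 = 1 := by decide +kernel

theorem s4i9_a_d : sa.d = 1 := by decide +kernel

theorem s4i9_a_conj (s : SM) : (s * sa * s⁻¹).d = 1 := by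
  show s.d * sa.d * s.d⁻¹ = 1
  rw [s4i9_a_d, mul_one, mul_inv_cancel]

theorem s4i9_d1_R (a b : SM) (ha : a.d = 1) (hb : b.d = 1) : ¬ sR (a * b) := by
  intro hR
  apply hR.2
  show a.d * b.d = 1
  rw [ha, hb, mul_one]

section

variable {G : Type*} [Group G] {φ : SM →* G} {W : Subgroup G}

-- INVOL9
theorem s4_invol9 [Finite G] (h : S4Cfg φ) (hTI : TICfg φ sE) (hF : FusFact φ) (s₁ s₂ : G) :
    ¬ IsN9 φ (s₁ * φ sa * s₁⁻¹ * (s₂ * φ sa * s₂⁻¹)) := by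
  rintro ⟨t, e, he, he3, hte⟩
  have heE := (s4v9_R_E e he he3).1
  have ha2 : φ sa ^ 2 = 1 := by rw [← map_pow, s4i9_a, map_one]
  have hu1 : ((t⁻¹ * s₁) * φ sa * (t⁻¹ * s₁)⁻¹) ^ 2 = 1 := by
    rw [conj_pow, ha2, mul_one, mul_inv_cancel]
  have hu2 : ((t⁻¹ * s₂) * φ sa * (t⁻¹ * s₂)⁻¹) ^ 2 = 1 := by
    rw [conj_pow, ha2, mul_one, mul_inv_cancel]
  have hprod : ((t⁻¹ * s₁) * φ sa * (t⁻¹ * s₁)⁻¹) * ((t⁻¹ * s₂) * φ sa * (t⁻¹ * s₂)⁻¹)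
      = φ e := by
    rw [← hte]
    group
  obtain ⟨⟨m₁, hm₁⟩, ⟨m₂, hm₂⟩⟩ := hTI.mem_range_of_mul hu1 hu2 heE hprod
  obtain ⟨c₁, hc₁⟩ := hF sa m₁ s4i9_a (t⁻¹ * s₁) hm₁.symm
  obtain ⟨c₂, hc₂⟩ := hF sa m₂ s4i9_a (t⁻¹ * s₂) hm₂.symm
  have hd1 : m₁.d = 1 := by
    rw [← hc₁]
    exact s4i9_a_conj c₁
  have hd2 : m₂.d = 1 := by
    rw [← hc₂]
    exact s4i9_a_conj c₂
  have hem : e = m₁ * m₂ := by
    apply h.inj
    rw [map_mul, hm₁, hm₂, hprod]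
  rw [hem] at he
  exact s4i9_d1_R m₁ m₂ hd1 hd2 he

end

end Cfsg.Agent.Helper51
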