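import Cfsg.Agent.Helper16.S4Defs2

/-!
# CALL S3702 (helper16), PIECE ORD: `s4_sq` (helper51)
-/

set_option autoImplicit false
set_option linter.unusedVariables false

namespace Cfsg.Agent.Helper51

open Cfsg DihedralGroup Cfsg.Agent.Helper16

set_option maxRecDepth 100000 in
theorem s4ord_R_pow9 : ∀ m : SM, sR m → m ^ 9 = 1 := by decide +kernel

theorem s4ord_x : sP (sx ^ 2) ∧ sx ^ 2 ≠ 1 := by decide +kernel

section

variable {G : Type*} [Group G] {φ : SM →* G} {W : Subgroup G}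

-- ORD
theorem s4_sq [Finite G] (h : S4Cfg φ) (hW : XData φ W) (hX : XFacts φ W) (g : G)
    (hg : g ^ 2 = 1) : ¬ IsN9 φ g ∧ ¬ IsXW φ W g := by
  have hconj : ∀ t : G, (t⁻¹ * g * t) ^ 2 = 1 := by
    intro t
    have h1 : (t⁻¹ * g * t) ^ 2 = t⁻¹ * (g * g) * t := by
      rw [pow_two]
      group
    rw [h1, ← pow_two, hg, mul_one, inv_mul_cancel]
  constructor
  · rintro ⟨t, e, he, he3, hte⟩
    have h1 : φ (e ^ 2) = φ 1 := by
      rw [map_pow, ← hte, map_one]
      exact hconj t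
    have h2 : e ^ 2 = 1 := h.inj h1
    have h9 := s4ord_R_pow9 e he
    have h3 : e = 1 := by
      have h4 : e ^ 9 = (e ^ 2) ^ 4 * e := by rw [← pow_mul, ← pow_succ]
      rw [h4, h2, one_pow, one_mul] at h9
      exact h9
    exact he3 (by rw [h3, one_pow])
  · rintro ⟨t, w, hw, htw⟩
    have hcomm : Commute (φ sx) w := (hW.le w hw).symm
    have h1 : (φ sx * w) ^ 2 = 1 := by
      rw [← htw]
      exact hconj t
    rw [hcomm.mul_pow] at h1
    have h2 : φ sx ^ 2 = (w ^ 2)⁻¹ := eq_inv_of_mul_eq_one_left h1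
    have h3 : φ sx ^ 2 ∈ W := by
      rw [h2]
      exact W.inv_mem (W.pow_mem hw 2)
    have h4 := hX.inter _ h3 (sx ^ 2) s4ord_x.1 (by rw [map_pow])
    have h5 : sx ^ 2 = 1 := h.inj (by rw [map_pow, h4, map_one])
    exact s4ord_x.2 h5

end

end Cfsg.Agent.Helper51
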