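import Cfsg.Agent.Helper25.Bsw2

set_option autoImplicit false

/-!
# PIECE EMD of CALL S3282 (helper25): the bridge to the TI hypotheses (helper51)
-/

open Cfsg.Agent.Helper25 Subgroup

namespace Cfsg.Agent.Helper51

/-- If `u` is an involution inverting the subgroup `A`, every element of `A ⊔ ⟨u⟩` lies in `A`
or in `A u`. -/
theorem bsw_mem_sup_zpowers {G : Type*} [Group G] {A : Subgroup G} {u : G} (hu : u * u = 1)
    (hinv : ∀ a ∈ A, u * a * u⁻¹ = a⁻¹) {g : G} (hg : g ∈ A ⊔ zpowers u) :
    g ∈ A ∨ g * u ∈ A := by
  have hui : u⁻¹ = u := inv_eq_of_mul_eq_one_left hu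
  have hinv' : ∀ a ∈ A, u * a * u = a⁻¹ := by
    intro a ha
    have := hinv a ha
    rwa [hui] at this
  let M : Subgroup G :=
    { carrier := {x | x ∈ A ∨ x * u ∈ A}
      one_mem' := Or.inl A.one_mem
      mul_mem' := by
        rintro a b (ha | ha) (hb | hb)
        · exact Or.inl (A.mul_mem ha hb)
        · right
          have : a * b * u = a * (b * u) := by group
          rw [this]; exact A.mul_mem ha hb
        · right
          have : a * b * u = a * u * (u * b * u) := by
            calc a * b * u = a * (1 * b) * u := by group
              _ = a * (u * u * b) * u := by rw [hu]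
              _ = a * u * (u * b * u) := by group
          rw [this, hinv' b hb]
          exact A.mul_mem ha (A.inv_mem hb)
        · left
          have : a * b = a * u * (u * (b * u) * u) := by
            calc a * b = a * (1 * b * 1) := by group
              _ = a * (u * u * b * (u * u)) := by rw [hu]
              _ = a * u * (u * (b * u) * u) := by group
          rw [this, hinv' _ hb]
          exact A.mul_mem ha (A.inv_mem hb)
      inv_mem' := by
        rintro a (ha | ha)
        · exact Or.inl (A.inv_mem ha)
        · right
          have : a⁻¹ * u = u * (a * u)⁻¹ * u := by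
            calc a⁻¹ * u = 1 * a⁻¹ * u := by group
              _ = u * u * a⁻¹ * u := by rw [hu]
              _ = u * (u⁻¹)⁻¹ * a⁻¹ * u := by rw [inv_inv]
              _ = u * (a * u⁻¹)⁻¹ * u := by group
              _ = u * (a * u)⁻¹ * u := by rw [hui]
          rw [this, hinv' _ (A.inv_mem ha), inv_inv]
          exact ha }
  have hle : A ⊔ zpowers u ≤ M := by
    apply sup_le
    · intro a ha; exact Or.inl ha
    · rw [zpowers_le]
      right
      show u * u ∈ A
      rw [hu]; exact A.one_mem
  exact hle hg

theorem bsw_odd_order_eq_one {G : Type*} [Group G] {g : G} (hodd : Odd (orderOf g))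
    (hsq : g * g = 1) : g = 1 := by
  have h1 : orderOf g ∣ 2 := orderOf_dvd_of_pow_eq_one (by rw [pow_two]; exact hsq)
  have h2 : orderOf g = 1 := by
    rcases (Nat.dvd_prime Nat.prime_two).1 h1 with h | h
    · exact h
    · rw [h] at hodd
      exact absurd hodd (by decide)
  exact orderOf_eq_one_iff.1 h2

/-- PIECE EMD of CALL S3282. -/
theorem bsw_minus_bridge {G : Type*} [Group G] [Finite G] {t s : G} {K : Subgroup G}
    (h : BswHyp t s K) (hF5 : BswF5 K) (q p : ℕ) (hout : BswOutMinus K q)
    (hZ : BswMinusZ K q p) : BswTIHyp G q p := by
  obtain ⟨hq1, -, hA, -, -⟩ := hout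
  obtain ⟨hp, ⟨a, hqa⟩, hZiff, -⟩ := hZ
  refine ⟨?_, ?_⟩
  · -- (a)
    intro w z hw hz1 hzq
    obtain ⟨hzcl, hza⟩ := (hZiff z).2 ⟨hz1, hzq⟩
    have hwi : w⁻¹ = w := bsw_inv_of_order_two hw
    have hww : w * w = 1 := bsw_sq_of_order_two hw
    constructor
    · intro hc
      apply hzcl
      apply h.cent_inv_subset_cl hw
      rw [mem_centralizer_iff]
      intro y hy
      rw [Set.mem_singleton_iff] at hy
      subst hy
      calc y * z = y * z * y⁻¹ * y := by group
        _ = z * y := by rw [hc]
    · intro hc
      have hwz1 : w * z ≠ 1 := by
        intro e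
        apply hzcl
        have hzw : z = w := by
          have : z = w⁻¹ * (w * z) := by group
          rw [this, e, mul_one, hwi]
        rw [hzw]
        exact h.order_two_mem_cl hw
      have hwz2 : w * z * (w * z) = 1 := by
        calc w * z * (w * z) = w * z * w⁻¹ * (w * w) * z := by group
          _ = z⁻¹ * 1 * z := by rw [hc, hww]
          _ = 1 := by group
      have hpos : 0 < bswA z := by
        rw [bswA_pos_iff]
        refine ⟨w, w * z, hw, bsw_order_two_of_sq hwz1 hwz2, ?_⟩
        rw [← mul_assoc, hww, one_mul]
      omega
  · -- (b)
    intro x hx1 hxodd hxp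
    have hxq : x ^ q ≠ 1 := by
      intro e
      have h1 : orderOf x ∣ q := orderOf_dvd_of_pow_eq_one e
      rw [hqa] at h1
      have h2 : orderOf x = 1 := Nat.Coprime.eq_one_of_dvd (Nat.Coprime.pow_right a hxp) h1
      exact hx1 (orderOf_eq_one_iff.1 h2)
    have hx2 : orderOf x ≠ 2 := by
      intro e
      rw [e] at hxodd
      exact absurd hxodd (by decide)
    by_cases hxcl : x ∈ bswCl K
    · -- case 1: x conjugate into K
      obtain ⟨c, hcK, hcent⟩ := h.cent_of_cl hxcl hx1 hx2
      have hconj_odd : ∀ y : G, orderOf (c * y * c⁻¹) = orderOf y := by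
        intro y
        have := orderOf_injective (MulAut.conj c).toMonoidHom (MulAut.conj c).injective y
        simpa using this
      refine ⟨centralizer ({x} : Set G), ?_, ?_, ?_, ?_⟩
      · rw [mem_centralizer_iff]
        intro y hy
        rw [Set.mem_singleton_iff] at hy
        subst hy
        rfl
      · intro a' ha b' hb
        have h1 := h.hKab _ ((hcent a').1 ha) _ ((hcent b').1 hb)
        calc a' * b' = c⁻¹ * (c * a' * c⁻¹ * (c * b' * c⁻¹)) * c := by group
          _ = c⁻¹ * (c * b' * c⁻¹ * (c * a' * c⁻¹)) * c := by rw [h1]
          _ = b' * a' := by group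
      · intro y hy hy1 hyodd
        have hyK : c * y * c⁻¹ ∈ K := (hcent y).1 hy
        have hy1' : c * y * c⁻¹ ≠ 1 := by
          intro e
          apply hy1
          have : y = c⁻¹ * (c * y * c⁻¹) * c := by group
          rw [this, e]; group
        have hyt : c * y * c⁻¹ ≠ t := by
          intro e
          have h2 := hconj_odd y
          rw [e, h.ht] at h2
          rw [← h2] at hyodd
          exact absurd hyodd (by decide)
        have hC := h.cent_eq_K hyK hy1' hyt
        ext g
        rw [hcent g, ← hC, mem_centralizer_iff, mem_centralizer_iff]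
        constructor
        · intro hg z hz
          rw [Set.mem_singleton_iff] at hz
          subst hz
          have hg' := hg y rfl
          calc c * y * c⁻¹ * (c * g * c⁻¹) = c * (y * g) * c⁻¹ := by group
            _ = c * (g * y) * c⁻¹ := by rw [hg']
            _ = c * g * c⁻¹ * (c * y * c⁻¹) := by group
        · intro hg z hz
          rw [Set.mem_singleton_iff] at hz
          subst hz
          have hg' := hg (c * z * c⁻¹) rfl
          calc z * g = c⁻¹ * (c * z * c⁻¹ * (c * g * c⁻¹)) * c := by group
            _ = c⁻¹ * (c * g * c⁻¹ * (c * z * c⁻¹)) * c := by rw [hg']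
            _ = g * z := by group
      · intro g hg hgodd
        rw [hcent g]
        have hKbot : K ≠ ⊥ := by
          intro e
          have := h.htK
          rw [e, mem_bot] at this
          exact bsw_ne_one_of_order_two h.ht this
        have hN := h.normalizer_eq (le_refl K) hKbot
        have hgN : c * g * c⁻¹ ∈ normalizer (K : Set G) := by
          rw [mem_normalizer_iff]
          intro k
          rw [mem_normalizer_iff] at hg
          have e1 : c * g * c⁻¹ * k * (c * g * c⁻¹)⁻¹ = c * (g * (c⁻¹ * k * c) * g⁻¹) * c⁻¹ := by
            group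
          have e2 : ∀ k' : G, c * (c⁻¹ * k' * c) * c⁻¹ = k' := fun k' => by group
          constructor
          · intro hk
            rw [e1]
            apply (hcent _).1
            apply (hg _).1
            rw [hcent, e2]
            exact hk
          · intro hk
            rw [e1] at hk
            have h3 := (hcent _).2 hk
            have h4 := (hg _).2 h3
            have h5 := (hcent _).1 h4
            rwa [e2] at h5
        rw [hN] at hgN
        by_contra hgK
        have h2 := h.order_two_of_cent_not_mem hgN hgK
        rw [hconj_odd g] at h2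
        rw [h2] at hgodd
        exact absurd hgodd (by decide)
    · -- case 2: x not conjugate into K, so bswA x > 0
      have hpos : 0 < bswA x := by
        by_contra h0
        have h0' : bswA x = 0 := by omega
        exact (((hZiff x).1 ⟨hxcl, h0'⟩).2 |> hxq)
      obtain ⟨hab, hcy, u, x', L, hu, huinv, huL, hLK, hAL, hNA, hLdvd⟩ := hF5 x hxcl hpos
      have hxmem : x ∈ centralizer ({x} : Set G) := by
        rw [mem_centralizer_iff]
        intro y hy
        rw [Set.mem_singleton_iff] at hy
        subst hy
        rfl
      have hcardA : bswA x = Nat.card (centralizer ({x} : Set G)) := (hcy x hxmem hx1).2.2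
      have h2A : 2 * bswA x = q - 1 := by
        rcases hA x hxcl with h0 | h0
        · omega
        · exact h0
      have hLK' : Nat.card L ∣ Nat.card K := by
        have h1 := Subgroup.card_dvd_of_le hLK
        rwa [Subgroup.card_map_of_injective (MulAut.conj x').injective] at h1
      have hkA : Nat.card K = Nat.card (centralizer ({x} : Set G)) + 1 := by omega
      have hL2 : Nat.card L ∣ 2 := by
        have h1 : Nat.card L ∣ Nat.card K - (Nat.card (centralizer ({x} : Set G)) - 1) :=
          Nat.dvd_sub hLK' hLdvd
        have hApos : 0 < Nat.card (centralizer ({x} : Set G)) := Nat.card_pos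
        have h2 : Nat.card K - (Nat.card (centralizer ({x} : Set G)) - 1) = 2 := by omega
        rwa [h2] at h1
      have hLle : Nat.card L ≤ 2 := Nat.le_of_dvd (by norm_num) hL2
      have hLeq : zpowers u = L := by
        apply Subgroup.eq_of_le_of_card_ge (zpowers_le.2 huL)
        rw [Nat.card_zpowers, hu]
        exact hLle
      have huu : u * u = 1 := bsw_sq_of_order_two hu
      refine ⟨centralizer ({x} : Set G), hxmem, hab, ?_, ?_⟩
      · intro y hy hy1 _
        exact (hcy y hy hy1).2.1
      · intro g hg hgodd
        rw [hNA, ← hLeq] at hg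
        rcases bsw_mem_sup_zpowers huu huinv hg with hgA | hgu
        · exact hgA
        · have hg1 : g = 1 := by
            apply bsw_odd_order_eq_one hgodd
            have hui : u⁻¹ = u := bsw_inv_of_order_two hu
            have h3 := huinv _ hgu
            rw [hui] at h3
            calc g * g = (g * u) * (u * (g * u) * u) := by
                  calc g * g = g * (1 * g * 1) := by group
                    _ = g * (u * u * g * (u * u)) := by rw [huu]
                    _ = (g * u) * (u * (g * u) * u) := by group
              _ = (g * u) * (g * u)⁻¹ := by rw [h3]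
              _ = 1 := by group
          rw [hg1]
          exact Subgroup.one_mem _

end Cfsg.Agent.Helper51
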