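import Cfsg.Agent.Helper25.Bsw4
import Cfsg.Agent.Helper80.CharOrtho

set_option autoImplicit false

/-!
# PIECE K2 of CALL S3282 (helper25): the case `|K| = 2` of the Brauer–Suzuki–Wall character theory
(helper51).  The groups are `A4` and `A5`.
-/

namespace Cfsg.Agent.Helper51

open Cfsg.Agent.Helper25 Cfsg Subgroup
open scoped ComplexConjugate

theorem bswk2_norm_three {ι : Type*} [Fintype ι] [DecidableEq ι] (f : ι → ℤ)
    (hf : ∑ i, f i * f i = 3) :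
    ∃ a b c : ι, a ≠ b ∧ a ≠ c ∧ b ≠ c ∧ (f a = 1 ∨ f a = -1) ∧ (f b = 1 ∨ f b = -1) ∧
      (f c = 1 ∨ f c = -1) ∧ ∀ i, i ≠ a → i ≠ b → i ≠ c → f i = 0 := by
  classical
  set S := Finset.univ.filter (fun i => f i ≠ 0) with hS
  have hsum : ∑ i ∈ S, f i * f i = 3 := by
    rw [← hf, hS, Finset.sum_filter]
    apply Finset.sum_congr rfl
    intro i _
    by_cases h : f i = 0
    · simp [h]
    · simp [h]
  have hnn : ∀ i ∈ S, 0 ≤ f i * f i := fun i _ => mul_self_nonneg _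
  have hone : ∀ i ∈ S, f i * f i = 1 := by
    intro i hi
    have hne : f i ≠ 0 := (Finset.mem_filter.1 hi).2
    have hle : f i * f i ≤ 3 := by
      rw [← hsum]
      exact Finset.single_le_sum hnn hi
    have h1 : f i ≤ -1 ∨ 1 ≤ f i := by omega
    have h2 : -1 ≤ f i ∧ f i ≤ 1 := by
      constructor <;> nlinarith
    rcases h1 with h1 | h1
    · have : f i = -1 := by omega
      rw [this]; norm_num
    · have : f i = 1 := by omega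
      rw [this]; norm_num
  have hcard : S.card = 3 := by
    have h1 : ∑ i ∈ S, f i * f i = ∑ _i ∈ S, (1 : ℤ) := Finset.sum_congr rfl hone
    rw [hsum, Finset.sum_const, nsmul_eq_mul, mul_one] at h1
    exact_mod_cast h1.symm
  obtain ⟨a, b, c, hab, hac, hbc, hSe⟩ := Finset.card_eq_three.1 hcard
  have hmem : ∀ i, i ∈ S ↔ i = a ∨ i = b ∨ i = c := by
    intro i
    rw [hSe]
    simp
  refine ⟨a, b, c, hab, hac, hbc, ?_, ?_, ?_, ?_⟩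
  · exact mul_self_eq_one_iff.1 (hone a ((hmem a).2 (Or.inl rfl)))
  · exact mul_self_eq_one_iff.1 (hone b ((hmem b).2 (Or.inr (Or.inl rfl))))
  · exact mul_self_eq_one_iff.1 (hone c ((hmem c).2 (Or.inr (Or.inr rfl))))
  · intro i hia hib hic
    by_contra hne
    have : i ∈ S := Finset.mem_filter.2 ⟨Finset.mem_univ _, hne⟩
    rcases (hmem i).1 this with e | e | e
    · exact hia e
    · exact hib e
    · exact hic e

/-- A sum with at most four non-zero terms. -/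
theorem bswk2_sum_four {ι : Type*} [Fintype ι] [DecidableEq ι] {M : Type*} [AddCommMonoid M]
    (f : ι → M) (a b c d : ι) (hab : a ≠ b) (hac : a ≠ c) (had : a ≠ d) (hbc : b ≠ c)
    (hbd : b ≠ d) (hcd : c ≠ d) (h0 : ∀ i, i ≠ a → i ≠ b → i ≠ c → i ≠ d → f i = 0) :
    ∑ i, f i = f a + f b + f c + f d := by
  have hs : ∑ i, f i = ∑ i ∈ ({a, b, c, d} : Finset ι), f i := by
    symm
    apply Finset.sum_subset (Finset.subset_univ _)
    intro i _ hi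
    simp only [Finset.mem_insert, Finset.mem_singleton, not_or] at hi
    exact h0 i hi.1 hi.2.1 hi.2.2.1 hi.2.2.2
  rw [hs, Finset.sum_insert, Finset.sum_insert, Finset.sum_insert, Finset.sum_singleton]
  · simp only [add_assoc]
  · simp [hcd]
  · simp [hbc, hbd]
  · simp [hab, hac, had]

set_option maxHeartbeats 2000000 in
/-- The finite check. -/
theorem bswk2_fin (e1 e2 e3 x1 x2 x3 N : ℤ)
    (h1 : (e1 = 1 ∧ (x1 = 1 ∨ x1 = 5 ∨ x1 = 9)) ∨ (e1 = -1 ∧ (x1 = 3 ∨ x1 = 7)))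
    (h2 : (e2 = 1 ∧ (x2 = 1 ∨ x2 = 5 ∨ x2 = 9)) ∨ (e2 = -1 ∧ (x2 = 3 ∨ x2 = 7)))
    (h3 : (e3 = 1 ∧ (x3 = 1 ∨ x3 = 5 ∨ x3 = 9)) ∨ (e3 = -1 ∧ (x3 = 3 ∨ x3 = 7)))
    (hsum : 1 + e1 * x1 + e2 * x2 + e3 * x3 = 0)
    (hkey : N * (x1 * x2 * x3 + e1 * (x2 * x3) + e2 * (x1 * x3) + e3 * (x1 * x2)) =
      8 * (x1 * x2 * x3)) :
    (e1 = -1 ∧ x1 = 3 ∧ e2 = 1 ∧ x2 = 1 ∧ e3 = 1 ∧ x3 = 1 ∧ N = 3) ∨
    (e1 = 1 ∧ x1 = 5 ∧ e2 = -1 ∧ x2 = 3 ∧ e3 = -1 ∧ x3 = 3 ∧ N = 15) ∨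
    (e2 = -1 ∧ x2 = 3 ∧ e1 = 1 ∧ x1 = 1 ∧ e3 = 1 ∧ x3 = 1 ∧ N = 3) ∨
    (e2 = 1 ∧ x2 = 5 ∧ e1 = -1 ∧ x1 = 3 ∧ e3 = -1 ∧ x3 = 3 ∧ N = 15) ∨
    (e3 = -1 ∧ x3 = 3 ∧ e1 = 1 ∧ x1 = 1 ∧ e2 = 1 ∧ x2 = 1 ∧ N = 3) ∨
    (e3 = 1 ∧ x3 = 5 ∧ e1 = -1 ∧ x1 = 3 ∧ e2 = -1 ∧ x2 = 3 ∧ N = 15) := by
  rcases h1 with ⟨rfl, rfl | rfl | rfl⟩ | ⟨rfl, rfl | rfl⟩ <;>
  rcases h2 with ⟨rfl, rfl | rfl | rfl⟩ | ⟨rfl, rfl | rfl⟩ <;>
  rcases h3 with ⟨rfl, rfl | rfl | rfl⟩ | ⟨rfl, rfl | rfl⟩ <;>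
  first
    | (exfalso; omega)
    | (have hNv : N = 3 := by omega
       subst hNv; simp)
    | (have hNv : N = 15 := by omega
       subst hNv; simp)

/-- The arithmetic of the case `|K| = 2`. -/
theorem bswk2_arith (e1 e2 e3 x1 x2 x3 N : ℤ)
    (he1 : e1 = 1 ∨ e1 = -1) (he2 : e2 = 1 ∨ e2 = -1) (he3 : e3 = 1 ∨ e3 = -1)
    (hx1 : 0 ≤ x1) (hx2 : 0 ≤ x2) (hx3 : 0 ≤ x3) (hN : 0 < N)
    (hc1 : (4 : ℤ) ∣ x1 + 3 * e1) (hc2 : (4 : ℤ) ∣ x2 + 3 * e2) (hc3 : (4 : ℤ) ∣ x3 + 3 * e3)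
    (hsum : 1 + e1 * x1 + e2 * x2 + e3 * x3 = 0)
    (hkey : N * (x1 * x2 * x3 + e1 * (x2 * x3) + e2 * (x1 * x3) + e3 * (x1 * x2)) =
      8 * (x1 * x2 * x3))
    (hd1 : x1 * x1 ≤ 4 * N) (hd2 : x2 * x2 ≤ 4 * N) (hd3 : x3 * x3 ≤ 4 * N) :
    (e1 = -1 ∧ x1 = 3 ∧ e2 = 1 ∧ x2 = 1 ∧ e3 = 1 ∧ x3 = 1 ∧ N = 3) ∨
    (e1 = 1 ∧ x1 = 5 ∧ e2 = -1 ∧ x2 = 3 ∧ e3 = -1 ∧ x3 = 3 ∧ N = 15) ∨
    (e2 = -1 ∧ x2 = 3 ∧ e1 = 1 ∧ x1 = 1 ∧ e3 = 1 ∧ x3 = 1 ∧ N = 3) ∨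
    (e2 = 1 ∧ x2 = 5 ∧ e1 = -1 ∧ x1 = 3 ∧ e3 = -1 ∧ x3 = 3 ∧ N = 15) ∨
    (e3 = -1 ∧ x3 = 3 ∧ e1 = 1 ∧ x1 = 1 ∧ e2 = 1 ∧ x2 = 1 ∧ N = 3) ∨
    (e3 = 1 ∧ x3 = 5 ∧ e1 = -1 ∧ x1 = 3 ∧ e2 = -1 ∧ x2 = 3 ∧ N = 15) := by
  have hp1 : 1 ≤ x1 ∧ (e1 = -1 → 3 ≤ x1) := by omega
  have hp2 : 1 ≤ x2 ∧ (e2 = -1 → 3 ≤ x2) := by omega
  have hp3 : 1 ≤ x3 ∧ (e3 = -1 → 3 ≤ x3) := by omega
  have hN24 : N < 24 := by
    obtain ⟨Q, hQ⟩ : ∃ Q : ℤ, Q = x1 * x2 * x3 := ⟨_, rfl⟩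
    obtain ⟨y1, hy1⟩ : ∃ y : ℤ, y = x2 * x3 := ⟨_, rfl⟩
    obtain ⟨y2, hy2⟩ : ∃ y : ℤ, y = x1 * x3 := ⟨_, rfl⟩
    obtain ⟨y3, hy3⟩ : ∃ y : ℤ, y = x1 * x2 := ⟨_, rfl⟩
    have hy1p : 1 ≤ y1 := by rw [hy1]; nlinarith [hp2.1, hp3.1]
    have hy2p : 1 ≤ y2 := by rw [hy2]; nlinarith [hp1.1, hp3.1]
    have hy3p : 1 ≤ y3 := by rw [hy3]; nlinarith [hp1.1, hp2.1]
    have hQ1 : Q = x1 * y1 := by rw [hQ, hy1]; ring
    have hQ2 : Q = x2 * y2 := by rw [hQ, hy2]; ring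
    have hQ3 : Q = x3 * y3 := by rw [hQ, hy3]; ring
    have hQp : 1 ≤ Q := by rw [hQ1]; nlinarith [hp1.1]
    have hq1 : e1 = -1 → 3 * y1 ≤ Q := fun e => by rw [hQ1]; nlinarith [hp1.2 e]
    have hq2 : e2 = -1 → 3 * y2 ≤ Q := fun e => by rw [hQ2]; nlinarith [hp2.2 e]
    have hq3 : e3 = -1 → 3 * y3 ≤ Q := fun e => by rw [hQ3]; nlinarith [hp3.2 e]
    rw [← hQ, ← hy1, ← hy2, ← hy3] at hkey
    have hex : e1 = 1 ∨ e2 = 1 ∨ e3 = 1 := by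
      rcases he1 with rfl | rfl
      · exact Or.inl rfl
      · rcases he2 with rfl | rfl
        · exact Or.inr (Or.inl rfl)
        · rcases he3 with rfl | rfl
          · exact Or.inr (Or.inr rfl)
          · exfalso
            have := hp1.2 rfl
            have := hp2.2 rfl
            have := hp3.2 rfl
            omega
    have hw1 : -Q ≤ 3 * (e1 * y1) ∧ (e1 = 1 → 1 ≤ e1 * y1) := by
      rcases he1 with rfl | rfl
      · exact ⟨by linarith, fun _ => by linarith⟩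
      · exact ⟨by linarith [hq1 rfl], fun e => by norm_num at e⟩
    have hw2 : -Q ≤ 3 * (e2 * y2) ∧ (e2 = 1 → 1 ≤ e2 * y2) := by
      rcases he2 with rfl | rfl
      · exact ⟨by linarith, fun _ => by linarith⟩
      · exact ⟨by linarith [hq2 rfl], fun e => by norm_num at e⟩
    have hw3 : -Q ≤ 3 * (e3 * y3) ∧ (e3 = 1 → 1 ≤ e3 * y3) := by
      rcases he3 with rfl | rfl
      · exact ⟨by linarith, fun _ => by linarith⟩
      · exact ⟨by linarith [hq3 rfl], fun e => by norm_num at e⟩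
    obtain ⟨w1, hw1e⟩ : ∃ w : ℤ, w = e1 * y1 := ⟨_, rfl⟩
    obtain ⟨w2, hw2e⟩ : ∃ w : ℤ, w = e2 * y2 := ⟨_, rfl⟩
    obtain ⟨w3, hw3e⟩ : ∃ w : ℤ, w = e3 * y3 := ⟨_, rfl⟩
    rw [← hw1e] at hw1
    rw [← hw2e] at hw2
    rw [← hw3e] at hw3
    rw [← hw1e, ← hw2e, ← hw3e] at hkey
    have h3P : Q + 3 ≤ 3 * (Q + w1 + w2 + w3) := by
      rcases hex with e | e | e
      · have := hw1.2 e
        linarith [hw2.1, hw3.1]
      · have := hw2.2 e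
        linarith [hw1.1, hw3.1]
      · have := hw3.2 e
        linarith [hw1.1, hw2.1]
    by_contra hcon
    have hN' : 24 ≤ N := by omega
    have hP0 : 0 ≤ Q + w1 + w2 + w3 := by linarith
    have := mul_le_mul_of_nonneg_right hN' hP0
    linarith
  have hb1 : x1 ≤ 9 := by
    by_contra hc
    have : 10 ≤ x1 := by omega
    nlinarith
  have hb2 : x2 ≤ 9 := by
    by_contra hc
    have : 10 ≤ x2 := by omega
    nlinarith
  have hb3 : x3 ≤ 9 := by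
    by_contra hc
    have : 10 ≤ x3 := by omega
    nlinarith
  have h1 : (e1 = 1 ∧ (x1 = 1 ∨ x1 = 5 ∨ x1 = 9)) ∨ (e1 = -1 ∧ (x1 = 3 ∨ x1 = 7)) := by omega
  have h2 : (e2 = 1 ∧ (x2 = 1 ∨ x2 = 5 ∨ x2 = 9)) ∨ (e2 = -1 ∧ (x2 = 3 ∨ x2 = 7)) := by omega
  have h3 : (e3 = 1 ∧ (x3 = 1 ∨ x3 = 5 ∨ x3 = 9)) ∨ (e3 = -1 ∧ (x3 = 3 ∨ x3 = 7)) := by omega
  exact bswk2_fin e1 e2 e3 x1 x2 x3 N h1 h2 h3 hsum hkey

/-- The congruence `χ(1) + 3 χ(t) ≡ 0 (mod 4)` from the restriction to `C(t)`. -/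
theorem bswk2_cong {G : Type*} [Group G] [Fintype G] {t s : G} {K : Subgroup G}
    (h : BswHyp t s K) (hk : Nat.card K = 2) {χ : G → ℂ} (hχ : IsCharacter G χ) :
    ∃ n : ℕ, χ 1 + 3 * χ t = 4 * (n : ℂ) := by
  classical
  haveI : Fintype (centralizer ({t} : Set G)) := Fintype.ofFinite _
  have hcardC : Nat.card (centralizer ({t} : Set G)) = 4 := by rw [bsw_card_cent h, hk]
  obtain ⟨n, hn⟩ := Cfsg.Agent.Helper3.classInner_isCharacter_nat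
    (Cfsg.Agent.Helper79.isCharacter_restrict hχ (centralizer ({t} : Set G)))
    (Cfsg.Agent.Helper79.isCharacter_one (G := centralizer ({t} : Set G)))
  refine ⟨n, ?_⟩
  have hn' : (Nat.card (centralizer ({t} : Set G)) : ℂ)⁻¹ *
      ∑ c : centralizer ({t} : Set G), χ (c : G) * conj (1 : ℂ) = (n : ℂ) := hn
  have hval : ∀ c : centralizer ({t} : Set G),
      χ (c : G) = χ t + (if c = 1 then χ 1 - χ t else 0) := by
    intro c
    by_cases hc : c = 1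
    · rw [if_pos hc, hc]; simp
    · rw [if_neg hc, add_zero]
      have hc1 : (c : G) ≠ 1 := fun e => hc (Subtype.ext e)
      have hord : orderOf (c : G) = 2 := by
        by_cases hcK : (c : G) ∈ K
        · apply bsw_order_two_of_sq hc1
          have h1 : (⟨(c : G), hcK⟩ : K) ^ Nat.card K = 1 := pow_card_eq_one'
          rw [hk] at h1
          have := congrArg (fun z : K => (z : G)) h1
          simpa [pow_two] using this
        · exact h.order_two_of_cent_not_mem c.2 hcK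
      obtain ⟨g, hg⟩ := isConj_iff.1 (h.hconj (c : G) t hord h.ht)
      exact (Cfsg.Agent.Helper79.isCharacter_conj_eq hχ (c : G) g).symm.trans (congrArg χ hg)
  have hsum : ∑ c : centralizer ({t} : Set G), χ (c : G) * conj (1 : ℂ) = χ 1 + 3 * χ t := by
    simp only [map_one, mul_one]
    rw [Finset.sum_congr rfl (fun c _ => hval c), Finset.sum_add_distrib, Finset.sum_const,
      Finset.sum_ite_eq', if_pos (Finset.mem_univ _), Finset.card_univ,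
      ← Nat.card_eq_fintype_card, hcardC]
    simp only [nsmul_eq_mul]
    push_cast
    ring
  rw [hsum, hcardC] at hn'
  rw [← hn']
  push_cast
  ring

theorem bsw_struct_two {G : Type*} [Group G] [Fintype G] {t s : G} {K : Subgroup G} [Fintype K]
    [Fintype (K →* ℂˣ)] [Fintype (IrrCharacter G)] (h : BswHyp t s K) (hk : Nat.card K = 2) :
    ∃ (ε : ℤ) (X : IrrCharacter G), BswFS K t ε X := by
  classical
  have hcardL : (Finset.univ : Finset (K →* ℂˣ)).card = 2 := by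
    rw [Finset.card_univ, ← Nat.card_eq_fintype_card,
      Cfsg.Agent.Helper82.excHom_card (bsw_comm h), ← Nat.card_eq_fintype_card, hk]
  obtain ⟨l0, hl0, huniv⟩ : ∃ l0 : K →* ℂˣ, l0 ≠ 1 ∧
      (Finset.univ : Finset (K →* ℂˣ)) = {1, l0} := by
    obtain ⟨a, b, hab, hu⟩ := Finset.card_eq_two.1 hcardL
    have h1 : (1 : K →* ℂˣ) ∈ ({a, b} : Finset (K →* ℂˣ)) := hu ▸ Finset.mem_univ _
    rcases Finset.mem_insert.1 h1 with e | e
    · exact ⟨b, fun e' => hab (e.symm.trans e'.symm), by rw [hu, e]⟩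
    · rw [Finset.mem_singleton] at e
      exact ⟨a, fun e' => hab (e'.trans e), by rw [hu, e, Finset.pair_comm]⟩
  have hall : ∀ l : K →* ℂˣ, l = 1 ∨ l = l0 := by
    intro l
    have := Finset.mem_univ l
    rw [huniv] at this
    simpa using this
  have ht1 : t ≠ 1 := bsw_ne_one_of_order_two h.ht
  obtain ⟨tK, htK⟩ : ∃ tK : K, (tK : G) = t := ⟨⟨t, h.htK⟩, rfl⟩
  have htK1 : tK ≠ 1 := fun e => ht1 (by rw [← htK, e]; rfl)
  have hl0t : ((l0 tK : ℂˣ) : ℂ) = -1 := by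
    have h1 := Cfsg.Agent.Helper82.excHom_sum_dual (bsw_comm h) tK
    rw [if_neg htK1, huniv, Finset.sum_pair hl0.symm] at h1
    simp only [MonoidHom.one_apply, Units.val_one] at h1
    linear_combination h1
  have hl0inv : l0⁻¹ = l0 := by
    rcases hall l0⁻¹ with e | e
    · exfalso
      apply hl0
      refine MonoidHom.ext fun x => ?_
      have h2 := DFunLike.congr_fun e x
      rw [MonoidHom.inv_apply, MonoidHom.one_apply, inv_eq_one] at h2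
      rw [MonoidHom.one_apply]; exact h2
    · exact e
  obtain ⟨v, hv⟩ : ∃ v : IrrCharacter G → ℤ, v = bswV K l0 := ⟨_, rfl⟩
  obtain ⟨triv, htriv⟩ : ∃ T : IrrCharacter G, T = Cfsg.Agent.Helper79.trivIrr G := ⟨_, rfl⟩
  have htriv_apply : ∀ g : G, (triv : G → ℂ) g = 1 := fun g => by rw [htriv]; rfl
  have hvtriv : v triv = 1 := by rw [hv, htriv]; exact bswV_triv K hl0
  have hvv : ∑ χ : IrrCharacter G, v χ * v χ = 4 := by
    have h1 := bswV_sum_mul h l0 l0 hl0 hl0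
    rw [if_pos rfl, if_pos hl0inv.symm] at h1
    rw [hv, h1]; norm_num
  obtain ⟨g, hg⟩ : ∃ g : IrrCharacter G → ℤ, g = fun χ => if χ = triv then 0 else v χ :=
    ⟨_, rfl⟩
  have hgg : ∑ χ : IrrCharacter G, g χ * g χ = 3 := by
    have h1 : ∀ χ : IrrCharacter G, g χ * g χ = v χ * v χ - (if χ = triv then 1 else 0) := by
      intro χ
      by_cases hχ : χ = triv
      · simp [hg, hχ, hvtriv]
      · simp [hg, hχ]
    rw [Finset.sum_congr rfl (fun χ _ => h1 χ), Finset.sum_sub_distrib, hvv, Finset.sum_ite_eq']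
    simp
  obtain ⟨X1, X2, X3, h12, h13, h23, hg1, hg2, hg3, hg0⟩ := bswk2_norm_three g hgg
  have hgne : ∀ X : IrrCharacter G, (g X = 1 ∨ g X = -1) →
      X ≠ triv ∧ (v X = 1 ∨ v X = -1) := by
    intro X hX
    have hXt : X ≠ triv := by
      intro e
      rw [hg] at hX
      simp [e] at hX
    refine ⟨hXt, ?_⟩
    rw [hg] at hX
    simpa [hXt] using hX
  obtain ⟨hX1t, he1⟩ := hgne X1 hg1
  obtain ⟨hX2t, he2⟩ := hgne X2 hg2
  obtain ⟨hX3t, he3⟩ := hgne X3 hg3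
  have hv0 : ∀ χ : IrrCharacter G, χ ≠ triv → χ ≠ X1 → χ ≠ X2 → χ ≠ X3 → v χ = 0 := by
    intro χ hχ h1 h2 h3
    have := hg0 χ h1 h2 h3
    rw [hg] at this
    simpa [hχ] using this
  -- values at `t`
  have hvt : ∀ χ : IrrCharacter G, (χ : G → ℂ) t = (v χ : ℂ) := by
    intro χ
    have h1 := bsw_irr_apply h χ tK htK1
    rw [huniv, Finset.sum_pair hl0.symm, bswV_one_hom, hl0t, ← hv, htK] at h1
    rw [h1]
    push_cast
    ring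
  have hdegC : ∀ χ : IrrCharacter G, (χ : G → ℂ) 1 = (charDegree (χ : G → ℂ) : ℂ) := fun χ =>
    Cfsg.Agent.Helper79.isCharacter_one_eq_charDegree (Cfsg.Agent.Helper79.irr_isCharacter χ)
  have hfour : ∀ f : IrrCharacter G → ℂ, (∀ χ, v χ = 0 → f χ = 0) →
      ∑ χ, f χ = f triv + f X1 + f X2 + f X3 := by
    intro f hf
    exact bswk2_sum_four f triv X1 X2 X3 (Ne.symm hX1t) (Ne.symm hX2t) (Ne.symm hX3t) h12 h13
      h23 (fun χ h0 h1 h2 h3 => hf χ (hv0 χ h0 h1 h2 h3))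
  -- the number of involutions
  obtain ⟨N, hN⟩ : ∃ N : ℕ, N = Nat.card {x : G // IsConj t x} := ⟨_, rfl⟩
  have hG4 : Nat.card G = N * 4 := by
    have h1 := bsw_card_G h
    rw [hk, ← hN] at h1
    rw [← h1]
  have hNpos : 0 < N := by
    have h1 : 0 < Nat.card G := Nat.card_pos
    omega
  -- congruences
  have hcong : ∀ χ : IrrCharacter G,
      (4 : ℤ) ∣ (charDegree (χ : G → ℂ) : ℤ) + 3 * v χ := by
    intro χ
    obtain ⟨n, hn⟩ := bswk2_cong h hk (Cfsg.Agent.Helper79.irr_isCharacter χ)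
    rw [hvt, hdegC] at hn
    exact ⟨n, by exact_mod_cast hn⟩
  -- bounds
  have hbound : ∀ χ : IrrCharacter G,
      (charDegree (χ : G → ℂ) : ℤ) * (charDegree (χ : G → ℂ) : ℤ) ≤ 4 * (N : ℤ) := by
    intro χ
    have h1 := Cfsg.Agent.Helper80.irr_sum_charDegree_sq (G := G)
    have h2 : charDegree (χ : G → ℂ) ^ 2 ≤ ∑ ψ : IrrCharacter G, charDegree (ψ : G → ℂ) ^ 2 :=
      Finset.single_le_sum (f := fun ψ : IrrCharacter G => charDegree (ψ : G → ℂ) ^ 2)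
        (fun _ _ => Nat.zero_le _) (Finset.mem_univ χ)
    rw [h1, ← Nat.card_eq_fintype_card, hG4] at h2
    have h3 : charDegree (χ : G → ℂ) * charDegree (χ : G → ℂ) ≤ 4 * N := by
      rw [← pow_two]; omega
    exact_mod_cast h3
  -- the degree equation
  have hdeg : ∑ ψ : IrrCharacter G, (v ψ : ℂ) * (ψ : G → ℂ) 1 = 0 := by
    rw [hv]; exact bswV_deg K l0
  rw [hfour (fun ψ => (v ψ : ℂ) * (ψ : G → ℂ) 1) (fun χ hχ => by simp [hχ])] at hdeg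
  have hdegZ : 1 + v X1 * (charDegree (X1 : G → ℂ) : ℤ) + v X2 * (charDegree (X2 : G → ℂ) : ℤ)
      + v X3 * (charDegree (X3 : G → ℂ) : ℤ) = 0 := by
    have h1 : ((1 + v X1 * (charDegree (X1 : G → ℂ) : ℤ) + v X2 * (charDegree (X2 : G → ℂ) : ℤ)
      + v X3 * (charDegree (X3 : G → ℂ) : ℤ) : ℤ) : ℂ) = 0 := by
      push_cast
      rw [← hdegC X1, ← hdegC X2, ← hdegC X3]
      have h2 := hdeg
      simp only [hvtriv, htriv_apply, Int.cast_one, mul_one] at h2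
      linear_combination h2
    exact_mod_cast h1
  -- the key equation
  have hkey : (N : ℂ) * ∑ χ : IrrCharacter G, (v χ : ℂ) *
      ((χ : G → ℂ) t * (χ : G → ℂ) t / (χ : G → ℂ) 1) = 2 * (Nat.card K : ℂ) ^ 2 := by
    rw [hv, hN]; exact bsw_key h hl0
  rw [hfour (fun χ => (v χ : ℂ) * ((χ : G → ℂ) t * (χ : G → ℂ) t / (χ : G → ℂ) 1))
    (fun χ hχ => by simp [hχ])] at hkey
  simp only [hvt, hdegC X1, hdegC X2, hdegC X3, htriv_apply, hvtriv, hk] at hkey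
  have hD : ∀ χ : IrrCharacter G, (v χ = 1 ∨ v χ = -1) →
      (charDegree (χ : G → ℂ) : ℂ) ≠ 0 ∧ (v χ : ℂ) * (v χ : ℂ) = 1 := by
    intro χ hχ
    have h1 := hcong χ
    constructor
    · have h2 : (charDegree (χ : G → ℂ) : ℤ) ≠ 0 := by
        rcases hχ with e | e <;> rw [e] at h1 <;> omega
      exact_mod_cast h2
    · rcases hχ with e | e <;> rw [e] <;> norm_num
  obtain ⟨hD1, hs1⟩ := hD X1 he1
  obtain ⟨hD2, hs2⟩ := hD X2 he2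
  obtain ⟨hD3, hs3⟩ := hD X3 he3
  have hkeyZ : (N : ℤ) * ((charDegree (X1 : G → ℂ) : ℤ) * (charDegree (X2 : G → ℂ) : ℤ) *
        (charDegree (X3 : G → ℂ) : ℤ) +
      v X1 * ((charDegree (X2 : G → ℂ) : ℤ) * (charDegree (X3 : G → ℂ) : ℤ)) +
      v X2 * ((charDegree (X1 : G → ℂ) : ℤ) * (charDegree (X3 : G → ℂ) : ℤ)) +
      v X3 * ((charDegree (X1 : G → ℂ) : ℤ) * (charDegree (X2 : G → ℂ) : ℤ))) =
      8 * ((charDegree (X1 : G → ℂ) : ℤ) * (charDegree (X2 : G → ℂ) : ℤ) *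
        (charDegree (X3 : G → ℂ) : ℤ)) := by
    obtain ⟨D1, hD1e⟩ : ∃ D : ℂ, D = (charDegree (X1 : G → ℂ) : ℂ) := ⟨_, rfl⟩
    obtain ⟨D2, hD2e⟩ : ∃ D : ℂ, D = (charDegree (X2 : G → ℂ) : ℂ) := ⟨_, rfl⟩
    obtain ⟨D3, hD3e⟩ : ∃ D : ℂ, D = (charDegree (X3 : G → ℂ) : ℂ) := ⟨_, rfl⟩
    obtain ⟨E1, hE1e⟩ : ∃ E : ℂ, E = (v X1 : ℂ) := ⟨_, rfl⟩
    obtain ⟨E2, hE2e⟩ : ∃ E : ℂ, E = (v X2 : ℂ) := ⟨_, rfl⟩
    obtain ⟨E3, hE3e⟩ : ∃ E : ℂ, E = (v X3 : ℂ) := ⟨_, rfl⟩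
    rw [← hD1e] at hD1
    rw [← hD2e] at hD2
    rw [← hD3e] at hD3
    rw [← hE1e] at hs1
    rw [← hE2e] at hs2
    rw [← hE3e] at hs3
    rw [← hD1e, ← hD2e, ← hD3e, ← hE1e, ← hE2e, ← hE3e] at hkey
    have hkey2 : (N : ℂ) * (1 + E1 / D1 + E2 / D2 + E3 / D3) = 8 := by
      have e1 : E1 * (E1 * E1 / D1) = E1 / D1 := by rw [hs1]; ring
      have e2 : E2 * (E2 * E2 / D2) = E2 / D2 := by rw [hs2]; ring
      have e3 : E3 * (E3 * E3 / D3) = E3 / D3 := by rw [hs3]; ring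
      rw [e1, e2, e3] at hkey
      norm_num at hkey
      linear_combination hkey
    have hkey3 : (N : ℂ) * (D1 * D2 * D3 + E1 * (D2 * D3) + E2 * (D1 * D3) + E3 * (D1 * D2)) =
        8 * (D1 * D2 * D3) := by
      have e : D1 * D2 * D3 + E1 * (D2 * D3) + E2 * (D1 * D3) + E3 * (D1 * D2) =
          D1 * D2 * D3 * (1 + E1 / D1 + E2 / D2 + E3 / D3) := by
        field_simp
      rw [e]
      linear_combination (D1 * D2 * D3) * hkey2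
    rw [hD1e, hD2e, hD3e, hE1e, hE2e, hE3e] at hkey3
    exact_mod_cast hkey3
  have harith := bswk2_arith (v X1) (v X2) (v X3) (charDegree (X1 : G → ℂ) : ℤ)
    (charDegree (X2 : G → ℂ) : ℤ) (charDegree (X3 : G → ℂ) : ℤ) (N : ℤ) he1 he2 he3
    (Int.natCast_nonneg _) (Int.natCast_nonneg _) (Int.natCast_nonneg _) (by exact_mod_cast hNpos)
    (hcong X1) (hcong X2) (hcong X3) hdegZ hkeyZ (hbound X1) (hbound X2) (hbound X3)
  -- assembly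
  have hsumL : ∀ χ : IrrCharacter G, ∑ lam : K →* ℂˣ, (bswV K lam χ : ℂ) = (v χ : ℂ) := by
    intro χ
    rw [huniv, Finset.sum_pair hl0.symm, bswV_one_hom, ← hv]
    simp
  have hGZ : (Nat.card G : ℤ) = (N : ℤ) * 4 := by exact_mod_cast hG4
  have asm : ∀ Y1 Y2 Y3 : IrrCharacter G,
      (∀ χ : IrrCharacter G, χ ≠ triv → χ ≠ Y1 → χ ≠ Y2 → χ ≠ Y3 → v χ = 0) →
      ((v Y1 = -1 ∧ (charDegree (Y1 : G → ℂ) : ℤ) = 3 ∧ v Y2 = 1 ∧
          (charDegree (Y2 : G → ℂ) : ℤ) = 1 ∧ v Y3 = 1 ∧ (charDegree (Y3 : G → ℂ) : ℤ) = 1 ∧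
          (N : ℤ) = 3) ∨
        (v Y1 = 1 ∧ (charDegree (Y1 : G → ℂ) : ℤ) = 5 ∧ v Y2 = -1 ∧
          (charDegree (Y2 : G → ℂ) : ℤ) = 3 ∧ v Y3 = -1 ∧ (charDegree (Y3 : G → ℂ) : ℤ) = 3 ∧
          (N : ℤ) = 15)) → BswFS K t (v Y1) Y1 := by
    intro Y1 Y2 Y3 hY0 hcase
    have hlam : ∀ lam : K →* ℂˣ, lam ≠ 1 → bswV K lam Y1 = v Y1 := by
      intro lam hlam
      rcases hall lam with e | e
      · exact absurd e hlam
      · rw [e, ← hv]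
    unfold BswFS
    rcases hcase with ⟨e1, d1, e2, d2, e3, d3, hNv⟩ | ⟨e1, d1, e2, d2, e3, d3, hNv⟩
    · have d1C : (charDegree (Y1 : G → ℂ) : ℂ) = 3 := by exact_mod_cast d1
      have d2C : (charDegree (Y2 : G → ℂ) : ℂ) = 1 := by exact_mod_cast d2
      have d3C : (charDegree (Y3 : G → ℂ) : ℂ) = 1 := by exact_mod_cast d3
      refine ⟨Or.inr e1, hlam, ?_, ?_, ?_⟩
      · rw [hdegC, d1C, hk, e1]; push_cast; norm_num
      · rw [hGZ, hNv, hk, e1]; norm_num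
      · intro χ hχ1' hχ2
        have hχ1 : χ ≠ triv := by rw [htriv]; exact hχ1'
        rw [hsumL, hvt, hdegC, hk, e1]
        by_cases h2 : χ = Y2
        · rw [h2, e2, d2C]; push_cast; norm_num
        · by_cases h3 : χ = Y3
          · rw [h3, e3, d3C]; push_cast; norm_num
          · rw [hY0 χ hχ1 hχ2 h2 h3]; simp
    · have d1C : (charDegree (Y1 : G → ℂ) : ℂ) = 5 := by exact_mod_cast d1
      have d2C : (charDegree (Y2 : G → ℂ) : ℂ) = 3 := by exact_mod_cast d2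
      have d3C : (charDegree (Y3 : G → ℂ) : ℂ) = 3 := by exact_mod_cast d3
      refine ⟨Or.inl e1, hlam, ?_, ?_, ?_⟩
      · rw [hdegC, d1C, hk, e1]; push_cast; norm_num
      · rw [hGZ, hNv, hk, e1]; norm_num
      · intro χ hχ1' hχ2
        have hχ1 : χ ≠ triv := by rw [htriv]; exact hχ1'
        rw [hsumL, hvt, hdegC, hk, e1]
        by_cases h2 : χ = Y2
        · rw [h2, e2, d2C]; push_cast; norm_num
        · by_cases h3 : χ = Y3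
          · rw [h3, e3, d3C]; push_cast; norm_num
          · rw [hY0 χ hχ1 hχ2 h2 h3]; simp
  rcases harith with c | c | c | c | c | c
  · exact ⟨v X1, X1, asm X1 X2 X3 hv0 (Or.inl c)⟩
  · exact ⟨v X1, X1, asm X1 X2 X3 hv0 (Or.inr c)⟩
  · exact ⟨v X2, X2, asm X2 X1 X3 (fun χ h0 h2 h1 h3 => hv0 χ h0 h1 h2 h3) (Or.inl c)⟩
  · exact ⟨v X2, X2, asm X2 X1 X3 (fun χ h0 h2 h1 h3 => hv0 χ h0 h1 h2 h3) (Or.inr c)⟩
  · exact ⟨v X3, X3, asm X3 X1 X2 (fun χ h0 h3 h1 h2 => hv0 χ h0 h1 h2 h3) (Or.inl c)⟩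
  · exact ⟨v X3, X3, asm X3 X1 X2 (fun χ h0 h3 h1 h2 => hv0 χ h0 h1 h2 h3) (Or.inr c)⟩

end Cfsg.Agent.Helper51
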