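import Mathlib
import Cfsg.Agent.S0256

set_option autoImplicit false

/-!
# Automorphisms of a small elementary abelian 2-group embed in `A₈` (helper51)

`ae2_embed`: for a finite group `V` of exponent dividing `2` and order at most `16`, the group
`MulAut V` embeds in the alternating group of degree `8` (through `GL₄(2) ≅ PSL₄(2) ≅ A₈`).
-/

namespace Cfsg.Agent.Helper51

/-- `GL₄(2) → SL₄(2)`: every invertible matrix over the field with two elements has determinant `1`. -/
def ae2_glToSl : GL (Fin 4) (ZMod 2) →* Matrix.SpecialLinearGroup (Fin 4) (ZMod 2) where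
  toFun g := ⟨g.val, by
    have h : IsUnit (Matrix.det g.val) := (Matrix.isUnit_iff_isUnit_det _).mp g.isUnit
    have h0 := h.ne_zero
    have key : ∀ d : ZMod 2, d ≠ 0 → d = 1 := by decide
    exact key _ h0⟩
  map_one' := rfl
  map_mul' _ _ := rfl

theorem ae2_glToSl_injective : Function.Injective ae2_glToSl := by
  intro g h hgh
  apply Units.ext
  exact congrArg Subtype.val hgh

theorem ae2_center_sl : Subgroup.center (Matrix.SpecialLinearGroup (Fin 4) (ZMod 2)) = ⊥ := by
  rw [eq_bot_iff]
  intro A hA
  rw [Matrix.SpecialLinearGroup.mem_center_iff] at hA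
  obtain ⟨r, hr, hrA⟩ := hA
  have key : ∀ d : ZMod 2, d ^ 4 = 1 → d = 1 := by decide
  have hr1 : r = 1 := key r (by simpa using hr)
  rw [Subgroup.mem_bot]
  apply Subtype.ext
  rw [← hrA, hr1]
  simp

theorem ae2_sl_embed :
    ∃ f : Matrix.SpecialLinearGroup (Fin 4) (ZMod 2) →* alternatingGroup (Fin 8),
      Function.Injective f := by
  obtain ⟨e⟩ := Cfsg.Agent.S0256.result (F := ZMod 2) (ZMod.card 2)
  let π : Matrix.SpecialLinearGroup (Fin 4) (ZMod 2) →*
      Matrix.ProjectiveSpecialLinearGroup (Fin 4) (ZMod 2) :=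
    QuotientGroup.mk' (Subgroup.center (Matrix.SpecialLinearGroup (Fin 4) (ZMod 2)))
  have hπ : Function.Injective π := by
    rw [← MonoidHom.ker_eq_bot_iff]
    show (QuotientGroup.mk' (Subgroup.center (Matrix.SpecialLinearGroup (Fin 4) (ZMod 2)))).ker = ⊥
    rw [QuotientGroup.ker_mk', ae2_center_sl]
  exact ⟨e.toMonoidHom.comp π, e.injective.comp hπ⟩

/-- For a finite commutative group of exponent `2` and order at most `16`, `MulAut V` embeds in
`GL₄(2)`. -/
theorem ae2_embed_gl {V : Type*} [CommGroup V] [Finite V] (h2 : ∀ v : V, v ^ 2 = 1)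
    (hc : Nat.card V ≤ 16) :
    ∃ f : MulAut V →* GL (Fin 4) (ZMod 2), Function.Injective f := by
  classical
  letI : Module (ZMod 2) (Additive V) := AddCommGroup.zmodModule (n := 2) (fun x => by
    have := h2 (Additive.toMul x)
    exact congrArg Additive.ofMul this)
  haveI : Module.Finite (ZMod 2) (Additive V) := Module.Finite.of_finite
  have hcard : Nat.card (Additive V) = 2 ^ Module.finrank (ZMod 2) (Additive V) := by
    rw [Module.natCard_eq_pow_finrank (K := ZMod 2) (V := Additive V)]
    simp
  have hr4 : Module.finrank (ZMod 2) (Additive V) ≤ 4 := by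
    have h1 : 2 ^ Module.finrank (ZMod 2) (Additive V) ≤ 2 ^ 4 := by
      rw [← hcard]
      exact hc
    exact (Nat.pow_le_pow_iff_right (by norm_num)).mp h1
  have hW : Module.finrank (ZMod 2)
      (Additive V × (Fin (4 - Module.finrank (ZMod 2) (Additive V)) → ZMod 2)) = 4 := by
    rw [Module.finrank_prod, Module.finrank_fin_fun]
    omega
  let b := Module.finBasisOfFinrankEq (ZMod 2)
    (Additive V × (Fin (4 - Module.finrank (ZMod 2) (Additive V)) → ZMod 2)) hW
  let ψ : MulAut V →* Module.End (ZMod 2)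
      (Additive V × (Fin (4 - Module.finrank (ZMod 2) (Additive V)) → ZMod 2)) :=
    { toFun := fun e => LinearMap.prodMap
        (AddMonoidHom.toZModLinearMap 2 (MonoidHom.toAdditive e.toMonoidHom)) LinearMap.id
      map_one' := by
        apply LinearMap.ext
        rintro ⟨x, y⟩
        rfl
      map_mul' := by
        intro e₁ e₂
        apply LinearMap.ext
        rintro ⟨x, y⟩
        rfl }
  have hψ : Function.Injective ψ := by
    intro e₁ e₂ h
    ext v
    have h1 := congrArg (fun f : Module.End (ZMod 2)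
      (Additive V × (Fin (4 - Module.finrank (ZMod 2) (Additive V)) → ZMod 2)) =>
        (f (Additive.ofMul v, 0)).1) h
    exact h1
  refine ⟨(Units.map (LinearMap.toMatrixAlgEquiv b).toAlgHom.toRingHom.toMonoidHom).comp
    ψ.toHomUnits, ?_⟩
  intro e₁ e₂ h
  apply hψ
  have h1 := congrArg Units.val h
  exact (LinearMap.toMatrixAlgEquiv b).injective h1

/-- For a finite group of exponent `2` and order at most `16`, `MulAut V` embeds in `A₈`. -/
theorem ae2_embed {V : Type*} [Group V] [Finite V] (h2 : ∀ v : V, v ^ 2 = 1)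
    (hc : Nat.card V ≤ 16) :
    ∃ f : MulAut V →* alternatingGroup (Fin 8), Function.Injective f := by
  have hcomm : ∀ a b : V, a * b = b * a := by
    intro a b
    have ha : a⁻¹ = a := by
      rw [inv_eq_iff_mul_eq_one, ← pow_two]; exact h2 a
    have hb : b⁻¹ = b := by
      rw [inv_eq_iff_mul_eq_one, ← pow_two]; exact h2 b
    have hab : (a * b)⁻¹ = a * b := by
      rw [inv_eq_iff_mul_eq_one, ← pow_two]; exact h2 (a * b)
    calc a * b = (a * b)⁻¹ := hab.symm
      _ = b⁻¹ * a⁻¹ := mul_inv_rev a b
      _ = b * a := by rw [ha, hb]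
  letI : CommGroup V := { (inferInstance : Group V) with mul_comm := hcomm }
  obtain ⟨f, hf⟩ := ae2_embed_gl (V := V) h2 hc
  obtain ⟨g, hg⟩ := ae2_sl_embed
  exact ⟨(g.comp ae2_glToSl).comp f, (hg.comp ae2_glToSl_injective).comp hf⟩

end Cfsg.Agent.Helper51
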