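import Cfsg.Agent.Helper51.Basic
import Cfsg.Prelude.Def_DStar

set_option autoImplicit false

namespace Cfsg.Agent.Helper51

open Subgroup
open scoped commutatorElement

variable {S : Type*} [Group S]

/-- The class-two condition of `dStarFamily` is monotone in the subgroup. -/
theorem classTwo_mono {A B : Subgroup S} (h : A ≤ B) (x : S)
    (hB : ⁅⁅B ⊔ zpowers x, B ⊔ zpowers x⁆, B ⊔ zpowers x⁆ = ⊥) :
    ⁅⁅A ⊔ zpowers x, A ⊔ zpowers x⁆, A ⊔ zpowers x⁆ = ⊥ := by
  have hle : A ⊔ zpowers x ≤ B ⊔ zpowers x := sup_le_sup_right h _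
  exact le_bot_iff.mp (hB ▸ commutator_mono (commutator_mono hle hle) hle)

/-- In a nilpotent group, every member of the family `dStarFamily` centralizes every normal
abelian subgroup. -/
theorem dStarFamily_commute_normal_abelian [Group.IsNilpotent S] {A : Subgroup S}
    (hA : A ∈ Cfsg.dStarFamily S) (B : Subgroup S) (hBn : B.Normal) (hB : IsMulCommutative B) :
    ∀ a ∈ A, ∀ b ∈ B, a * b = b * a := by
  obtain ⟨hAc, hAx⟩ := hA
  have key : ∀ n : ℕ, ∀ b ∈ B ⊓ Subgroup.upperCentralSeries S n, ∀ a ∈ A, a * b = b * a := by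
    intro n
    induction n with
    | zero =>
      intro b hb a _
      have hb2 := (Subgroup.mem_inf.mp hb).2
      rw [Subgroup.upperCentralSeries_zero, Subgroup.mem_bot] at hb2
      subst hb2
      simp
    | succ n ih =>
      intro b hb' a ha
      have hb := Subgroup.mem_inf.mp hb'
      apply hAx b ?_ a ha
      apply class_two_of_central_commutators A b (B ⊓ Subgroup.upperCentralSeries S n)
      · intro a ha b hb; exact comm_of_mem hAc ha hb
      · intro z hz a ha; exact (ih z hz a ha).symm
      · intro z hz; exact comm_of_mem hB (Subgroup.mem_inf.mp hz).1 hb.1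
      · intro a _
        refine Subgroup.mem_inf.mpr ⟨?_, ?_⟩
        · exact B.mul_mem (hBn.conj_mem b hb.1 a) (B.inv_mem hb.1)
        · rw [← commutatorElement_inv]
          exact inv_mem ((Subgroup.mem_upperCentralSeries_succ_iff.mp hb.2) a)
  obtain ⟨n, hn⟩ := Group.IsNilpotent.nilpotent S
  intro a ha b hb
  exact key n b (Subgroup.mem_inf.mpr ⟨hb, by rw [hn]; exact mem_top b⟩) a ha

/-- In a nilpotent group, every member of `dStarFamily` lies in every maximal normal abelian
subgroup. -/
theorem dStarFamily_le_maximal_normal_abelian [Group.IsNilpotent S] {A : Subgroup S}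
    (hA : A ∈ Cfsg.dStarFamily S) (B : Subgroup S) (hBn : B.Normal) (hB : IsMulCommutative B)
    (hmax : ∀ B' : Subgroup S, B'.Normal → IsMulCommutative B' → B ≤ B' → B' = B) : A ≤ B := by
  refine le_trans ?_ (centralizer_le_of_maximal_normal_abelian B hBn hB hmax)
  intro a ha
  rw [mem_centralizer_iff]
  intro b hb
  exact (dStarFamily_commute_normal_abelian hA B hBn hB a ha b hb).symm

/-- `D*(S)` lies in every maximal normal abelian subgroup of a nilpotent group `S`. -/
theorem dStar_le_maximal_normal_abelian [Group.IsNilpotent S] (B : Subgroup S) (hBn : B.Normal)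
    (hB : IsMulCommutative B)
    (hmax : ∀ B' : Subgroup S, B'.Normal → IsMulCommutative B' → B ≤ B' → B' = B) :
    Cfsg.dStar S ≤ B :=
  sSup_le fun _ hA => dStarFamily_le_maximal_normal_abelian hA B hBn hB hmax

/-- `D*(S)` is abelian for a finite nilpotent group `S`. -/
theorem dStar_isMulCommutative [Finite S] [Group.IsNilpotent S] :
    IsMulCommutative ↥(Cfsg.dStar S) := by
  obtain ⟨B, hBn, hB, hmax⟩ := exists_maximal_normal_abelian (G := S)
  exact isMulCommutative_of_le hB (dStar_le_maximal_normal_abelian B hBn hB hmax)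

/-- `D*(S)` is itself a member of the family generating it (finite nilpotent `S`). -/
theorem dStar_mem_dStarFamily [Finite S] [Group.IsNilpotent S] :
    Cfsg.dStar S ∈ Cfsg.dStarFamily S := by
  refine ⟨dStar_isMulCommutative, ?_⟩
  intro x hx
  have hle : Cfsg.dStar S ≤ centralizer ({x} : Set S) := by
    apply sSup_le
    intro A hA a ha
    rw [mem_centralizer_iff]
    intro y hy
    rw [Set.mem_singleton_iff] at hy
    subst hy
    exact (hA.2 y (classTwo_mono (le_sSup hA) y hx) a ha).symm
  intro a ha
  have := mem_centralizer_iff.mp (hle ha) x (Set.mem_singleton x)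
  exact this.symm

/-- The centre is a member of `dStarFamily`. -/
theorem center_mem_dStarFamily : Subgroup.center S ∈ Cfsg.dStarFamily S := by
  refine ⟨inferInstance, ?_⟩
  intro x _ a ha
  exact (Subgroup.mem_center_iff.mp ha x).symm

end Cfsg.Agent.Helper51
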