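import Cfsg.Agent.Helper51.DStar
import Cfsg.Agent.Helper51.Replace
import Cfsg.Prelude.Def_PLocal

set_option autoImplicit false

namespace Cfsg.Agent.Helper51

open Subgroup
open scoped commutatorElement

variable {S : Type*} [Group S]

/-- In a nilpotent group, a normal subgroup `D` not contained in a subgroup `N` has an element
outside `N` all of whose commutators (and those of its inverse) lie in `N`. -/
theorem exists_layer_elt [Group.IsNilpotent S] (D N : Subgroup S) (hD : D.Normal) (h : ¬ D ≤ N) :
    ∃ x ∈ D, x ∉ N ∧ (∀ s : S, ⁅x, s⁆ ∈ N) ∧ (∀ s : S, ⁅x⁻¹, s⁆ ∈ N) := by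
  by_contra hcon
  apply h
  have key : ∀ n : ℕ, D ⊓ Subgroup.upperCentralSeries S n ≤ N := by
    intro n
    induction n with
    | zero =>
      rw [Subgroup.upperCentralSeries_zero]
      exact inf_le_right.trans bot_le
    | succ n ih =>
      intro x hx'
      have hx := Subgroup.mem_inf.mp hx'
      by_contra hxN
      apply hcon
      have hcommD : ∀ y ∈ D, ∀ s : S, ⁅y, s⁆ ∈ D := by
        intro y hy s
        have e : ⁅y, s⁆ = y * (s * y⁻¹ * s⁻¹) := by
          rw [commutatorElement_def]; group
        rw [e]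
        exact D.mul_mem hy (hD.conj_mem _ (D.inv_mem hy) s)
      refine ⟨x, hx.1, hxN, ?_, ?_⟩
      · intro s
        exact ih (Subgroup.mem_inf.mpr ⟨hcommD x hx.1 s,
          (Subgroup.mem_upperCentralSeries_succ_iff.mp hx.2) s⟩)
      · intro s
        exact ih (Subgroup.mem_inf.mpr ⟨hcommD x⁻¹ (D.inv_mem hx.1) s,
          (Subgroup.mem_upperCentralSeries_succ_iff.mp (inv_mem hx.2)) s⟩)
  obtain ⟨n, hn⟩ := Group.IsNilpotent.nilpotent S
  intro x hx
  exact key n (Subgroup.mem_inf.mpr ⟨hx, by rw [hn]; exact mem_top x⟩)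

/-- The family `dStarFamily` is carried to itself by group isomorphisms. -/
theorem dStarFamily_map_equiv {S' : Type*} [Group S'] (e : S ≃* S') {A : Subgroup S}
    (hA : A ∈ Cfsg.dStarFamily S) : A.map e.toMonoidHom ∈ Cfsg.dStarFamily S' := by
  obtain ⟨hAc, hAx⟩ := hA
  refine ⟨?_, ?_⟩
  · have := hAc
    infer_instance
  · intro x' hx'
    have hx : x' = e.toMonoidHom (e.symm x') := by simp
    rw [hx] at hx'
    rw [← MonoidHom.map_zpowers, ← Subgroup.map_sup, ← map_commutator, ← map_commutator,
      map_eq_bot_iff_of_injective _ e.injective] at hx'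
    rintro _ ⟨a, ha, rfl⟩
    have := hAx (e.symm x') hx' a ha
    have h2 := congrArg e.toMonoidHom this
    simpa using h2

/-- `D*(S)` is a normal subgroup. -/
theorem dStar_normal : (Cfsg.dStar S).Normal := by
  apply normal_of_conj_le
  intro s
  rw [map_le_iff_le_comap]
  apply sSup_le
  intro A hA
  rw [← map_le_iff_le_comap]
  exact le_sSup (dStarFamily_map_equiv (MulAut.conj s) hA)

/-- The image of `D*(S)` under an isomorphism is `D*` of the image. -/
theorem dStar_map_equiv {S' : Type*} [Group S'] (e : S ≃* S') :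
    (Cfsg.dStar S).map e.toMonoidHom = Cfsg.dStar S' := by
  apply le_antisymm
  · rw [map_le_iff_le_comap]
    apply sSup_le
    intro A hA
    rw [← map_le_iff_le_comap]
    exact le_sSup (dStarFamily_map_equiv e hA)
  · apply sSup_le
    intro A hA
    have h1 : A.map e.symm.toMonoidHom ≤ Cfsg.dStar S := le_sSup (dStarFamily_map_equiv e.symm hA)
    intro a ha
    exact ⟨e.symm a, h1 ⟨a, ha, rfl⟩, by simp⟩

/-- There is an abelian subgroup of largest order in a finite group. -/
theorem exists_mem_maxAbelianSubgroups [Finite S] : ∃ B : Subgroup S, B ∈ Cfsg.maxAbelianSubgroups S := by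
  have : Nonempty {B : Subgroup S // IsMulCommutative B} := ⟨⟨⊥, inferInstance⟩⟩
  obtain ⟨B, hB⟩ := Finite.exists_max
    (fun B : {B : Subgroup S // IsMulCommutative B} => Nat.card B.1)
  exact ⟨B.1, B.2, fun C hC => hB ⟨C, hC⟩⟩

/-- `D*(S)` lies in every abelian subgroup of largest order of a finite nilpotent group `S`. -/
theorem dStar_le_of_mem_maxAbelianSubgroups [Finite S] [Group.IsNilpotent S] :
    ∀ B ∈ Cfsg.maxAbelianSubgroups S, Cfsg.dStar S ≤ B := by
  have hDn : (Cfsg.dStar S).Normal := dStar_normal
  have hDmem : Cfsg.dStar S ∈ Cfsg.dStarFamily S := dStar_mem_dStarFamily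
  have hDc : IsMulCommutative ↥(Cfsg.dStar S) := hDmem.1
  have main : ∀ n : ℕ, ∀ B ∈ Cfsg.maxAbelianSubgroups S,
      Nat.card ↥(Cfsg.dStar S) - Nat.card ↥(B ⊓ Cfsg.dStar S) = n → Cfsg.dStar S ≤ B := by
    intro n
    induction n using Nat.strong_induction_on with
    | _ n ih =>
      intro B hB hn
      have hBc : IsMulCommutative ↥B := hB.1
      -- first: if D normalizes B then D ≤ B
      have step : Cfsg.dStar S ≤ normalizer (B : Set S) → Cfsg.dStar S ≤ B := by
        intro hDN
        have hcomm : ∀ d ∈ Cfsg.dStar S, ∀ b ∈ B, d * b = b * d := by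
          intro d hd b hb
          apply hDmem.2 b ?_ d hd
          apply class_two_of_central_commutators (Cfsg.dStar S) b (Cfsg.dStar S ⊓ B)
          · intro a ha c hc; exact comm_of_mem hDc ha hc
          · intro z hz a ha; exact comm_of_mem hDc (Subgroup.mem_inf.mp hz).1 ha
          · intro z hz; exact comm_of_mem hBc (Subgroup.mem_inf.mp hz).2 hb
          · intro a ha
            refine Subgroup.mem_inf.mpr ⟨?_, ?_⟩
            · have e : ⁅a, b⁆ = a * (b * a⁻¹ * b⁻¹) := by
                rw [commutatorElement_def]; group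
              rw [e]
              exact mul_mem ha (hDn.conj_mem _ (inv_mem ha) b)
            · have e : ⁅a, b⁆ = (a * b * a⁻¹) * b⁻¹ := by
                rw [commutatorElement_def]
              rw [e]
              exact mul_mem ((mem_normalizer_iff.mp (hDN ha) b).mp hb) (inv_mem hb)
        have hsupc : IsMulCommutative ↥(Cfsg.dStar S ⊔ B) :=
          sup_isMulCommutative _ _ hDc hBc hcomm
        have hcard := hB.2 _ hsupc
        have heq : B = Cfsg.dStar S ⊔ B := eq_of_le_of_card_ge le_sup_right hcard
        rw [heq]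
        exact le_sup_left
      apply step
      by_contra hDN
      obtain ⟨x, hxD, hxN, hx1, hx2⟩ := exists_layer_elt (Cfsg.dStar S) (normalizer (B : Set S)) hDn hDN
      have hBN : B ≤ normalizer (B : Set S) := le_normalizer
      obtain ⟨Bs, hBsc, hBscard, hBsle, -, hBslt⟩ := replacement B (Cfsg.dStar S) x hBc hDc
        (by
          intro b hb
          rw [mem_normalizer_map_conj]
          have e : x⁻¹ * b * x = ⁅x⁻¹, b⁆ * b := by
            rw [commutatorElement_def]; group
          rw [e]
          exact mul_mem (hx2 b) (hBN hb))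
        (by
          intro b _
          have e : ⁅x, b⁆ = x * (b * x⁻¹ * b⁻¹) := by
            rw [commutatorElement_def]; group
          rw [e]
          exact mul_mem hxD (hDn.conj_mem _ (inv_mem hxD) b))
        (by
          intro b _
          rw [mem_normalizer_iff]
          intro h
          constructor
          · intro hh; exact hDn.conj_mem h hh b
          · intro hh
            have := hDn.conj_mem _ hh b⁻¹
            simpa [mul_assoc] using this)
      have hBsmem : Bs ∈ Cfsg.maxAbelianSubgroups S :=
        ⟨hBsc, fun C hC => (hB.2 C hC).trans hBscard⟩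
      have hlt := hBslt hxN
      have hle2 : Nat.card ↥(Bs ⊓ Cfsg.dStar S) ≤ Nat.card ↥(Cfsg.dStar S) := card_le_of_le inf_le_right
      have hDBs : Cfsg.dStar S ≤ Bs := ih _ (by omega) Bs hBsmem rfl
      apply hDN
      refine hDBs.trans (hBsle.trans (sup_le hBN ?_))
      rintro _ ⟨b, hb, rfl⟩
      have e : (MulAut.conj x).toMonoidHom b = ⁅x, b⁆ * b := by
        simp [MulAut.conj_apply, commutatorElement_def]
      rw [e]
      exact mul_mem (hx1 b) (hBN hb)
  intro B hB
  exact main _ B hB rfl

/-- `D*(S) ≤ Z(J(S))` for the abelian-version Thompson subgroup of a finite nilpotent group. -/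
theorem dStar_le_center_thompsonA [Finite S] [Group.IsNilpotent S] :
    Cfsg.dStar S ≤ Cfsg.thompsonSubgroupA S ⊓
      Subgroup.centralizer (Cfsg.thompsonSubgroupA S : Set S) := by
  apply le_inf
  · obtain ⟨B, hB⟩ := exists_mem_maxAbelianSubgroups (S := S)
    exact (dStar_le_of_mem_maxAbelianSubgroups B hB).trans (le_sSup hB)
  · rw [le_centralizer_iff]
    apply sSup_le
    intro B hB b hb
    rw [mem_centralizer_iff]
    intro d hd
    exact comm_of_mem hB.1 (dStar_le_of_mem_maxAbelianSubgroups B hB hd) hb

end Cfsg.Agent.Helper51
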