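import Cfsg.Agent.Helper51.DStar2
import Cfsg.Agent.Helper51.PCore

set_option autoImplicit false

namespace Cfsg.Agent.Helper51

open Subgroup
open scoped commutatorElement

variable {G : Type*} [Group G]

/-- `D*(P)`, viewed in `G`, lies in `P`. -/
theorem dStarOf_le (P : Subgroup G) : Cfsg.dStarOf P ≤ P :=
  map_subtype_le _

/-- `D*(P)`, viewed in `G`, is abelian (finite nilpotent `P`). -/
theorem dStarOf_isMulCommutative (P : Subgroup G) [Finite ↥P] [Group.IsNilpotent ↥P] :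
    IsMulCommutative ↥(Cfsg.dStarOf P) := by
  have := dStar_isMulCommutative (S := ↥P)
  unfold Cfsg.dStarOf
  infer_instance

/-- The defining property of `D*(P)` read inside `G`. -/
theorem dStarOf_family (P : Subgroup G) [Finite ↥P] [Group.IsNilpotent ↥P] {x : G} (hx : x ∈ P)
    (h : ⁅⁅Cfsg.dStarOf P ⊔ zpowers x, Cfsg.dStarOf P ⊔ zpowers x⁆, Cfsg.dStarOf P ⊔ zpowers x⁆ = ⊥) :
    ∀ d ∈ Cfsg.dStarOf P, d * x = x * d := by
  have hmem := dStar_mem_dStarFamily (S := ↥P)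
  have e : Cfsg.dStarOf P ⊔ zpowers x =
      (Cfsg.dStar ↥P ⊔ zpowers (⟨x, hx⟩ : ↥P)).map P.subtype := by
    rw [Subgroup.map_sup, MonoidHom.map_zpowers]
    rfl
  rw [e, ← map_commutator, ← map_commutator,
    map_eq_bot_iff_of_injective _ P.subtype_injective] at h
  rintro _ ⟨d, hd, rfl⟩
  have := hmem.2 ⟨x, hx⟩ h d hd
  have h2 := congrArg P.subtype this
  simpa using h2

/-- `D*(P)` is normalized by `P`. -/
theorem dStarOf_conj_mem (P : Subgroup G) {s : G} (hs : s ∈ P) {d : G} (hd : d ∈ Cfsg.dStarOf P) :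
    s * d * s⁻¹ ∈ Cfsg.dStarOf P := by
  obtain ⟨d', hd', rfl⟩ := hd
  have hn := dStar_normal (S := ↥P)
  exact ⟨⟨s, hs⟩ * d' * ⟨s, hs⟩⁻¹, hn.conj_mem d' hd' ⟨s, hs⟩, by simp⟩

/-- A subgroup of `P` with the defining property of the family lies in `D*(P)`. -/
theorem le_dStarOf (P E : Subgroup G) (hEP : E ≤ P) (hEc : IsMulCommutative E)
    (hE : ∀ x ∈ P, ⁅⁅E ⊔ zpowers x, E ⊔ zpowers x⁆, E ⊔ zpowers x⁆ = ⊥ → ∀ e ∈ E, e * x = x * e) :
    E ≤ Cfsg.dStarOf P := by
  have hmem : E.subgroupOf P ∈ Cfsg.dStarFamily ↥P := by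
    refine ⟨?_, ?_⟩
    · apply isMulCommutative_of_comm
      intro a ha b hb
      exact Subtype.ext (comm_of_mem hEc (mem_subgroupOf.mp ha) (mem_subgroupOf.mp hb))
    · intro x hx a ha
      have e : E ⊔ zpowers (x : G) = (E.subgroupOf P ⊔ zpowers x).map P.subtype := by
        rw [Subgroup.map_sup, MonoidHom.map_zpowers, map_subgroupOf_eq_of_le hEP]
        rfl
      have hx' : ⁅⁅E ⊔ zpowers (x : G), E ⊔ zpowers (x : G)⁆, E ⊔ zpowers (x : G)⁆ = ⊥ := by
        rw [e, ← map_commutator, ← map_commutator, hx, Subgroup.map_bot]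
      exact Subtype.ext (hE x x.2 hx' a (mem_subgroupOf.mp ha))
  have hle : E.subgroupOf P ≤ Cfsg.dStar ↥P := le_sSup hmem
  have := Subgroup.map_mono (f := P.subtype) hle
  rwa [map_subgroupOf_eq_of_le hEP] at this

/-- The `D*`-theorem: if `C_G(O_p(G)) ≤ O_p(G)` and `G` acts `p`-stably on each of its normal
`p`-subgroups, then `D*(S)` is normal in `G` for a Sylow `p`-subgroup `S`. -/
theorem dStarOf_normal_of_stable [Finite G] {p : ℕ} [Fact p.Prime]
    (hc : Subgroup.centralizer (Cfsg.pCore p G : Set G) ≤ Cfsg.pCore p G)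
    (hst : ∀ (P : Subgroup G) [P.Normal], IsPGroup p P → Cfsg.IsPStableOn p P) (S : Sylow p G) :
    (Cfsg.dStarOf (S : Subgroup G)).Normal := by
  have hSnil : Group.IsNilpotent ↥(S : Subgroup G) := S.isPGroup'.isNilpotent
  have hQn : (Cfsg.pCore p G).Normal := Cfsg.pCore_normal p G
  have hQp : IsPGroup p ↥(Cfsg.pCore p G) := pCore_isPGroup p G
  have hQS : Cfsg.pCore p G ≤ (S : Subgroup G) := pCore_le_sylow S
  set D : Subgroup G := Cfsg.dStarOf (S : Subgroup G) with hDdef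
  have hDS : D ≤ (S : Subgroup G) := dStarOf_le _
  have hDc : IsMulCommutative ↥D := dStarOf_isMulCommutative _
  have hDfam : ∀ x ∈ (S : Subgroup G), ⁅⁅D ⊔ zpowers x, D ⊔ zpowers x⁆, D ⊔ zpowers x⁆ = ⊥ →
      ∀ d ∈ D, d * x = x * d := fun x hx h => dStarOf_family _ hx h
  have hDconj : ∀ s ∈ (S : Subgroup G), ∀ d ∈ D, s * d * s⁻¹ ∈ D :=
    fun s hs d hd => dStarOf_conj_mem _ hs hd
  -- Step 1: D ≤ O_p(G)
  have hDQ : D ≤ Cfsg.pCore p G := by
    intro d hd
    have hzd : zpowers d ≤ D := by rw [zpowers_le]; exact hd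
    have hquad : ⁅⁅Cfsg.pCore p G, zpowers d⁆, zpowers d⁆ = ⊥ := by
      have h1 : ⁅Cfsg.pCore p G, zpowers d⁆ ≤ D := by
        rw [commutator_le]
        intro q hq z hz
        have e : ⁅q, z⁆ = (q * z * q⁻¹) * z⁻¹ := by rw [commutatorElement_def]
        rw [e]
        exact mul_mem (hDconj q (hQS hq) z (hzd hz)) (inv_mem (hzd hz))
      have h2 : ⁅D, zpowers d⁆ = ⊥ := by
        rw [commutator_eq_bot_iff_le_centralizer]
        intro a ha
        rw [mem_centralizer_iff]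
        intro z hz
        exact comm_of_mem hDc (hzd hz) ha
      exact le_bot_iff.mp (h2 ▸ commutator_mono h1 le_rfl)
    have hmem := hst (Cfsg.pCore p G) hQp d hquad
    have hCp : IsPGroup p ↥(centralizer (Cfsg.pCore p G : Set G)) := hQp.to_le hc
    exact comap_pCore_quotient_le _ hCp hmem
  -- Step 2: the normal closure D₁ of D is abelian
  set D₁ : Subgroup G := normalClosure (D : Set G) with hD₁def
  have hD₁n : D₁.Normal := normalClosure_normal
  have hDD₁ : D ≤ D₁ := le_normalClosure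
  have hD₁Q : D₁ ≤ Cfsg.pCore p G := normalClosure_le_normal hDQ
  have claim2 : ∀ g : G, ∀ d ∈ D, ∀ d' ∈ D, d * (g * d' * g⁻¹) = (g * d' * g⁻¹) * d := by
    intro g d hd d' hd'
    have hxQ : g * d' * g⁻¹ ∈ Cfsg.pCore p G := hQn.conj_mem d' (hDQ hd') g
    apply hDfam _ (hQS hxQ) ?_ d hd
    have hDgc : IsMulCommutative ↥(D.map (MulAut.conj g).toMonoidHom) := by
      have := hDc
      infer_instance
    have hxDg : g * d' * g⁻¹ ∈ D.map (MulAut.conj g).toMonoidHom := conj_mem_map_conj g hd'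
    apply class_two_of_central_commutators D _ (D ⊓ D.map (MulAut.conj g).toMonoidHom)
    · intro a ha b hb; exact comm_of_mem hDc ha hb
    · intro z hz a ha; exact comm_of_mem hDc (Subgroup.mem_inf.mp hz).1 ha
    · intro z hz; exact comm_of_mem hDgc (Subgroup.mem_inf.mp hz).2 hxDg
    · intro a ha
      refine Subgroup.mem_inf.mpr ⟨?_, ?_⟩
      · have e : ⁅a, g * d' * g⁻¹⁆ = a * ((g * d' * g⁻¹) * a⁻¹ * (g * d' * g⁻¹)⁻¹) := by
          rw [commutatorElement_def]; group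
        rw [e]
        exact mul_mem ha (hDconj _ (hQS hxQ) _ (inv_mem ha))
      · have e : ⁅a, g * d' * g⁻¹⁆ = (a * (g * d' * g⁻¹) * a⁻¹) * (g * d' * g⁻¹)⁻¹ := by
          rw [commutatorElement_def]
        rw [e]
        refine mul_mem ?_ (inv_mem hxDg)
        rw [mem_map_conj]
        have haQ : g⁻¹ * a * g ∈ Cfsg.pCore p G := by
          have := hQn.conj_mem a (hDQ ha) g⁻¹
          simpa using this
        have := hDconj _ (hQS haQ) d' hd'
        have e2 : g⁻¹ * (a * (g * d' * g⁻¹) * a⁻¹) * g = g⁻¹ * a * g * d' * (g⁻¹ * a * g)⁻¹ := by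
          group
        rw [e2]
        exact this
  have hD₁c : IsMulCommutative ↥D₁ := by
    rw [hD₁def, normalClosure]
    apply isMulCommutative_closure
    intro u hu v hv
    obtain ⟨d₁, hd₁, hc₁⟩ := Group.mem_conjugatesOfSet_iff.mp hu
    obtain ⟨d₂, hd₂, hc₂⟩ := Group.mem_conjugatesOfSet_iff.mp hv
    obtain ⟨c₁, rfl⟩ := isConj_iff.mp hc₁
    obtain ⟨c₂, rfl⟩ := isConj_iff.mp hc₂
    have h := claim2 (c₁⁻¹ * c₂) d₁ hd₁ d₂ hd₂
    calc c₁ * d₁ * c₁⁻¹ * (c₂ * d₂ * c₂⁻¹)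
        = c₁ * (d₁ * (c₁⁻¹ * c₂ * d₂ * (c₁⁻¹ * c₂)⁻¹)) * c₁⁻¹ := by group
      _ = c₁ * ((c₁⁻¹ * c₂ * d₂ * (c₁⁻¹ * c₂)⁻¹) * d₁) * c₁⁻¹ := by rw [h]
      _ = c₂ * d₂ * c₂⁻¹ * (c₁ * d₁ * c₁⁻¹) := by group
  have hD₁p : IsPGroup p ↥D₁ := hQp.to_le hD₁Q
  -- Step 3: elements of S with the weak quadratic property centralize D
  have claim3 : ∀ s ∈ (S : Subgroup G), (∀ v ∈ D₁, ⁅v, s⁆ * s = s * ⁅v, s⁆) →
      ∀ d ∈ D, d * s = s * d := by
    intro s hs hq d hd
    apply hDfam s hs ?_ d hd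
    apply class_two_of_central_commutators D s (D ⊓ centralizer ({s} : Set G))
    · intro a ha b hb; exact comm_of_mem hDc ha hb
    · intro z hz a ha; exact comm_of_mem hDc (Subgroup.mem_inf.mp hz).1 ha
    · intro z hz
      have := mem_centralizer_iff.mp (Subgroup.mem_inf.mp hz).2 s (Set.mem_singleton s)
      exact this.symm
    · intro a ha
      refine Subgroup.mem_inf.mpr ⟨?_, ?_⟩
      · have e : ⁅a, s⁆ = a * (s * a⁻¹ * s⁻¹) := by
          rw [commutatorElement_def]; group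
        rw [e]
        exact mul_mem ha (hDconj s hs _ (inv_mem ha))
      · rw [mem_centralizer_iff]
        intro y hy
        rw [Set.mem_singleton_iff] at hy
        subst hy
        exact (hq a (hDD₁ ha)).symm
  -- Step 4: D₁ has the defining property, hence D₁ ≤ D
  have hD₁D : D₁ ≤ D := by
    apply le_dStarOf _ _ (hD₁Q.trans hQS) hD₁c
    intro x hx hcl
    -- x acts quadratically on D₁
    have hquad : ⁅⁅D₁, zpowers x⁆, zpowers x⁆ = ⊥ :=
      le_bot_iff.mp (hcl ▸ commutator_mono (commutator_mono le_sup_left le_sup_right) le_sup_right)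
    have hq1 : ∀ v ∈ D₁, ⁅v, x⁆ * x = x * ⁅v, x⁆ := by
      intro v hv
      have h1 : ⁅D₁, zpowers x⁆ ≤ centralizer (zpowers x : Set G) :=
        commutator_eq_bot_iff_le_centralizer.mp hquad
      have h2 := h1 (commutator_mem_commutator hv (mem_zpowers x))
      exact (mem_centralizer_iff.mp h2 x (mem_zpowers x)).symm
    have hmem := hst D₁ hD₁p x hquad
    -- x centralizes every conjugate of D
    have hcent : ∀ g : G, ∀ d ∈ D, (g * d * g⁻¹) * x = x * (g * d * g⁻¹) := by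
      intro g d hd
      -- the conjugate g⁻¹ x g lies in the preimage of O_p(G / C_G(D₁))
      have hmem' : g⁻¹ * x * g ∈ (Cfsg.pCore p (G ⧸ centralizer (D₁ : Set G))).comap
          (QuotientGroup.mk' (centralizer (D₁ : Set G))) := by
        have hLn : ((Cfsg.pCore p (G ⧸ centralizer (D₁ : Set G))).comap
          (QuotientGroup.mk' (centralizer (D₁ : Set G)))).Normal :=
          (Cfsg.pCore_normal p _).comap _
        have := hLn.conj_mem x hmem g⁻¹
        simpa using this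
      obtain ⟨c, hcC, s, hsS, hcs⟩ := exists_mul_of_mem_comap_pCore _ S hmem'
      have hcD₁ : ∀ v ∈ D₁, c * v = v * c := fun v hv => (mem_centralizer_iff.mp hcC v hv).symm
      -- weak quadratic property of g⁻¹ x g
      have hq2 : ∀ v ∈ D₁, ⁅v, g⁻¹ * x * g⁆ * (g⁻¹ * x * g) = (g⁻¹ * x * g) * ⁅v, g⁻¹ * x * g⁆ := by
        intro v hv
        have hv' : g * v * g⁻¹ ∈ D₁ := hD₁n.conj_mem v hv g
        have h := hq1 _ hv'
        have e : ⁅v, g⁻¹ * x * g⁆ = g⁻¹ * ⁅g * v * g⁻¹, x⁆ * g := by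
          simp only [commutatorElement_def]; group
        rw [e]
        calc g⁻¹ * ⁅g * v * g⁻¹, x⁆ * g * (g⁻¹ * x * g)
            = g⁻¹ * (⁅g * v * g⁻¹, x⁆ * x) * g := by group
          _ = g⁻¹ * (x * ⁅g * v * g⁻¹, x⁆) * g := by rw [h]
          _ = g⁻¹ * x * g * (g⁻¹ * ⁅g * v * g⁻¹, x⁆ * g) := by group
      -- weak quadratic property of s = c⁻¹ (g⁻¹ x g)
      have hs_eq : s = c⁻¹ * (g⁻¹ * x * g) := by rw [hcs]; group
      have hq3 : ∀ v ∈ D₁, ⁅v, s⁆ * s = s * ⁅v, s⁆ := by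
        intro v hv
        have hw : ⁅v, g⁻¹ * x * g⁆ ∈ D₁ := by
          have e : ⁅v, g⁻¹ * x * g⁆ = v * ((g⁻¹ * x * g) * v⁻¹ * (g⁻¹ * x * g)⁻¹) := by
            rw [commutatorElement_def]; group
          rw [e]
          exact mul_mem hv (hD₁n.conj_mem _ (inv_mem hv) _)
        have hcw := hcD₁ _ hw
        have hcv := hcD₁ v hv
        have hcinvw : c⁻¹ * ⁅v, g⁻¹ * x * g⁆ = ⁅v, g⁻¹ * x * g⁆ * c⁻¹ := by
          rw [eq_mul_inv_iff_mul_eq, mul_assoc, ← hcw, ← mul_assoc, inv_mul_cancel, one_mul]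
        have hcinvv : c⁻¹ * v = v * c⁻¹ := by
          rw [eq_mul_inv_iff_mul_eq, mul_assoc, ← hcv, ← mul_assoc, inv_mul_cancel, one_mul]
        have e : ⁅v, s⁆ = ⁅v, g⁻¹ * x * g⁆ := by
          rw [hs_eq]
          have e1 : ⁅v, c⁻¹ * (g⁻¹ * x * g)⁆ = (v * c⁻¹) * ((g⁻¹ * x * g) * v⁻¹ * (g⁻¹ * x * g)⁻¹) * c := by
            rw [commutatorElement_def]; group
          rw [e1, ← hcinvv]
          have e2 : c⁻¹ * v * ((g⁻¹ * x * g) * v⁻¹ * (g⁻¹ * x * g)⁻¹) * c
              = c⁻¹ * ⁅v, g⁻¹ * x * g⁆ * c := by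
            rw [commutatorElement_def]; group
          rw [e2, hcinvw]
          group
        rw [e, hs_eq]
        calc ⁅v, g⁻¹ * x * g⁆ * (c⁻¹ * (g⁻¹ * x * g))
            = (⁅v, g⁻¹ * x * g⁆ * c⁻¹) * (g⁻¹ * x * g) := by group
          _ = c⁻¹ * (⁅v, g⁻¹ * x * g⁆ * (g⁻¹ * x * g)) := by rw [← hcinvw]; group
          _ = c⁻¹ * ((g⁻¹ * x * g) * ⁅v, g⁻¹ * x * g⁆) := by rw [hq2 v hv]
          _ = c⁻¹ * (g⁻¹ * x * g) * ⁅v, g⁻¹ * x * g⁆ := by group
      have hsd := claim3 s hsS hq3 d hd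
      have hcd := hcD₁ d (hDD₁ hd)
      -- d commutes with g⁻¹ x g = c s
      have h5 : d * (g⁻¹ * x * g) = (g⁻¹ * x * g) * d := by
        rw [hcs, ← mul_assoc, ← hcd, mul_assoc, hsd, mul_assoc]
      calc g * d * g⁻¹ * x = g * (d * (g⁻¹ * x * g)) * g⁻¹ := by group
        _ = g * ((g⁻¹ * x * g) * d) * g⁻¹ := by rw [h5]
        _ = x * (g * d * g⁻¹) := by group
    -- hence x centralizes D₁
    have hle : D₁ ≤ centralizer ({x} : Set G) := by
      rw [hD₁def, normalClosure, closure_le]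
      intro u hu
      obtain ⟨d, hd, hcj⟩ := Group.mem_conjugatesOfSet_iff.mp hu
      obtain ⟨g, rfl⟩ := isConj_iff.mp hcj
      rw [SetLike.mem_coe, mem_centralizer_iff]
      intro y hy
      rw [Set.mem_singleton_iff] at hy
      subst hy
      exact (hcent g d hd).symm
    intro e he
    exact (mem_centralizer_iff.mp (hle he) x (Set.mem_singleton x)).symm
  have hEq : D = D₁ := le_antisymm hDD₁ hD₁D
  rw [hEq]
  exact hD₁n

end Cfsg.Agent.Helper51
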