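import Mathlib

set_option autoImplicit false
set_option linter.style.haveILetI false

/-!
# PIECE E of CALL S2553 (helper65): a subgroup of order 1344 of `GL₄(2)` has a nontrivial
normal elementary abelian 2-subgroup (helper51)
-/

namespace Cfsg.Agent.Helper51

open Matrix

/-- The action of a group on the complement of a fixed point. -/
@[reducible] def g42PunctAct {G X : Type*} [Group G] [MulAction G X] (x0 : X)
    (h0 : ∀ g : G, g • x0 = x0) : MulAction G {x : X // x ≠ x0} where
  smul g x := ⟨g • x.1, fun h => x.2 (by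
    have h1 : g • x.1 = g • x0 := h.trans (h0 g).symm
    exact smul_left_cancel g h1)⟩
  one_smul x := Subtype.ext (one_smul G x.1)
  mul_smul g h x := Subtype.ext (mul_smul g h x.1)

/-- A group acting on `X` with a fixed point `x0` maps to the permutations of the other points,
and the kernel is the kernel of the action. -/
theorem g42_punct_hom {G X : Type*} [Group G] [MulAction G X] (x0 : X)
    (h0 : ∀ g : G, g • x0 = x0) :
    ∃ φ : G →* Equiv.Perm {x : X // x ≠ x0}, ∀ g, φ g = 1 ↔ ∀ x : X, g • x = x := by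
  classical
  letI := g42PunctAct (G := G) x0 h0
  refine ⟨MulAction.toPermHom G {x : X // x ≠ x0}, fun g => ⟨fun h x => ?_, fun h => ?_⟩⟩
  · by_cases hx : x = x0
    · rw [hx]; exact h0 g
    · have h1 := congrArg (fun e : Equiv.Perm {x : X // x ≠ x0} => (e ⟨x, hx⟩).1) h
      exact h1
  · ext x
    exact h x.1

theorem g42_card_punct {X : Type*} [Finite X] (x0 : X) :
    Nat.card {x : X // x ≠ x0} = Nat.card X - 1 := by
  classical
  letI := Fintype.ofFinite X
  rw [Nat.card_eq_fintype_card, Nat.card_eq_fintype_card, Fintype.card_subtype_compl,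
    Fintype.card_subtype_eq]

theorem g42_card_perm_punct {X : Type*} [Finite X] (x0 : X) :
    Nat.card (Equiv.Perm {x : X // x ≠ x0}) = (Nat.card X - 1).factorial := by
  rw [Nat.card_perm, g42_card_punct]

/-- The natural action of a subgroup of `GL₄(2)` on the vectors. -/
@[reducible] def g42VecAct (G : Subgroup (GL (Fin 4) (ZMod 2))) :
    MulAction G (Fin 4 → ZMod 2) where
  smul g v := ((g : GL (Fin 4) (ZMod 2)) : Matrix (Fin 4) (Fin 4) (ZMod 2)) *ᵥ v
  one_smul v := Matrix.one_mulVec v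
  mul_smul g h v := by
    show (((g * h : G) : GL (Fin 4) (ZMod 2)) : Matrix (Fin 4) (Fin 4) (ZMod 2)) *ᵥ v =
      ((g : GL (Fin 4) (ZMod 2)) : Matrix (Fin 4) (Fin 4) (ZMod 2)) *ᵥ
        (((h : GL (Fin 4) (ZMod 2)) : Matrix (Fin 4) (Fin 4) (ZMod 2)) *ᵥ v)
    rw [Subgroup.coe_mul, Units.val_mul, Matrix.mulVec_mulVec]

theorem g42_arith (a b : ℕ) (hab : b * a = 16) (ha : a ≠ 1) (hb : b ≠ 1) :
    ¬ 1344 ∣ (a - 1).factorial * (b - 1).factorial := by
  have ha16 : a ∣ 16 := ⟨b, by rw [← hab, mul_comm]⟩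
  have hale : a ≤ 16 := Nat.le_of_dvd (by norm_num) ha16
  interval_cases a
  all_goals first
    | omega
    | (have hb' : b = 8 := by omega
       subst hb'
       norm_num [Nat.factorial])
    | (have hb' : b = 4 := by omega
       subst hb'
       norm_num [Nat.factorial])
    | (have hb' : b = 2 := by omega
       subst hb'
       norm_num [Nat.factorial])

/-- PIECE E of CALL S2553: a subgroup of order 1344 of `GL₄(2)` has a nontrivial normal
elementary abelian 2-subgroup. -/
theorem g42_card1344 (G : Subgroup (GL (Fin 4) (ZMod 2))) (hcard : Nat.card G = 1344) :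
    ∃ K : Subgroup (GL (Fin 4) (ZMod 2)), K ≤ G ∧ K ≠ ⊥ ∧
      (∀ g ∈ G, ∀ k ∈ K, g * k * g⁻¹ ∈ K) ∧ ∀ k ∈ K, k ^ 2 = 1 := by
  classical
  letI act : MulAction G (Fin 4 → ZMod 2) := g42VecAct G
  have hdef : ∀ (g : G) (x : Fin 4 → ZMod 2), g • x =
      ((g : GL (Fin 4) (ZMod 2)) : Matrix (Fin 4) (Fin 4) (ZMod 2)) *ᵥ x := fun _ _ => rfl
  have hadd : ∀ (g : G) (x y : Fin 4 → ZMod 2), g • (x + y) = g • x + g • y := fun g x y => by
    rw [hdef, hdef, hdef, Matrix.mulVec_add]
  have hzero : ∀ g : G, g • (0 : Fin 4 → ZMod 2) = 0 := fun g => by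
    rw [hdef, Matrix.mulVec_zero]
  have hneg : ∀ (g : G) (x : Fin 4 → ZMod 2), g • (-x) = -(g • x) := fun g x => by
    rw [hdef, hdef, Matrix.mulVec_neg]
  have hfaith : ∀ g : G, (∀ x : Fin 4 → ZMod 2, g • x = x) → g = 1 := by
    intro g hg
    apply Subtype.ext
    apply Units.ext
    apply Matrix.mulVec_injective
    funext x
    rw [← hdef, hg x]
    simp
  have hV : Nat.card (Fin 4 → ZMod 2) = 16 := by
    rw [Nat.card_eq_fintype_card, Fintype.card_fun, ZMod.card, Fintype.card_fin]
    norm_num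
  haveI : Finite G := Nat.finite_of_card_ne_zero (by rw [hcard]; norm_num)
  haveI : Fact (Nat.Prime 2) := ⟨Nat.prime_two⟩
  -- Step 1: a subgroup of order 64 fixes a nonzero vector
  obtain ⟨P, hP⟩ := Sylow.exists_subgroup_card_pow_prime 2 (n := 6)
    (by rw [hcard]; norm_num : 2 ^ 6 ∣ Nat.card G)
  have hPp : IsPGroup 2 P := IsPGroup.of_card hP
  letI actP : MulAction P {x : Fin 4 → ZMod 2 // x ≠ 0} :=
    g42PunctAct (G := P) (0 : Fin 4 → ZMod 2) (fun g => hzero g.1)
  have h15 : Nat.card {x : Fin 4 → ZMod 2 // x ≠ 0} = 15 := by rw [g42_card_punct, hV]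
  obtain ⟨y, hy⟩ := hPp.nonempty_fixed_point_of_prime_not_dvd_card
    {x : Fin 4 → ZMod 2 // x ≠ 0} (by rw [h15]; norm_num)
  obtain ⟨v, hv0⟩ := y
  have hPv : ∀ g : G, g ∈ P → g • v = v := by
    intro g hg
    have h1 := hy ⟨g, hg⟩
    exact congrArg Subtype.val h1
  -- Step 2: the orbit of v has size dividing 21
  have hPS : P ≤ MulAction.stabilizer G v := fun g hg =>
    MulAction.mem_stabilizer_iff.mpr (hPv g hg)
  have h64 : 64 ∣ Nat.card (MulAction.stabilizer G v) := by
    have h1 := Subgroup.card_dvd_of_le hPS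
    rw [hP, show (2 : ℕ) ^ 6 = 64 by norm_num] at h1
    exact h1
  have hidx : Nat.card (MulAction.stabilizer G v) * (MulAction.orbit G v).ncard = 1344 := by
    rw [← MulAction.index_stabilizer, Subgroup.card_mul_index, hcard]
  obtain ⟨m, hm⟩ : ∃ m : ℕ, m = (MulAction.orbit G v).ncard := ⟨_, rfl⟩
  rw [← hm] at hidx
  have hm21 : m ∣ 21 := by
    obtain ⟨c, hc⟩ := h64
    rw [hc] at hidx
    refine ⟨c, ?_⟩
    have h1 : 64 * (m * c) = 64 * 21 := by
      rw [show 64 * (m * c) = 64 * c * m by ring, hidx]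
    exact (Nat.eq_of_mul_eq_mul_left (by norm_num) h1).symm
  have hm16 : m ≤ 16 := by
    rw [hm, ← hV, ← Nat.card_coe_set_eq]
    exact Finite.card_subtype_le _
  have hm7 : m ≤ 7 := by
    interval_cases m <;> omega
  -- Step 3: the span of the orbit
  obtain ⟨U, hUdef⟩ : ∃ U : AddSubgroup (Fin 4 → ZMod 2),
      U = AddSubgroup.closure (MulAction.orbit G v) := ⟨_, rfl⟩
  have hinv : ∀ (g : G) (u : Fin 4 → ZMod 2), u ∈ U → g • u ∈ U := by
    intro g u hu
    rw [hUdef] at hu ⊢
    induction hu using AddSubgroup.closure_induction with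
    | mem x hx =>
      obtain ⟨h, rfl⟩ := hx
      exact AddSubgroup.subset_closure ⟨g * h, mul_smul g h v⟩
    | zero => rw [hzero]; exact AddSubgroup.zero_mem _
    | add x y _ _ hx hy => rw [hadd]; exact AddSubgroup.add_mem _ hx hy
    | neg x _ hx => rw [hneg]; exact AddSubgroup.neg_mem _ hx
  have hvU : v ∈ U := by
    rw [hUdef]
    exact AddSubgroup.subset_closure (MulAction.mem_orbit_self v)
  have hUbot : U ≠ ⊥ := by
    intro h
    rw [h] at hvU
    exact hv0 (AddSubgroup.mem_bot.mp hvU)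
  have hUtop : U ≠ ⊤ := by
    intro hU
    have hinj : Function.Injective (MulAction.toPermHom G (MulAction.orbit G v)) := by
      rw [injective_iff_map_eq_one]
      intro g hg
      apply hfaith
      intro x
      have hx : x ∈ AddSubgroup.closure (MulAction.orbit G v) := by
        rw [← hUdef, hU]; trivial
      induction hx using AddSubgroup.closure_induction with
      | mem x hx =>
        have h1 := congrArg (fun e : Equiv.Perm (MulAction.orbit G v) => (e ⟨x, hx⟩).1) hg
        exact h1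
      | zero => exact hzero g
      | add x y _ _ hx hy => rw [hadd, hx, hy]
      | neg x _ hx => rw [hneg, hx]
    have h1 := Subgroup.card_dvd_of_injective _ hinj
    rw [Nat.card_perm, hcard, Nat.card_coe_set_eq, ← hm] at h1
    have h2 : m.factorial ∣ (7).factorial := Nat.factorial_dvd_factorial hm7
    have h3 := h1.trans h2
    norm_num [Nat.factorial] at h3
  -- Step 4: the actions on U and on the quotient by U
  have hcardU : Nat.card ((Fin 4 → ZMod 2) ⧸ U) * Nat.card U = 16 := by
    rw [← AddSubgroup.card_eq_card_quotient_mul_card_addSubgroup, hV]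
  have ha1 : Nat.card U ≠ 1 := fun h => hUbot ((AddSubgroup.card_eq_one).mp h)
  have hb1 : Nat.card ((Fin 4 → ZMod 2) ⧸ U) ≠ 1 := by
    intro h
    rw [h, one_mul] at hcardU
    exact hUtop ((AddSubgroup.card_eq_iff_eq_top U).mp (by rw [hcardU, hV]))
  letI actU : MulAction G U :=
    { smul := fun g u => ⟨g • (u : Fin 4 → ZMod 2), hinv g u u.2⟩
      one_smul := fun u => Subtype.ext (one_smul G (u : Fin 4 → ZMod 2))
      mul_smul := fun g h u => Subtype.ext (mul_smul g h (u : Fin 4 → ZMod 2)) }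
  let lin : G → ((Fin 4 → ZMod 2) →+ (Fin 4 → ZMod 2)) := fun g =>
    { toFun := fun x => g • x, map_zero' := hzero g, map_add' := hadd g }
  have hlin : ∀ g : G, U ≤ U.comap (lin g) := fun g u hu => hinv g u hu
  letI actQ : MulAction G ((Fin 4 → ZMod 2) ⧸ U) :=
    { smul := fun g c => QuotientAddGroup.map U U (lin g) (hlin g) c
      one_smul := fun c => by
        refine QuotientAddGroup.induction_on c (fun x => ?_)
        show QuotientAddGroup.map U U (lin 1) (hlin 1) (x : (Fin 4 → ZMod 2) ⧸ U) = x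
        rw [QuotientAddGroup.map_mk]
        exact congrArg _ (one_smul G x)
      mul_smul := fun g h c => by
        refine QuotientAddGroup.induction_on c (fun x => ?_)
        show QuotientAddGroup.map U U (lin (g * h)) (hlin _) (x : (Fin 4 → ZMod 2) ⧸ U) =
          QuotientAddGroup.map U U (lin g) (hlin g)
            (QuotientAddGroup.map U U (lin h) (hlin h) (x : (Fin 4 → ZMod 2) ⧸ U))
        rw [QuotientAddGroup.map_mk, QuotientAddGroup.map_mk, QuotientAddGroup.map_mk]
        exact congrArg _ (mul_smul g h x) }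
  have hQdef : ∀ (g : G) (x : Fin 4 → ZMod 2),
      g • (x : (Fin 4 → ZMod 2) ⧸ U) = ((g • x : Fin 4 → ZMod 2) : (Fin 4 → ZMod 2) ⧸ U) :=
    fun g x => QuotientAddGroup.map_mk U U (lin g) (hlin g) x
  obtain ⟨φ1, hφ1⟩ := g42_punct_hom (G := G) (X := U) 0 (fun g => Subtype.ext (hzero g))
  obtain ⟨φ2, hφ2⟩ := g42_punct_hom (G := G) (X := (Fin 4 → ZMod 2) ⧸ U) 0
    (fun g => by
      have h1 := hQdef g 0
      rw [hzero] at h1
      exact h1)
  have hker : ∀ g : G, g ∈ (φ1.prod φ2).ker →
      (∀ u : Fin 4 → ZMod 2, u ∈ U → g • u = u) ∧ (∀ x : Fin 4 → ZMod 2, g • x - x ∈ U) := by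
    intro g hg
    rw [MonoidHom.mem_ker, MonoidHom.prod_apply, Prod.mk_eq_one] at hg
    refine ⟨fun u hu => ?_, fun x => ?_⟩
    · exact congrArg Subtype.val ((hφ1 g).mp hg.1 ⟨u, hu⟩)
    · have h1 := (hφ2 g).mp hg.2 (x : (Fin 4 → ZMod 2) ⧸ U)
      rw [hQdef] at h1
      have h2 := QuotientAddGroup.eq.mp h1
      have h3 := U.neg_mem h2
      have h4 : -(-(g • x) + x) = g • x - x := by abel
      rw [h4] at h3
      exact h3
  have hKne : (φ1.prod φ2).ker ≠ ⊥ := by
    intro h
    have hinj : Function.Injective (φ1.prod φ2) := (MonoidHom.ker_eq_bot_iff _).mp h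
    have h1 := Subgroup.card_dvd_of_injective _ hinj
    rw [Nat.card_prod, g42_card_perm_punct, g42_card_perm_punct, hcard] at h1
    exact g42_arith _ _ hcardU ha1 hb1 h1
  refine ⟨(φ1.prod φ2).ker.map G.subtype, Subgroup.map_subtype_le _, ?_, ?_, ?_⟩
  · intro h
    exact hKne ((Subgroup.map_eq_bot_iff_of_injective _ G.subtype_injective).mp h)
  · rintro g hg k ⟨k0, hk0, rfl⟩
    refine ⟨⟨g, hg⟩ * k0 * ⟨g, hg⟩⁻¹, ?_, ?_⟩
    · exact (MonoidHom.normal_ker (φ1.prod φ2)).conj_mem k0 hk0 ⟨g, hg⟩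
    · rw [map_mul, map_mul, map_inv]
      rfl
  · rintro k ⟨k0, hk0, rfl⟩
    obtain ⟨h1, h2⟩ := hker k0 hk0
    have h3 : k0 * k0 = 1 := by
      apply hfaith
      intro x
      have h4 : k0 • x = x + (k0 • x - x) := by abel
      have h5 : (k0 • x - x) + (k0 • x - x) = 0 := by
        funext i
        exact CharTwo.add_self_eq_zero ((k0 • x - x) i : ZMod 2)
      rw [mul_smul]
      calc k0 • (k0 • x) = k0 • (x + (k0 • x - x)) := by rw [← h4]
        _ = k0 • x + k0 • (k0 • x - x) := hadd _ _ _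
        _ = k0 • x + (k0 • x - x) := by rw [h1 _ (h2 x)]
        _ = x + ((k0 • x - x) + (k0 • x - x)) := by abel
        _ = x := by rw [h5, add_zero]
    rw [sq, ← map_mul, h3, map_one]

end Cfsg.Agent.Helper51
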