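import Mathlib
import Cfsg.Agent.Helper50.HigDefs

/-!
# PIECE CONJ3 of CALL S3050 (helper51): in characteristic two every element of order three of
`SL₂(K)` is conjugate to `u(1) l(1)`.
-/

set_option autoImplicit false

namespace Cfsg.Agent.Helper51.HigCONJ3

open Cfsg.Agent.Helper5 Cfsg.Agent.Helper50.Hig

theorem conj_cSL_aux {K : Type*} [Field K] (a b c d x y s : K) (h2 : (2 : K) = 0)
    (hτ : a + d = 1) (hdet : a * d - b * c = 1)
    (hs : s * s * (c * x * x + (d - a) * x * y - b * y * y) = 1) :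
    ∃ Q : SL2 K, (!![a, b; c, d] : Matrix (Fin 2) (Fin 2) K) * Q.1 =
      Q.1 * (!![1, 1; 0, 1] * !![1, 0; 1, 1]) := by
  refine ⟨⟨!![s * x, s * (a * x + b * y); s * y, s * (c * x + d * y)], ?_⟩, ?_⟩
  · rw [Matrix.det_fin_two_of]
    linear_combination hs
  · show (!![a, b; c, d] : Matrix (Fin 2) (Fin 2) K) *
        !![s * x, s * (a * x + b * y); s * y, s * (c * x + d * y)] =
      !![s * x, s * (a * x + b * y); s * y, s * (c * x + d * y)] *
        (!![1, 1; 0, 1] * !![1, 0; 1, 1])
    ext i j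
    fin_cases i <;> fin_cases j
    · simp only [Matrix.mul_apply, Fin.sum_univ_two, Matrix.of_apply, Matrix.cons_val',
        Matrix.cons_val_zero, Matrix.cons_val_one, Fin.zero_eta, Fin.mk_one,
        Matrix.cons_val_fin_one]
      linear_combination (-(s * x)) * h2
    · simp only [Matrix.mul_apply, Fin.sum_univ_two, Matrix.of_apply, Matrix.cons_val',
        Matrix.cons_val_zero, Matrix.cons_val_one, Fin.zero_eta, Fin.mk_one,
        Matrix.cons_val_fin_one]
      linear_combination (s * x * a + s * b * y) * hτ - (s * x) * hdet - (s * x) * h2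
    · simp only [Matrix.mul_apply, Fin.sum_univ_two, Matrix.of_apply, Matrix.cons_val',
        Matrix.cons_val_zero, Matrix.cons_val_one, Fin.zero_eta, Fin.mk_one,
        Matrix.cons_val_fin_one]
      linear_combination (-(s * y)) * h2
    · simp only [Matrix.mul_apply, Fin.sum_univ_two, Matrix.of_apply, Matrix.cons_val',
        Matrix.cons_val_zero, Matrix.cons_val_one, Fin.zero_eta, Fin.mk_one,
        Matrix.cons_val_fin_one]
      linear_combination (s * c * x + s * y * d) * hτ - (s * y) * hdet - (s * y) * h2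

theorem conj_cSL {K : Type*} [Field K] [Fintype K] [CharP K 2] (g : SL2 K) (hg : orderOf g = 3) :
    ∃ P : SL2 K, P * g * P⁻¹ = cSL K := by
  have h2 : (2 : K) = 0 := CharTwo.two_eq_zero
  have hsq : ∀ z : K, IsSquare z := FiniteField.isSquare_of_char_two (ringChar.eq K 2)
  obtain ⟨M, hM⟩ : ∃ M : Matrix (Fin 2) (Fin 2) K, M = g.1 := ⟨_, rfl⟩
  have hdet : M 0 0 * M 1 1 - M 0 1 * M 1 0 = 1 := by
    rw [← Matrix.det_fin_two, hM]
    exact g.2
  have h3 : M * M * M = 1 := by
    have h := pow_orderOf_eq_one g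
    rw [hg, pow_succ, pow_succ, pow_one] at h
    have h' := congrArg Subtype.val h
    rw [hM]
    exact h'
  have e00 : (M * M * M) 0 0 = 1 := by rw [h3]; rfl
  have e01 : (M * M * M) 0 1 = 0 := by rw [h3]; rfl
  have e10 : (M * M * M) 1 0 = 0 := by rw [h3]; rfl
  have e11 : (M * M * M) 1 1 = 1 := by rw [h3]; rfl
  rw [Matrix.mul_apply, Fin.sum_univ_two, Matrix.mul_apply, Matrix.mul_apply, Fin.sum_univ_two,
    Fin.sum_univ_two] at e00 e01 e10 e11
  have hne1 : M ≠ 1 := by
    intro h
    have hg1 : g = 1 := Subtype.ext (by rw [← hM, h]; rfl)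
    rw [hg1, orderOf_one] at hg
    omega
  -- the trace is one
  have hτ : M 0 0 + M 1 1 = 1 := by
    by_contra hne
    have ht : M 0 0 + M 1 1 - 1 ≠ 0 := sub_ne_zero.2 hne
    have hb : M 0 1 = 0 := by
      have h5 : M 0 1 * ((M 0 0 + M 1 1 - 1) * (M 0 0 + M 1 1 - 1)) = 0 := by
        linear_combination e01 + M 0 1 * hdet - (M 0 1 * (M 0 0 + M 1 1 - 1)) * h2
      rcases mul_eq_zero.1 h5 with h | h
      · exact h
      · exact absurd (mul_self_eq_zero.1 h) ht
    have hc : M 1 0 = 0 := by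
      have h5 : M 1 0 * ((M 0 0 + M 1 1 - 1) * (M 0 0 + M 1 1 - 1)) = 0 := by
        linear_combination e10 + M 1 0 * hdet - (M 1 0 * (M 0 0 + M 1 1 - 1)) * h2
      rcases mul_eq_zero.1 h5 with h | h
      · exact h
      · exact absurd (mul_self_eq_zero.1 h) ht
    rw [hb, hc] at hdet e00
    have had : M 0 0 * M 1 1 = 1 := by linear_combination hdet
    have ha0 : M 0 0 ≠ 0 := by
      intro h0
      rw [h0, zero_mul] at had
      exact zero_ne_one had
    have ha1 : M 0 0 = 1 := by
      have h5 : (M 0 0 - 1) * (M 0 0 * (M 0 0 + M 1 1 - 1)) = 0 := by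
        linear_combination e00 + (M 0 0 - 1) * had - (M 0 0 * (M 0 0 - 1)) * h2
      rcases mul_eq_zero.1 h5 with h | h
      · exact sub_eq_zero.1 h
      · rcases mul_eq_zero.1 h with h | h
        · exact absurd h ha0
        · exact absurd h ht
    have hd1 : M 1 1 = 1 := by
      rw [ha1, one_mul] at had
      exact had
    apply hne1
    ext i j
    fin_cases i <;> fin_cases j
    · exact ha1
    · exact hb
    · exact hc
    · exact hd1
  have heta : M = !![M 0 0, M 0 1; M 1 0, M 1 1] := Matrix.eta_fin_two M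
  -- choose the cyclic vector
  have hQ : ∃ Q : SL2 K, M * Q.1 = Q.1 * (!![1, 1; 0, 1] * !![1, 0; 1, 1]) := by
    rw [heta]
    by_cases hc : M 1 0 = 0
    · by_cases hb : M 0 1 = 0
      · refine conj_cSL_aux (M 0 0) (M 0 1) (M 1 0) (M 1 1) 1 1 1 h2 hτ hdet ?_
        linear_combination hτ - M 0 0 * h2 + hc - hb
      · obtain ⟨s, hs⟩ := hsq (-(M 0 1))⁻¹
        refine conj_cSL_aux (M 0 0) (M 0 1) (M 1 0) (M 1 1) 0 1 s h2 hτ hdet ?_
        have h5 : s * s * (-(M 0 1)) = 1 := by
          rw [← hs]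
          exact inv_mul_cancel₀ (neg_ne_zero.2 hb)
        linear_combination h5
    · obtain ⟨s, hs⟩ := hsq (M 1 0)⁻¹
      refine conj_cSL_aux (M 0 0) (M 0 1) (M 1 0) (M 1 1) 1 0 s h2 hτ hdet ?_
      have h5 : s * s * (M 1 0) = 1 := by
        rw [← hs]
        exact inv_mul_cancel₀ hc
      linear_combination h5
  obtain ⟨Q, hQ⟩ := hQ
  have hgQ : g * Q = Q * cSL K := by
    apply Subtype.ext
    rw [hM] at hQ
    exact hQ
  refine ⟨Q⁻¹, ?_⟩
  rw [inv_inv, mul_assoc, hgQ, inv_mul_cancel_left]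

end Cfsg.Agent.Helper51.HigCONJ3
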