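import Mathlib
import Cfsg.Agent.Helper50.HigDefs

/-!
# PIECE GA of CALL S3050 (helper51): the conjugation action of `G` on an abelian section module.
-/

set_option autoImplicit false

namespace Cfsg.Agent.Helper51.HigGA

open Cfsg.Agent.Helper5 Cfsg.Agent.Helper50.Hig

theorem exists_secAct {G : Type*} [Group G] (A B : Subgroup G) [hA : A.Normal] [hB : B.Normal] :
    ∃ act : G →* AddMonoid.End (SecMod A B), ∀ (g : G) (a : ↥A),
      act g (secCl A B a) = secCl A B ⟨g * a * g⁻¹, hA.conj_mem a a.2 g⟩ := by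
  have key : ∀ g : G, ∃ φ : AddMonoid.End (SecMod A B), ∀ a : ↥A,
      φ (secCl A B a) = secCl A B ⟨g * a * g⁻¹, hA.conj_mem a a.2 g⟩ := by
    intro g
    let f₀ : ↥A →* Abelianization (↥A ⧸ B.subgroupOf A) :=
      { toFun := fun a => Abelianization.of
          (QuotientGroup.mk (⟨g * a * g⁻¹, hA.conj_mem a a.2 g⟩ : ↥A))
        map_one' := by
          have h1 : (⟨g * ((1 : ↥A) : G) * g⁻¹, hA.conj_mem _ (1 : ↥A).2 g⟩ : ↥A) = 1 :=
            Subtype.ext (by simp)
          rw [h1, QuotientGroup.mk_one, map_one]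
        map_mul' := fun a b => by
          have h1 : (⟨g * ((a * b : ↥A) : G) * g⁻¹, hA.conj_mem _ (a * b).2 g⟩ : ↥A) =
              ⟨g * a * g⁻¹, hA.conj_mem a a.2 g⟩ * ⟨g * b * g⁻¹, hA.conj_mem b b.2 g⟩ :=
            Subtype.ext (by simp [mul_assoc])
          rw [h1, QuotientGroup.mk_mul, map_mul] }
    have hf₀ : B.subgroupOf A ≤ f₀.ker := by
      intro b hb
      rw [MonoidHom.mem_ker]
      have h1 : (QuotientGroup.mk (⟨g * b * g⁻¹, hA.conj_mem b b.2 g⟩ : ↥A) :
          ↥A ⧸ B.subgroupOf A) = 1 := by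
        rw [QuotientGroup.eq_one_iff, Subgroup.mem_subgroupOf]
        exact hB.conj_mem _ (Subgroup.mem_subgroupOf.1 hb) g
      show Abelianization.of _ = 1
      rw [h1, map_one]
    refine ⟨MonoidHom.toAdditive (Abelianization.lift (QuotientGroup.lift _ f₀ hf₀)), fun a => ?_⟩
    show Additive.ofMul ((Abelianization.lift (QuotientGroup.lift _ f₀ hf₀))
      (Abelianization.of (QuotientGroup.mk a))) = _
    rw [Abelianization.lift_apply_of, QuotientGroup.lift_mk]
    rfl
  choose act hact using key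
  refine ⟨{ toFun := act, map_one' := ?_, map_mul' := ?_ }, hact⟩
  · refine DFunLike.ext _ _ (fun v => ?_)
    obtain ⟨a, rfl⟩ := secCl_surjective A B v
    show act 1 (secCl A B a) = secCl A B a
    rw [hact]
    congr 1
    exact Subtype.ext (by simp)
  · intro g h
    refine DFunLike.ext _ _ (fun v => ?_)
    obtain ⟨a, rfl⟩ := secCl_surjective A B v
    show act (g * h) (secCl A B a) = act g (act h (secCl A B a))
    rw [hact, hact, hact]
    congr 1
    exact Subtype.ext (by simp [mul_assoc])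

end Cfsg.Agent.Helper51.HigGA
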