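import Mathlib
import Cfsg.Agent.Helper50.HigDefs

/-!
# PIECE GF of CALL S3050 (helper51): a fixed-point-free element of order 3 satisfies
`σ² + σ + 1 = 0` on every section module of a normal 2-subgroup.
-/

set_option autoImplicit false

namespace Cfsg.Agent.Helper51.HigGF

open Cfsg.Agent.Helper5 Cfsg.Agent.Helper50.Hig

theorem secAct_fpf {G : Type*} [Group G] [Finite G] (A B : Subgroup G) [hA : A.Normal]
    [hB : B.Normal] (hA2 : IsPGroup 2 ↥A) (x : G) (hx : orderOf x = 3)
    (hfpf : ∀ a ∈ A, x * a * x⁻¹ = a → a = 1) (act : G →* AddMonoid.End (SecMod A B))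
    (hact : ∀ (g : G) (a : ↥A),
      act g (secCl A B a) = secCl A B ⟨g * a * g⁻¹, hA.conj_mem a a.2 g⟩) :
    act x * act x + act x + 1 = 0 := by
  classical
  haveI : Fact (Nat.Prime 2) := ⟨Nat.prime_two⟩
  haveI : Fact (Nat.Prime 3) := ⟨Nat.prime_three⟩
  have hx3 : x * x * x = 1 := by
    have h1 := pow_orderOf_eq_one x
    rw [hx, pow_succ, pow_succ, pow_one] at h1
    exact h1
  have hσ3 : ∀ v : SecMod A B, act x (act x (act x v)) = v := by
    intro v
    have h1 : act x * act x * act x = 1 := by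
      rw [← map_mul, ← map_mul, hx3, map_one]
    have h2 := DFunLike.congr_fun h1 v
    exact h2
  obtain ⟨secHom, hsecHom⟩ : ∃ secHom : ↥A →* Abelianization (↥A ⧸ B.subgroupOf A),
      ∀ a : ↥A, secCl A B a = Additive.ofMul (secHom a) :=
    ⟨(Abelianization.of).comp (QuotientGroup.mk' (B.subgroupOf A)), fun a => rfl⟩
  have hsec : ∀ a b : ↥A, secCl A B a = secCl A B b ↔ secHom a = secHom b := by
    intro a b
    rw [hsecHom, hsecHom]
    exact Additive.ofMul.injective.eq_iff
  have hclaim : ∀ v : SecMod A B, act x v = v → v = 0 := by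
    intro v hv
    obtain ⟨a, rfl⟩ := secCl_surjective A B v
    rw [hact] at hv
    haveI : Fintype {c : ↥A // secCl A B c = secCl A B a} := Fintype.ofFinite _
    obtain ⟨f, hf⟩ : ∃ f : Function.End {c : ↥A // secCl A B c = secCl A B a},
        ∀ c, ((f c).1 : G) = x * c.1 * x⁻¹ :=
      ⟨fun c => ⟨⟨x * c.1 * x⁻¹, hA.conj_mem c.1 c.1.2 x⟩, by
        rw [← hact, c.2, hact]
        exact hv⟩, fun c => rfl⟩
    have hf3 : f ^ 3 ^ 1 = 1 := by
      rw [pow_one, pow_succ, pow_succ, pow_one]
      funext c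
      apply Subtype.ext
      apply Subtype.ext
      show (((f (f (f c))).1 : ↥A) : G) = c.1
      rw [hf, hf, hf]
      have h5 : x * (x * (x * (c.1 : G) * x⁻¹) * x⁻¹) * x⁻¹ =
          (x * x * x) * c.1 * (x * x * x)⁻¹ := by group
      rw [h5, hx3]
      simp
    have hmod := Equiv.Perm.card_fixedPoints_modEq (p := 3) (n := 1) hf3
    have hcardC : ∃ j, Fintype.card {c : ↥A // secCl A B c = secCl A B a} = 2 ^ j := by
      obtain ⟨j, hj⟩ := (IsPGroup.iff_card).1 (hA2.to_subgroup secHom.ker)
      refine ⟨j, ?_⟩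
      rw [← hj, ← Nat.card_eq_fintype_card]
      apply Nat.card_congr
      exact
        { toFun := fun c => ⟨a⁻¹ * c.1, by
            rw [MonoidHom.mem_ker, map_mul, map_inv, (hsec _ _).1 c.2, inv_mul_cancel]⟩
          invFun := fun k => ⟨a * k.1, by
            rw [hsec, map_mul, MonoidHom.mem_ker.1 k.2, mul_one]⟩
          left_inv := fun c => by
            apply Subtype.ext
            simp
          right_inv := fun k => by
            apply Subtype.ext
            simp }
    obtain ⟨j, hj⟩ := hcardC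
    obtain ⟨N, hN, hN0⟩ : ∃ N : ℕ, 2 ^ j ≡ N [MOD 3] ∧
        (IsEmpty (Function.fixedPoints f) → N = 0) := by
      rw [hj] at hmod
      have gen : ∀ (inst : Fintype (Function.fixedPoints f)),
          IsEmpty (Function.fixedPoints f) → @Fintype.card _ inst = 0 :=
        fun inst h => (@Fintype.card_eq_zero_iff _ inst).2 h
      exact ⟨_, hmod, gen _⟩
    have hne : Nonempty (Function.fixedPoints f) := by
      by_contra hemp
      rw [not_nonempty_iff] at hemp
      rw [hN0 hemp] at hN
      have h6 : 3 ∣ 2 ^ j := (Nat.modEq_zero_iff_dvd).1 hN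
      have h7 := Nat.Prime.dvd_of_dvd_pow Nat.prime_three h6
      norm_num at h7
    obtain ⟨⟨c, hc⟩⟩ := hne
    have hc' : x * ((c.1 : ↥A) : G) * x⁻¹ = c.1 := by
      rw [← hf]
      have h8 : f c = c := hc
      rw [h8]
    have hc1 : c.1 = 1 := Subtype.ext (hfpf c.1 c.1.2 hc')
    rw [← c.2, hc1, secCl_one]
  refine DFunLike.ext _ _ (fun v => ?_)
  show act x (act x v) + act x v + v = 0
  apply hclaim
  rw [map_add, map_add, hσ3]
  abel

end Cfsg.Agent.Helper51.HigGF
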