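import Mathlib
import Cfsg.Agent.Helper50.HigDefs

/-!
# PIECE GQ of CALL S3050 (helper51): a subgroup `Q` with `[A, Q] ≤ B [A, A]` acts trivially on the
section module of `A / B`.
-/

set_option autoImplicit false

namespace Cfsg.Agent.Helper51.HigGQ

open Cfsg.Agent.Helper5 Cfsg.Agent.Helper50.Hig

/-- Elements of `A` lying in `B [A, A]` have zero class. -/
theorem secCl_eq_zero_of_mem {G : Type*} [Group G] (A B : Subgroup G) [hA : A.Normal]
    [hB : B.Normal] (c : ↥A) (hc : (c : G) ∈ B ⊔ ⁅A, A⁆) : secCl A B c = 0 := by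
  rw [Subgroup.mem_sup_of_normal_left] at hc
  obtain ⟨b, hb, d, hd, hbd⟩ := hc
  have hdA : d ∈ A := Subgroup.commutator_le_left A A hd
  have hbA : b ∈ A := by
    have h0 : b = c * d⁻¹ := by rw [← hbd, mul_inv_cancel_right]
    rw [h0]
    exact A.mul_mem c.2 (A.inv_mem hdA)
  have hcbd : c = ⟨b, hbA⟩ * ⟨d, hdA⟩ := Subtype.ext hbd.symm
  rw [hcbd, secCl_mul]
  have h1 : secCl A B ⟨b, hbA⟩ = 0 := by
    unfold secCl
    have h0 : (QuotientGroup.mk (⟨b, hbA⟩ : ↥A) : ↥A ⧸ B.subgroupOf A) = 1 := by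
      rw [QuotientGroup.eq_one_iff, Subgroup.mem_subgroupOf]
      exact hb
    rw [h0, map_one]
    rfl
  have h2 : secCl A B ⟨d, hdA⟩ = 0 := by
    rw [← Subgroup.map_subtype_commutator] at hd
    obtain ⟨d', hd', hd'eq⟩ := hd
    have hd'' : d' = ⟨d, hdA⟩ := Subtype.ext hd'eq
    rw [← hd'']
    have h3 := Abelianization.commutator_subset_ker
      ((Abelianization.of).comp (QuotientGroup.mk' (B.subgroupOf A))) hd'
    rw [MonoidHom.mem_ker] at h3
    have h4 : Abelianization.of (QuotientGroup.mk d' : ↥A ⧸ B.subgroupOf A) = 1 := h3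
    unfold secCl
    rw [h4]
    rfl
  rw [h1, h2, add_zero]

theorem secAct_trivial {G : Type*} [Group G] (A B Q : Subgroup G) [hA : A.Normal] [hB : B.Normal]
    (hAQ : ⁅A, Q⁆ ≤ B ⊔ ⁅A, A⁆) (act : G →* AddMonoid.End (SecMod A B))
    (hact : ∀ (g : G) (a : ↥A),
      act g (secCl A B a) = secCl A B ⟨g * a * g⁻¹, hA.conj_mem a a.2 g⟩)
    (q : G) (hq : q ∈ Q) : act q = 1 := by
  refine DFunLike.ext _ _ (fun v => ?_)
  obtain ⟨a, rfl⟩ := secCl_surjective A B v
  show act q (secCl A B a) = secCl A B a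
  rw [hact]
  have hcA : q * a * q⁻¹ * (a : G)⁻¹ ∈ A := A.mul_mem (hA.conj_mem a a.2 q) (A.inv_mem a.2)
  have hsplit : (⟨q * a * q⁻¹, hA.conj_mem a a.2 q⟩ : ↥A) =
      ⟨q * a * q⁻¹ * (a : G)⁻¹, hcA⟩ * a := Subtype.ext (by simp)
  rw [hsplit, secCl_mul, secCl_eq_zero_of_mem, zero_add]
  apply hAQ
  rw [Subgroup.commutator_comm]
  have h5 := Subgroup.commutator_mem_commutator hq a.2
  rw [commutatorElement_def] at h5
  exact h5

end Cfsg.Agent.Helper51.HigGQ
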