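import Mathlib
import Cfsg.Agent.Helper51.TameSylow
import Cfsg.Agent.Helper51.SylowGraph
import Cfsg.Agent.Helper11.FrobThm

set_option autoImplicit false

/-!
Helper51: an isolated `p`-element that centralizes every `p'`-subgroup it normalizes is central
(statement S3064).  Minimal counterexample: `C_G(x)` is a Frobenius complement, and the Frobenius
kernel is a normal `p'`-subgroup.
-/

namespace Cfsg.Agent.Helper51

open Subgroup
open Cfsg.Agent.Helper33

universe u

/-- `[preimage of Y : K] = |Y|`. -/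
theorem relIndex_comap_mk' {G : Type*} [Group G] (K : Subgroup G) [K.Normal]
    (Y : Subgroup (G ⧸ K)) :
    K.relIndex (Y.comap (QuotientGroup.mk' K)) = Nat.card Y := by
  calc K.relIndex (Y.comap (QuotientGroup.mk' K))
      = ((⊥ : Subgroup (G ⧸ K)).comap (QuotientGroup.mk' K)).relIndex
          (Y.comap (QuotientGroup.mk' K)) := by
        rw [MonoidHom.comap_bot, QuotientGroup.ker_mk']
    _ = (⊥ : Subgroup (G ⧸ K)).relIndex ((Y.comap (QuotientGroup.mk' K)).map (QuotientGroup.mk' K)) :=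
        Subgroup.relIndex_comap _ _ _
    _ = Nat.card ((Y.comap (QuotientGroup.mk' K)).map (QuotientGroup.mk' K)) :=
        Subgroup.relIndex_bot_left _
    _ = Nat.card Y := by
        rw [Subgroup.map_comap_eq_self_of_surjective (QuotientGroup.mk'_surjective K)]

theorem aux_comm {α : Type*} [Group α] {a b : α} (h : a * b = b * a) :
    b⁻¹ * (a⁻¹ * b * a) = 1 := by
  rw [mul_assoc, ← h, inv_mul_cancel_left, inv_mul_cancel]

/-- A central element that is a product `s⁻¹ w` of commuting `p`-elements lies in every Sylow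
`p`-subgroup. -/
theorem central_mem_sylow {G : Type*} [Group G] {p : ℕ} [Fact p.Prime] (S : Sylow p G)
    {z : G} (hz : z ∈ center G) {k : ℕ} (hzk : z ^ (p ^ k) = 1) : z ∈ (S : Subgroup G) := by
  have hpp : p.Prime := Fact.out
  have hn : (zpowers z).Normal := by
    refine ⟨fun n hn g => ?_⟩
    obtain ⟨i, rfl⟩ := mem_zpowers_iff.mp hn
    have hc : g * z ^ i * g⁻¹ = z ^ i := by
      have h1 : g * z ^ i = z ^ i * g := by
        have := (Subgroup.mem_center_iff.mp (zpow_mem hz i)) g
        exact this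
      rw [h1]; group
    rw [hc]; exact zpow_mem (mem_zpowers z) i
  have hpg : IsPGroup p (zpowers z) := by
    have h2 : orderOf z ∣ p ^ k := orderOf_dvd_of_pow_eq_one hzk
    obtain ⟨j, -, hj⟩ := (Nat.dvd_prime_pow hpp).mp h2
    exact IsPGroup.of_card (n := j) (by rw [Nat.card_zpowers, hj])
  exact hpg.le_sylow_of_normal S (mem_zpowers z)

/-- The hypotheses of the isolated element theorem. -/
structure IsoHyp {G : Type*} [Group G] (p : ℕ) (S : Sylow p G) (x : G) : Prop where
  hx : x ∈ (S : Subgroup G)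
  hU : ∀ g : G, g⁻¹ * x * g ∈ (S : Subgroup G) → g⁻¹ * x * g = x
  hb : ∀ H : Subgroup G, (Nat.card H).Coprime p → (∀ h ∈ H, x * h * x⁻¹ ∈ H) →
    ∀ h ∈ H, x * h = h * x

/-- If `x` is central modulo the centre, then `x` is central. -/
theorem IsoHyp.central_of_quotient {G : Type*} [Group G] {p : ℕ} [Fact p.Prime] {S : Sylow p G}
    {x : G} (h : IsoHyp p S x)
    (hq : (QuotientGroup.mk' (center G)) x ∈ center (G ⧸ center G)) : x ∈ center G := by
  rw [Subgroup.mem_center_iff]
  intro g
  obtain ⟨k, hk⟩ := S.isPGroup' ⟨x, h.hx⟩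
  have hxk : x ^ (p ^ k) = 1 := congrArg Subtype.val hk
  -- z = x⁻¹ g⁻¹ x g is central
  have hz : x⁻¹ * (g⁻¹ * x * g) ∈ center G := by
    rw [← QuotientGroup.eq_one_iff]
    have h1 := (Subgroup.mem_center_iff.mp hq) ((QuotientGroup.mk' (center G)) g)
    have h2 : (QuotientGroup.mk' (center G)) (x⁻¹ * (g⁻¹ * x * g))
        = ((QuotientGroup.mk' (center G)) x)⁻¹ * (((QuotientGroup.mk' (center G)) g)⁻¹ *
          (QuotientGroup.mk' (center G)) x * (QuotientGroup.mk' (center G)) g) := by
      simp only [map_mul, map_inv]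
    have h3 : (QuotientGroup.mk' (center G)) (x⁻¹ * (g⁻¹ * x * g)) = 1 := by
      rw [h2]; exact aux_comm h1
    exact h3
  have hcomm : Commute x (x⁻¹ * (g⁻¹ * x * g)) := (Subgroup.mem_center_iff.mp hz) x
  have hzk : (x⁻¹ * (g⁻¹ * x * g)) ^ (p ^ k) = 1 := by
    have h1 : (g⁻¹ * x * g) ^ (p ^ k) = 1 := by
      have : g⁻¹ * x * g = g⁻¹ * x * g⁻¹⁻¹ := by rw [inv_inv]
      rw [this, conj_pow, hxk]; group
    have h2 : g⁻¹ * x * g = x * (x⁻¹ * (g⁻¹ * x * g)) := by group
    rw [h2, hcomm.mul_pow, hxk, one_mul] at h1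
    exact h1
  have hzS : x⁻¹ * (g⁻¹ * x * g) ∈ (S : Subgroup G) := central_mem_sylow S hz hzk
  have h4 : g⁻¹ * x * g ∈ (S : Subgroup G) := by
    have : g⁻¹ * x * g = x * (x⁻¹ * (g⁻¹ * x * g)) := by group
    rw [this]; exact mul_mem h.hx hzS
  have h5 := h.hU g h4
  calc g * x = g * (g⁻¹ * x * g) := by rw [h5]
    _ = x * g := by group

/-- The hypotheses pass to the quotient by the centre. -/
theorem IsoHyp.quotient {G : Type*} [Group G] [Finite G] {p : ℕ} [Fact p.Prime] {S : Sylow p G}
    {x : G} (h : IsoHyp p S x) :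
    IsoHyp p (S.mapSurjective (QuotientGroup.mk'_surjective (center G)))
      ((QuotientGroup.mk' (center G)) x) := by
  have hpp : p.Prime := Fact.out
  refine ⟨?_, ?_, ?_⟩
  · rw [← SetLike.mem_coe, Sylow.coe_mapSurjective]
    exact Subgroup.mem_map.mpr ⟨x, h.hx, rfl⟩
  · intro gb hgb
    obtain ⟨g, rfl⟩ := QuotientGroup.mk'_surjective (center G) gb
    have hgb' : (QuotientGroup.mk' (center G)) (g⁻¹ * x * g) ∈
        (S : Subgroup G).map (QuotientGroup.mk' (center G)) := by
      have h1 : ((QuotientGroup.mk' (center G)) g)⁻¹ * (QuotientGroup.mk' (center G)) x *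
          (QuotientGroup.mk' (center G)) g = (QuotientGroup.mk' (center G)) (g⁻¹ * x * g) := by
        simp only [map_mul, map_inv]
      rw [← h1, ← Sylow.coe_mapSurjective (QuotientGroup.mk'_surjective (center G)) S]
      exact hgb
    obtain ⟨s, hs, hsg⟩ := Subgroup.mem_map.mp hgb'
    -- z = s⁻¹ w central p-element
    have hz : s⁻¹ * (g⁻¹ * x * g) ∈ center G := by
      rw [← QuotientGroup.eq_one_iff]
      have : (QuotientGroup.mk' (center G)) (s⁻¹ * (g⁻¹ * x * g)) = 1 := by
        rw [map_mul, map_inv, hsg, inv_mul_cancel]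
      exact this
    obtain ⟨a, ha⟩ := S.isPGroup' ⟨s, hs⟩
    have hsa : s ^ (p ^ a) = 1 := congrArg Subtype.val ha
    obtain ⟨b, hb⟩ := S.isPGroup' ⟨x, h.hx⟩
    have hxb : x ^ (p ^ b) = 1 := congrArg Subtype.val hb
    have hwb : (g⁻¹ * x * g) ^ (p ^ b) = 1 := by
      have : g⁻¹ * x * g = g⁻¹ * x * g⁻¹⁻¹ := by rw [inv_inv]
      rw [this, conj_pow, hxb]; group
    have hcomm : Commute s (s⁻¹ * (g⁻¹ * x * g)) := (Subgroup.mem_center_iff.mp hz) s
    have hcomm2 : Commute s⁻¹ (g⁻¹ * x * g) := by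
      have h1 : g⁻¹ * x * g = s * (s⁻¹ * (g⁻¹ * x * g)) := by group
      have h2 : Commute s (g⁻¹ * x * g) := by
        rw [h1]; exact (Commute.refl s).mul_right hcomm
      exact h2.inv_left
    have hzk : (s⁻¹ * (g⁻¹ * x * g)) ^ (p ^ (a + b)) = 1 := by
      rw [hcomm2.mul_pow, pow_add, pow_mul, inv_pow, hsa, inv_one, one_pow, one_mul,
        mul_comm (p ^ a) (p ^ b), pow_mul, hwb, one_pow]
    have hzS : s⁻¹ * (g⁻¹ * x * g) ∈ (S : Subgroup G) := central_mem_sylow S hz hzk
    have h4 : g⁻¹ * x * g ∈ (S : Subgroup G) := by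
      have : g⁻¹ * x * g = s * (s⁻¹ * (g⁻¹ * x * g)) := by group
      rw [this]; exact mul_mem hs hzS
    have h5 := h.hU g h4
    have h6 : ((QuotientGroup.mk' (center G)) g)⁻¹ * (QuotientGroup.mk' (center G)) x *
        (QuotientGroup.mk' (center G)) g = (QuotientGroup.mk' (center G)) (g⁻¹ * x * g) := by
      simp only [map_mul, map_inv]
    rw [h6, h5]
  · intro Hb hHb hxHb hb' hhb'
    obtain ⟨hh, rfl⟩ := QuotientGroup.mk'_surjective (center G) hb'
    -- the preimage
    obtain ⟨H, hH⟩ : ∃ H : Subgroup G, H = Hb.comap (QuotientGroup.mk' (center G)) := ⟨_, rfl⟩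
    have hZH : center G ≤ H := by
      intro z hz
      rw [hH, Subgroup.mem_comap]
      have : (QuotientGroup.mk' (center G)) z = 1 := (QuotientGroup.eq_one_iff z).mpr hz
      rw [this]; exact one_mem _
    have hxH : ∀ y ∈ H, x * y * x⁻¹ ∈ H := by
      intro y hy
      rw [hH, Subgroup.mem_comap] at hy ⊢
      have := hxHb _ hy
      simpa only [map_mul, map_inv] using this
    have hxN : x ∈ normalizer (H : Set G) := by
      apply mem_normalizer_of_cj_le
      rintro _ ⟨y, hy, rfl⟩
      exact hxH y hy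
    -- the central Sylow subgroup of H
    have hZp : IsPGroup p ↥((S : Subgroup G) ⊓ center G) := S.isPGroup'.to_le inf_le_left
    have hidx : ¬ p ∣ ((S : Subgroup G) ⊓ center G).relIndex H := by
      have h1 := Subgroup.relIndex_mul_relIndex ((S : Subgroup G) ⊓ center G) (center G) H
        inf_le_right hZH
      rw [← h1]
      intro hd
      rcases (Nat.Prime.dvd_mul hpp).mp hd with h2 | h2
      · exact not_dvd_relIndex_inf_of_normal (S : Subgroup G) (center G) S.not_dvd_index h2
      · rw [hH, relIndex_comap_mk'] at h2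
        exact (Nat.Prime.coprime_iff_not_dvd hpp).mp hHb.symm h2
    have hHN : H ≤ normalizer (H : Set G) := le_normalizer
    have hCn : (H.subgroupOf (normalizer (H : Set G))).Normal := Subgroup.normal_in_normalizer
    obtain ⟨K, hKn, hKC, hKcop, hK⟩ := exists_normal_pPrime_of_central_sylow
      (G := ↥(normalizer (H : Set G))) (H.subgroupOf (normalizer (H : Set G)))
      (((S : Subgroup G) ⊓ center G).subgroupOf (normalizer (H : Set G)))
      hZp.comap_subtype
      (fun z hz c _ => Subtype.ext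
        (((Subgroup.mem_center_iff.mp (Subgroup.mem_subgroupOf.mp hz).2) (c : G)).symm))
      (by rw [Subgroup.relIndex_subgroupOf hHN]; exact hidx)
    -- x centralizes K
    have hKx : ∀ k ∈ K.map (normalizer (H : Set G)).subtype, x * k = k * x := by
      apply h.hb
      · rw [Subgroup.card_map_of_injective (Subgroup.subtype_injective _)]; exact hKcop
      · rintro _ ⟨k, hk, rfl⟩
        exact ⟨⟨x, hxN⟩ * k * ⟨x, hxN⟩⁻¹, hKn.conj_mem k hk ⟨x, hxN⟩, rfl⟩
    -- x centralizes H
    have hhH : hh ∈ H := by rw [hH, Subgroup.mem_comap]; exact hhb'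
    obtain ⟨b, hb⟩ := exists_pow_coprime_order p hh
    have hc1 : Commute x (hh ^ (p ^ b)) := by
      have hmem : (⟨hh ^ (p ^ b), hHN (H.pow_mem hhH _)⟩ : ↥(normalizer (H : Set G))) ∈ K := by
        apply hK
        · exact Subgroup.mem_subgroupOf.mpr (H.pow_mem hhH _)
        · rw [← Subgroup.orderOf_coe]; exact hb
      exact hKx _ (Subgroup.mem_map.mpr ⟨_, hmem, rfl⟩)
    have hc2 : Commute x (hh ^ (Nat.card Hb)) := by
      have hmem : hh ^ (Nat.card Hb) ∈ center G := by
        rw [← QuotientGroup.eq_one_iff]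
        have h1 : ((QuotientGroup.mk' (center G)) hh) ^ (Nat.card Hb) = 1 := by
          have := pow_card_eq_one' (G := ↥Hb) (x := ⟨_, hhb'⟩)
          exact congrArg Subtype.val this
        rw [← map_pow] at h1
        exact h1
      exact (Subgroup.mem_center_iff.mp hmem) x
    have hcop : Nat.Coprime (Nat.card Hb) (p ^ b) := Nat.Coprime.pow_right b hHb
    have hbez := Nat.gcd_eq_gcd_ab (Nat.card Hb) (p ^ b)
    rw [hcop.gcd_eq_one] at hbez
    have hh1 : hh = (hh ^ (Nat.card Hb)) ^ (Nat.gcdA (Nat.card Hb) (p ^ b)) *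
        (hh ^ (p ^ b)) ^ (Nat.gcdB (Nat.card Hb) (p ^ b)) := by
      rw [← zpow_natCast, ← zpow_natCast, ← zpow_mul, ← zpow_mul, ← zpow_add, ← hbez]
      simp
    have hc : Commute x hh := by
      rw [hh1]
      exact (hc2.zpow_right _).mul_right (hc1.zpow_right _)
    show (QuotientGroup.mk' (center G)) x * (QuotientGroup.mk' (center G)) hh
      = (QuotientGroup.mk' (center G)) hh * (QuotientGroup.mk' (center G)) x
    rw [← map_mul, ← map_mul, hc.eq]

end Cfsg.Agent.Helper51
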