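import Mathlib
import Cfsg.Agent.Helper51.Isolated

set_option autoImplicit false

/-!
Helper51: an isolated `p`-element that centralizes every `p'`-subgroup it normalizes is central
(statement S3064), main induction.
-/

namespace Cfsg.Agent.Helper51

open Subgroup
open Cfsg.Agent.Helper33
open scoped Pointwise

universe u

/-- The hypotheses pass to subgroups containing `x`. -/
theorem IsoHyp.subgroup {G : Type*} [Group G] [Finite G] {p : ℕ} [Fact p.Prime] {S : Sylow p G}
    {x : G} (h : IsoHyp p S x) (M : Subgroup G) (hxM : x ∈ M) :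
    ∃ T : Sylow p ↥M, IsoHyp p T (⟨x, hxM⟩ : ↥M) := by
  have hpp : p.Prime := Fact.out
  obtain ⟨k, hk⟩ := S.isPGroup' ⟨x, h.hx⟩
  have hxk : x ^ (p ^ k) = 1 := congrArg Subtype.val hk
  have hQ : IsPGroup p (zpowers (⟨x, hxM⟩ : ↥M)) := by
    have h1 : (⟨x, hxM⟩ : ↥M) ^ (p ^ k) = 1 := Subtype.ext hxk
    have h2 : orderOf (⟨x, hxM⟩ : ↥M) ∣ p ^ k := orderOf_dvd_of_pow_eq_one h1
    obtain ⟨j, -, hj⟩ := (Nat.dvd_prime_pow hpp).mp h2
    exact IsPGroup.of_card (n := j) (by rw [Nat.card_zpowers, hj])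
  obtain ⟨T, hT⟩ := hQ.exists_le_sylow
  have hxT : (⟨x, hxM⟩ : ↥M) ∈ (T : Subgroup ↥M) := hT (mem_zpowers _)
  obtain ⟨c, hc⟩ := exists_cj_le_sylow S (T.isPGroup'.map M.subtype)
  have hcx : c * x * c⁻¹ = x := by
    have h1 : c * x * c⁻¹ ∈ (S : Subgroup G) :=
      hc (cj_mem_cj (Subgroup.mem_map.mpr ⟨_, hxT, rfl⟩))
    have h2 := h.hU c⁻¹ (by rw [inv_inv]; exact h1)
    rw [inv_inv] at h2; exact h2
  refine ⟨T, hxT, ?_, ?_⟩
  · intro m hm
    have h1 : c * ((m : G)⁻¹ * x * m) * c⁻¹ ∈ (S : Subgroup G) :=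
      hc (cj_mem_cj (Subgroup.mem_map.mpr ⟨_, hm, rfl⟩))
    have h2 : ((m : G) * c⁻¹)⁻¹ * x * ((m : G) * c⁻¹) = c * ((m : G)⁻¹ * x * m) * c⁻¹ := by group
    have h3 := h.hU ((m : G) * c⁻¹) (by rw [h2]; exact h1)
    rw [h2] at h3
    have h4 : (m : G)⁻¹ * x * m = x := by
      have : c * ((m : G)⁻¹ * x * m) * c⁻¹ = c * x * c⁻¹ := by rw [h3, hcx]
      exact mul_left_cancel (mul_right_cancel this)
    exact Subtype.ext h4
  · intro H hH hxH y hy
    have h1 := h.hb (H.map M.subtype)
      (by rw [Subgroup.card_map_of_injective (Subgroup.subtype_injective _)]; exact hH)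
      (by rintro _ ⟨y', hy', rfl⟩; exact ⟨_, hxH y' hy', rfl⟩) (y : G)
      (Subgroup.mem_map.mpr ⟨y, hy, rfl⟩)
    exact Subtype.ext h1

/-- An isolated `p`-element centralizing every `p'`-subgroup it normalizes is central. -/
theorem isolated_central {p : ℕ} [Fact p.Prime] :
    ∀ (n : ℕ) (G : Type u) [Group G] [Finite G], Nat.card G = n →
      ∀ (S : Sylow p G) (x : G), IsoHyp p S x → x ∈ center G := by
  intro n
  induction n using Nat.strong_induction_on with
  | _ n ih =>
  intro G _ _ hcard S x h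
  have hpp : p.Prime := Fact.out
  by_contra hxZ
  have hSC : (S : Subgroup G) ≤ centralizer ({x} : Set G) := by
    intro s hs
    rw [mem_centralizer_singleton_iff]
    have h1 := h.hU s (mul_mem (mul_mem (inv_mem hs) h.hx) hs)
    calc s * x = s * (s⁻¹ * x * s) := by rw [h1]
      _ = x * s := by group
  have step1 : ∀ M : Subgroup G, M ≠ ⊤ → x ∈ M → M ≤ centralizer ({x} : Set G) := by
    intro M hM hxM
    obtain ⟨T, hT⟩ := h.subgroup M hxM
    have hlt : Nat.card M < n := by
      rw [← hcard, ← Subgroup.card_top (G := G)]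
      exact card_lt_card_of_lt (lt_top_iff_ne_top.mpr hM)
    have hz := ih (Nat.card M) hlt ↥M rfl T ⟨x, hxM⟩ hT
    intro m hm
    rw [mem_centralizer_singleton_iff]
    exact congrArg Subtype.val ((Subgroup.mem_center_iff.mp hz) ⟨m, hm⟩)
  have hCtop : centralizer ({x} : Set G) ≠ ⊤ := by
    intro htop
    apply hxZ
    rw [Subgroup.mem_center_iff]
    intro g
    have : g ∈ centralizer ({x} : Set G) := htop ▸ Subgroup.mem_top g
    exact mem_centralizer_singleton_iff.mp this
  have K1 : ∀ g : G, g⁻¹ * x * g ∈ centralizer ({x} : Set G) → g ∈ centralizer ({x} : Set G) := by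
    intro g hg
    have hidx : ¬ p ∣ (S : Subgroup G).relIndex (centralizer ({x} : Set G)) := by
      intro hd
      apply S.not_dvd_index
      have := Subgroup.relIndex_mul_index hSC
      rw [← this]; exact Dvd.dvd.mul_right hd _
    have hQ : IsPGroup p (zpowers (g⁻¹ * x * g)) := by
      obtain ⟨k, hk⟩ := S.isPGroup' ⟨x, h.hx⟩
      have hxk : x ^ (p ^ k) = 1 := congrArg Subtype.val hk
      have h1 : (g⁻¹ * x * g) ^ (p ^ k) = 1 := by
        have : g⁻¹ * x * g = g⁻¹ * x * g⁻¹⁻¹ := by rw [inv_inv]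
        rw [this, conj_pow, hxk]; group
      have h2 : orderOf (g⁻¹ * x * g) ∣ p ^ k := orderOf_dvd_of_pow_eq_one h1
      obtain ⟨j, -, hj⟩ := (Nat.dvd_prime_pow hpp).mp h2
      exact IsPGroup.of_card (n := j) (by rw [Nat.card_zpowers, hj])
    obtain ⟨c, hcC, hc⟩ := exists_cj_le_of_relIndex (H := centralizer ({x} : Set G))
      (T := (S : Subgroup G)) (Q := zpowers (g⁻¹ * x * g)) hSC S.isPGroup' hidx
      (zpowers_le.mpr hg) hQ
    have h1 : c * (g⁻¹ * x * g) * c⁻¹ ∈ (S : Subgroup G) := hc (cj_mem_cj (mem_zpowers _))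
    have h2 : (g * c⁻¹)⁻¹ * x * (g * c⁻¹) = c * (g⁻¹ * x * g) * c⁻¹ := by group
    have h3 := h.hU (g * c⁻¹) (by rw [h2]; exact h1)
    rw [h2] at h3
    have hcx : c * x = x * c := mem_centralizer_singleton_iff.mp hcC
    have h4 : g⁻¹ * x * g = x := by
      have : c * (g⁻¹ * x * g) * c⁻¹ = c * x * c⁻¹ := by rw [h3, hcx]; group
      exact mul_left_cancel (mul_right_cancel this)
    rw [mem_centralizer_singleton_iff]
    calc g * x = g * (g⁻¹ * x * g) := by rw [h4]
      _ = x * g := by group
  have K2 : ∀ g : G, g ∉ centralizer ({x} : Set G) → closure {x, g⁻¹ * x * g} = ⊤ := by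
    intro g hg
    by_contra hne
    have h1 := step1 _ hne (Subgroup.subset_closure (Set.mem_insert _ _))
    exact hg (K1 g (h1 (Subgroup.subset_closure (Set.mem_insert_of_mem _ rfl))))
  have hZ : center G = ⊥ := by
    by_contra hZne
    apply hxZ
    apply h.central_of_quotient
    have hlt : Nat.card (G ⧸ center G) < n := by
      have h1 := Subgroup.card_eq_card_quotient_mul_card_subgroup (center G)
      have h2 : 1 < Nat.card (center G) := (Subgroup.one_lt_card_iff_ne_bot _).mpr hZne
      have h3 : 0 < Nat.card (G ⧸ center G) := Nat.card_pos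
      rw [← hcard, h1]
      nlinarith
    exact ih _ hlt (G ⧸ center G) rfl _ _ h.quotient
  have hx1 : x ≠ 1 := fun h1 => hxZ (h1 ▸ one_mem _)
  have hF : Cfsg.IsFrobeniusComplement (centralizer ({x} : Set G)) := by
    refine ⟨?_, hCtop, ?_⟩
    · intro hbot
      have : x ∈ centralizer ({x} : Set G) := mem_centralizer_singleton_iff.mpr rfl
      rw [hbot, Subgroup.mem_bot] at this
      exact hx1 this
    · intro g hg
      rw [eq_bot_iff]
      intro u hu
      obtain ⟨hu1', hu2''⟩ := hu
      have hu1 : u ∈ centralizer ({x} : Set G) := hu1'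
      have hu2 : u ∈ MulAut.conj g • centralizer ({x} : Set G) := hu2''
      rw [Subgroup.mem_pointwise_smul_iff_inv_smul_mem] at hu2
      have hu2' : g⁻¹ * u * g ∈ centralizer ({x} : Set G) := by
        simpa [MulAut.smul_def, mul_assoc] using hu2
      have hg' : g⁻¹ ∉ centralizer ({x} : Set G) := fun hh => hg (by simpa using inv_mem hh)
      have htop := K2 g⁻¹ hg'
      rw [inv_inv] at htop
      have hcen : closure {x, g * x * g⁻¹} ≤ centralizer ({u} : Set G) := by
        rw [closure_le]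
        intro y hy
        rw [SetLike.mem_coe, mem_centralizer_singleton_iff]
        rcases hy with hy | hy
        · rw [hy]; exact (mem_centralizer_singleton_iff.mp hu1).symm
        · rw [Set.mem_singleton_iff.mp hy]
          have h1 := mem_centralizer_singleton_iff.mp hu2'
          calc g * x * g⁻¹ * u = g * (x * (g⁻¹ * u * g)) * g⁻¹ := by group
            _ = g * ((g⁻¹ * u * g) * x) * g⁻¹ := by rw [← h1]
            _ = u * (g * x * g⁻¹) := by group
      rw [htop] at hcen
      have hucen : u ∈ center G := by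
        rw [Subgroup.mem_center_iff]
        intro y
        exact mem_centralizer_singleton_iff.mp (hcen (Subgroup.mem_top y))
      rw [hZ] at hucen
      exact hucen
  obtain ⟨N, -, hNn, hNc⟩ := Cfsg.Agent.Helper11.frobenius_kernel_subgroup _ hF
  have hNcop : (Nat.card N).Coprime p := by
    rw [← hNc.index_eq_card]
    have h1 : (centralizer ({x} : Set G)).index ∣ (S : Subgroup G).index :=
      Subgroup.index_dvd_of_le hSC
    exact ((Nat.Prime.coprime_iff_not_dvd hpp).mpr (fun hd => S.not_dvd_index (hd.trans h1))).symm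
  have hNC : N ≤ centralizer ({x} : Set G) := by
    intro y hy
    rw [mem_centralizer_singleton_iff]
    exact (h.hb N hNcop (fun y' hy' => hNn.conj_mem y' hy' x) y hy).symm
  have hNbot : N = ⊥ := by
    have := hNc.disjoint
    rw [disjoint_iff, inf_eq_left.mpr hNC] at this
    exact this
  have := hNc.sup_eq_top
  rw [hNbot, bot_sup_eq] at this
  exact hCtop this

end Cfsg.Agent.Helper51
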