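import Mathlib

set_option autoImplicit false

/-!
# PIECE A of CALL S4607 (helper77): Wedderburn–Artin with nilpotent radical (helper51)
-/

namespace Cfsg.Agent.Helper51

universe u v

/-- A product of `n` elements of a left ideal lies in its `n`-th power. -/
theorem k2_list_prod_mem_pow {R : Type*} [Ring R] (I : Ideal R) (l : List R)
    (h : ∀ x ∈ l, x ∈ I) : l.prod ∈ I ^ l.length := by
  induction l with
  | nil =>
    rw [List.prod_nil, List.length_nil, Submodule.pow_zero, Ideal.one_eq_top]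
    exact Submodule.mem_top
  | cons a t ih =>
    have ha : a ∈ I := h a List.mem_cons_self
    have ht := ih (fun x hx => h x (List.mem_cons_of_mem _ hx))
    rw [List.prod_cons, List.length_cons]
    by_cases h0 : t.length = 0
    · have ht0 : t = [] := List.length_eq_zero_iff.mp h0
      subst ht0
      rw [List.prod_nil, mul_one, List.length_nil, zero_add, Submodule.pow_one]
      exact ha
    · rw [Submodule.pow_succ' _ h0]
      exact Ideal.mul_mem_mul ha ht

/-- PIECE A of CALL S4607: a finite-dimensional algebra over an algebraically closed field maps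
onto a product of matrix algebras with nilpotent kernel. -/
theorem k2_wedderburn (k : Type v) [Field k] [IsAlgClosed k] (𝔅 : Type u) [Ring 𝔅] [Algebra k 𝔅]
    [FiniteDimensional k 𝔅] :
    ∃ (m : ℕ) (d : Fin m → ℕ)
      (f : 𝔅 →ₐ[k] (∀ i : Fin m, Matrix (Fin (d i)) (Fin (d i)) k)),
      Function.Surjective f ∧ (∀ i, 0 < d i) ∧
      ∃ N : ℕ, ∀ l : List 𝔅, l.length = N → (∀ x ∈ l, f x = 0) → l.prod = 0 := by
  have hart : IsArtinianRing 𝔅 := IsArtinianRing.of_finite k 𝔅
  have hfd : FiniteDimensional k (𝔅 ⧸ Ring.jacobson 𝔅) :=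
    Module.Finite.of_surjective (Ideal.Quotient.mkₐ k (Ring.jacobson 𝔅)).toLinearMap
      (Ideal.Quotient.mkₐ_surjective k (Ring.jacobson 𝔅))
  obtain ⟨m, d, hd, ⟨e⟩⟩ :=
    IsSemisimpleRing.exists_algEquiv_pi_matrix_of_isAlgClosed k (𝔅 ⧸ Ring.jacobson 𝔅)
  obtain ⟨N, hN⟩ : IsNilpotent (Ring.jacobson 𝔅) := IsSemiprimaryRing.isNilpotent
  refine ⟨m, d, (e : (𝔅 ⧸ Ring.jacobson 𝔅) →ₐ[k] _).comp
    (Ideal.Quotient.mkₐ k (Ring.jacobson 𝔅)), ?_, fun i => Nat.pos_of_ne_zero (hd i).out, N, ?_⟩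
  · exact e.surjective.comp (Ideal.Quotient.mkₐ_surjective k _)
  · intro l hl hx
    have hmem : ∀ x ∈ l, x ∈ Ring.jacobson 𝔅 := by
      intro x hxl
      have h1 : e (Ideal.Quotient.mkₐ k (Ring.jacobson 𝔅) x) = 0 := hx x hxl
      have h2 : Ideal.Quotient.mkₐ k (Ring.jacobson 𝔅) x = 0 := by
        apply e.injective
        rw [map_zero]
        exact h1
      exact Ideal.Quotient.eq_zero_iff_mem.mp h2
    have h3 := k2_list_prod_mem_pow (Ring.jacobson 𝔅) l hmem
    rw [hl, hN] at h3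
    exact h3

end Cfsg.Agent.Helper51
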