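import Mathlib

set_option autoImplicit false

/-!
# PIECE C of CALL S4607 (helper77): the corner algebra of a central idempotent (helper51)

The corner `eA` is realised as the quotient of `A` by the ring congruence
`a ~ b ↔ e * a = e * b`.
-/

namespace Cfsg.Agent.Helper51

universe u v

/-- The ring congruence `a ~ b ↔ e * a = e * b` attached to a central idempotent `e`. -/
def k2CornerCon {A : Type u} [Ring A] (e : A) (hc : ∀ a, e * a = a * e) : RingCon A where
  r a b := e * a = e * b
  iseqv := ⟨fun _ => rfl, fun h => h.symm, fun h1 h2 => h1.trans h2⟩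
  mul' := by
    intro w x y z h1 h2
    show e * (w * y) = e * (x * z)
    calc e * (w * y) = (e * w) * y := by rw [mul_assoc]
      _ = (e * x) * y := by rw [h1]
      _ = x * (e * y) := by rw [hc x, mul_assoc]
      _ = x * (e * z) := by rw [h2]
      _ = e * (x * z) := by rw [← mul_assoc, ← hc x, mul_assoc]
  add' := by
    intro w x y z h1 h2
    show e * (w + y) = e * (x + z)
    rw [mul_add, mul_add, h1, h2]

/-- PIECE C of CALL S4607: the corner algebra of a central idempotent as a unital algebra. -/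
theorem k2_corner {k : Type v} [Field k] {A : Type u} [Ring A] [Algebra k A]
    [FiniteDimensional k A] (e : A) (he : e * e = e) (hc : ∀ a, e * a = a * e) :
    ∃ (𝔅 : Type u) (_ : Ring 𝔅) (_ : Algebra k 𝔅) (_ : FiniteDimensional k 𝔅) (φ : 𝔅 →ₗ[k] A),
      Function.Injective φ ∧ (∀ x y, φ (x * y) = φ x * φ y) ∧ φ 1 = e ∧
      ∀ a, (∃ x, φ x = a) ↔ e * a = a := by
  let c : RingCon A := k2CornerCon e hc
  have hcr : ∀ a b : A, c a b ↔ e * a = e * b := fun _ _ => Iff.rfl
  let f : c.Quotient → A := Quotient.lift (s := c.toSetoid) (fun a => e * a) (fun a b h => h)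
  have hf : ∀ a : A, f (a : c.Quotient) = e * a := fun _ => rfl
  have hsurj : ∀ x : c.Quotient, ∃ a : A, (a : c.Quotient) = x := fun x =>
    Quotient.inductionOn' x (fun a => ⟨a, rfl⟩)
  let φ : c.Quotient →ₗ[k] A :=
    { toFun := f
      map_add' := by
        intro x y
        obtain ⟨a, rfl⟩ := hsurj x
        obtain ⟨b, rfl⟩ := hsurj y
        rw [← RingCon.coe_add, hf, hf, hf, mul_add]
      map_smul' := by
        intro r x
        obtain ⟨a, rfl⟩ := hsurj x
        rw [← RingCon.coe_smul, hf, hf, RingHom.id_apply, mul_smul_comm] }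
  have hφ : ∀ a : A, φ (a : c.Quotient) = e * a := fun _ => rfl
  refine ⟨c.Quotient, inferInstance, inferInstance,
    Module.Finite.of_surjective (c.mkₐ k).toLinearMap (RingCon.mkₐ_surjective (α := k) c), φ, ?_, ?_, ?_, ?_⟩
  · intro x y hxy
    obtain ⟨a, rfl⟩ := hsurj x
    obtain ⟨b, rfl⟩ := hsurj y
    rw [hφ, hφ] at hxy
    exact (RingCon.eq c).mpr ((hcr a b).mpr hxy)
  · intro x y
    obtain ⟨a, rfl⟩ := hsurj x
    obtain ⟨b, rfl⟩ := hsurj y
    rw [← RingCon.coe_mul, hφ, hφ, hφ]
    calc e * (a * b) = (e * e) * (a * b) := by rw [he]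
      _ = e * (e * a) * b := by simp only [mul_assoc]
      _ = e * (a * e) * b := by rw [hc a]
      _ = e * a * (e * b) := by simp only [mul_assoc]
  · rw [← RingCon.coe_one, hφ, mul_one]
  · intro a
    constructor
    · rintro ⟨x, rfl⟩
      obtain ⟨b, rfl⟩ := hsurj x
      rw [hφ, ← mul_assoc, he]
    · intro h
      exact ⟨(a : c.Quotient), by rw [hφ, h]⟩

end Cfsg.Agent.Helper51
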