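import Cfsg.Agent.Helper71.McLDefs
import Cfsg.Agent.Helper71.McLA

set_option autoImplicit false

/-!
# PIECE E of CALL S5075 (helper71): a full block with a complement is everything (helper51)
-/

namespace Cfsg.Agent.Helper51.McL

open Module Cfsg.Agent.Helper71.McL

variable {F V : Type*} [Field F] [AddCommGroup V] [Module F V]

/-- A functional separating a vector from a line. -/
theorem blk_exists_dual {a x : V} (hx : x ∉ Submodule.span F {a}) :
    ∃ χ : Dual F V, χ a = 0 ∧ χ x ≠ 0 := by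
  obtain ⟨f, hf, hp⟩ := Submodule.exists_dual_map_eq_bot_of_notMem hx inferInstance
  refine ⟨f, ?_, hf⟩
  have : f a ∈ (Submodule.span F {a}).map f :=
    Submodule.mem_map_of_mem (Submodule.mem_span_singleton_self a)
  rw [hp] at this
  simpa using this

/-- The functional equal to `χ` on `Q` and zero on `K`. -/
theorem blk_res {Q K : Submodule F V} (hQK : IsCompl Q K) (χ : Dual F V) :
    ∃ χ' : Dual F V, (∀ q ∈ Q, χ' q = χ q) ∧ ∀ k ∈ K, χ' k = 0 := by
  refine ⟨LinearMap.ofIsCompl hQK (χ ∘ₗ Q.subtype) 0, ?_, ?_⟩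
  · intro q hq
    have := LinearMap.ofIsCompl_apply_left hQK (φ := χ ∘ₗ Q.subtype) (ψ := 0) ⟨q, hq⟩
    simpa using this
  · intro k hk
    have := LinearMap.ofIsCompl_apply_right hQK (φ := χ ∘ₗ Q.subtype) (ψ := 0) ⟨k, hk⟩
    simpa using this

theorem blk_exists_not_mem_span [Module.Finite F V] (P : Submodule F V) (hP : 2 ≤ finrank F P)
    (a : V) : ∃ x ∈ P, x ∉ Submodule.span F {a} := by
  by_contra hcon
  have hle : P ≤ Submodule.span F {a} := by
    intro x hx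
    by_contra hxa
    exact hcon ⟨x, hx, hxa⟩
  have h1 := Submodule.finrank_mono hle
  have h2 : finrank F (Submodule.span F {a}) ≤ 1 := by
    have := finrank_span_le_card (R := F) ({a} : Set V)
    simpa using this
  omega

theorem blk_finrank_inf_ker [Module.Finite F V] (Q : Submodule F V) (χ : Dual F V) :
    finrank F Q ≤ finrank F (Q ⊓ LinearMap.ker χ : Submodule F V) + 1 := by
  have h1 := Submodule.finrank_sup_add_finrank_inf_eq Q (LinearMap.ker χ)
  have h2 := LinearMap.finrank_range_add_finrank_ker χ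
  have h3 : finrank F (LinearMap.range χ) ≤ 1 := by
    have := Submodule.finrank_le (LinearMap.range χ)
    rwa [Module.finrank_self] at this
  have h4 := Submodule.finrank_le (Q ⊔ LinearMap.ker χ)
  omega

theorem block_eq [Module.Finite F V] (S : TSys F V) (W : Submodule F V) (hG : S.Good W)
    (hsym : S.Sym) (Q K : Submodule F V) (hQ3 : 3 ≤ finrank F Q) (hQK : IsCompl Q K)
    (hL : ∀ x ∈ Q, x ≠ 0 → ∀ φ : Dual F V, (S.Θ φ x ↔ φ x = 0 ∧ ∀ k ∈ K, φ k = 0)) :
    Q = W ∧ K = S.Fix := by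
  have hF1 : ∀ x ∈ Q, x ≠ 0 → ∀ χ : Dual F V, χ x = 0 →
      ∃ χ' : Dual F V, S.Θ χ' x ∧ (∀ q ∈ Q, χ' q = χ q) ∧ ∀ k ∈ K, χ' k = 0 := by
    intro x hx hx0 χ hχ
    obtain ⟨χ', h1, h2⟩ := blk_res hQK χ
    exact ⟨χ', (hL x hx hx0 χ').2 ⟨by rw [h1 x hx, hχ], h2⟩, h1, h2⟩
  have hcen : ∀ x ∈ Q, x ≠ 0 → S.IsCenter x := by
    intro x hx hx0
    obtain ⟨y, hyQ, hy⟩ := blk_exists_not_mem_span Q (by omega) x
    obtain ⟨χ, hχx, hχy⟩ := blk_exists_dual hy
    obtain ⟨χ', hΘ, h1, -⟩ := hF1 x hx hx0 χ hχx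
    refine ⟨hx0, χ', ?_, hΘ⟩
    intro e
    apply hχy
    rw [← h1 y hyQ, e]; rfl
  have hQW : Q ≤ W := by
    intro x hx
    by_cases hx0 : x = 0
    · rw [hx0]; exact W.zero_mem
    · obtain ⟨-, φ, hφ, hΘ⟩ := hcen x hx hx0
      exact hG.center_mem φ x hΘ hφ hx0
  have hK0 : ∀ x ∈ Q, x ≠ 0 → ∀ φ : Dual F V, S.Θ φ x → ∀ k ∈ K, φ k = 0 :=
    fun x hx hx0 φ h => ((hL x hx hx0 φ).1 h).2
  have hc : ∀ a ∈ Q, ∀ b ∈ K, a ≠ 0 → b ≠ 0 → ¬ S.IsCenter (a + b) := by
    intro a ha b hb ha0 hb0 hu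
    have hopp : ∀ x ∈ Q, x ∉ Submodule.span F {a} → S.Opp (a + b) x := by
      intro x hx hxa
      have hx0 : x ≠ 0 := fun e => hxa (e ▸ Submodule.zero_mem _)
      have hax : a ∉ Submodule.span F {x} := by
        intro hmem
        obtain ⟨c, hc⟩ := Submodule.mem_span_singleton.1 hmem
        have hc0 : c ≠ 0 := by
          rintro rfl
          rw [zero_smul] at hc
          exact ha0 hc.symm
        apply hxa
        rw [Submodule.mem_span_singleton]
        refine ⟨c⁻¹, ?_⟩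
        rw [← hc, smul_smul, inv_mul_cancel₀ hc0, one_smul]
      obtain ⟨χ, hχx, hχa⟩ := blk_exists_dual hax
      obtain ⟨χ', hΘ, h1, h2⟩ := hF1 x hx hx0 χ hχx
      have hxu : S.Opp x (a + b) :=
        ⟨χ', hΘ, by rw [map_add, h1 a ha, h2 b hb, add_zero]; exact hχa⟩
      exact hsym x (a + b) (hcen x hx hx0) hu hxu
    have hb1 : ∀ χ : Dual F V, χ a = 0 → (∀ k ∈ K, χ k = 0) → S.Θ χ b := by
      intro χ hχa hχK
      have hdim := blk_finrank_inf_ker Q χ
      obtain ⟨x, hxP, hxa⟩ := blk_exists_not_mem_span (Q ⊓ LinearMap.ker χ) (by omega) a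
      have hxQ : x ∈ Q := hxP.1
      have hχx : χ x = 0 := LinearMap.mem_ker.1 hxP.2
      have hx0 : x ≠ 0 := fun e => hxa (e ▸ Submodule.zero_mem _)
      have hΘx : S.Θ χ x := (hL x hxQ hx0 χ).2 ⟨hχx, hχK⟩
      obtain ⟨ψ, hψ, hψx⟩ := hopp x hxQ hxa
      have hχu : χ (a + b) = 0 := by rw [map_add, hχa, hχK b hb, add_zero]
      have hΘu : S.Θ χ (a + b) := lemA S hΘx hψ hχu hψx
      have hΘa : S.Θ χ a := (hL a ha ha0 χ).2 ⟨hχa, hχK⟩
      have := S.add_right hΘu (S.smul_right (-1) hΘa)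
      have e : a + b + (-1 : F) • a = b := by rw [neg_one_smul]; abel
      rwa [e] at this
    obtain ⟨x', hx'Q, hx'a⟩ := blk_exists_not_mem_span Q (by omega) a
    have hx'0 : x' ≠ 0 := fun e => hx'a (e ▸ Submodule.zero_mem _)
    obtain ⟨χ0, hχ0a, hχ0x⟩ := blk_exists_dual hx'a
    obtain ⟨χ, h1, h2⟩ := blk_res hQK χ0
    have hχa : χ a = 0 := by rw [h1 a ha, hχ0a]
    have hχx' : χ x' ≠ 0 := by rw [h1 x' hx'Q]; exact hχ0x
    have hΘb := hb1 χ hχa h2
    have hχne : χ ≠ 0 := by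
      intro e
      apply hχx'
      rw [e]; rfl
    have hbcen : S.IsCenter b := ⟨hb0, χ, hχne, hΘb⟩
    obtain ⟨φ, hφ, hφb⟩ := hsym b x' hbcen (hcen x' hx'Q hx'0) ⟨χ, hΘb, hχx'⟩
    exact hφb (hK0 x' hx'Q hx'0 φ hφ b hb)
  have hInv : S.Inv Q := by
    intro ψ w hΘ x hx
    by_cases hψx : ψ x = 0
    · rw [hψx, zero_smul, add_zero]; exact hx
    · have hx0 : x ≠ 0 := by
        rintro rfl
        exact hψx (map_zero ψ)
      have hψ0 : ψ ≠ 0 := by
        rintro rfl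
        exact hψx rfl
      by_cases hw0 : w = 0
      · rw [hw0, smul_zero, add_zero]; exact hx
      · have hwcen : S.IsCenter w := ⟨hw0, ψ, hψ0, hΘ⟩
        obtain ⟨a, ha, b, hb, hab⟩ :=
          Submodule.mem_sup.1 (hQK.sup_eq_top ▸ Submodule.mem_top : w ∈ Q ⊔ K)
        by_cases ha0 : a = 0
        · exfalso
          have hwK : w ∈ K := by rw [← hab, ha0, zero_add]; exact hb
          obtain ⟨φ, hφ, hφw⟩ := hsym w x hwcen (hcen x hx hx0) ⟨ψ, hΘ, hψx⟩
          exact hφw (hK0 x hx hx0 φ hφ w hwK)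
        · by_cases hb0 : b = 0
          · have hwQ : w ∈ Q := by rw [← hab, hb0, add_zero]; exact ha
            exact Q.add_mem hx (Q.smul_mem _ hwQ)
          · exfalso
            rw [← hab] at hwcen
            exact hc a ha b hb ha0 hb0 hwcen
  have hQeq : Q = W := by
    rcases hG.min Q hQW hInv with h | h
    · exact h
    · exfalso
      obtain ⟨x, hxQ, hxa⟩ := blk_exists_not_mem_span Q (by omega) (0 : V)
      have hx0 : x ≠ 0 := fun e => hxa (by rw [e]; exact Submodule.zero_mem _)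
      obtain ⟨-, φ, hφ, hΘ⟩ := hcen x hxQ hx0
      exact hG.nc φ x hΘ hφ hx0 (h hxQ)
  refine ⟨hQeq, ?_⟩
  have hKF : K ≤ S.Fix := by
    intro k hk φ v hΘ
    by_cases hφ : φ = 0
    · rw [hφ]; simp
    · by_cases hv : v = 0
      · rw [hv, smul_zero]
      · have hvQ : v ∈ Q := by rw [hQeq]; exact hG.center_mem φ v hΘ hφ hv
        rw [hK0 v hvQ hv φ hΘ k hk, zero_smul]
  apply le_antisymm hKF
  intro x hx
  obtain ⟨a, ha, b, hb, hab⟩ :=
    Submodule.mem_sup.1 (hQK.sup_eq_top ▸ Submodule.mem_top : x ∈ Q ⊔ K)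
  have haF : a ∈ S.Fix := by
    have : a = x - b := by rw [← hab]; abel
    rw [this]
    exact S.Fix.sub_mem hx (hKF hb)
  by_cases ha0 : a = 0
  · rw [← hab, ha0, zero_add]; exact hb
  · exfalso
    obtain ⟨-, φ, hφ, hΘ⟩ := hcen a ha ha0
    exact hG.nc φ a hΘ hφ ha0 haF

end Cfsg.Agent.Helper51.McL
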