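import Cfsg.Prelude.Def_Transfer
import Cfsg.Prelude.Def_Solvable
import Cfsg.Agent.Helper63.N15Defs

/-!
CALL S4415 piece m12 (helper51, double): plumbing from a monomial frame indexed by `Fin n`,
`n ≤ 4`, to the explicit frames `Mono3` / `Mono4`.
-/

set_option autoImplicit false
set_option linter.unusedSectionVars false
set_option linter.unusedVariables false

namespace Cfsg.Agent.Helper51.N15

open Cfsg.Agent.Helper63.N15

variable {G : Type*} [Group G] [Finite G] {V : Type*} [AddCommGroup V] [Module (ZMod 3) V]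
  [Finite V] {ρ : Representation (ZMod 3) G V} {R : Subgroup G} {b q₁ q₂ q₃ : G} {v₁ v₂ v₃ : V}

theorem m12_span3 (e' : Module.Basis (Fin 3) (ZMod 3) V) :
    (∀ v : V, ∃ c₁ c₂ c₃ : ZMod 3, v = c₁ • e' 0 + c₂ • e' 1 + c₃ • e' 2) ∧
    (∀ c₁ c₂ c₃ : ZMod 3, c₁ • e' 0 + c₂ • e' 1 + c₃ • e' 2 = 0 →
      c₁ = 0 ∧ c₂ = 0 ∧ c₃ = 0) := by
  constructor
  · intro v
    refine ⟨e'.repr v 0, e'.repr v 1, e'.repr v 2, ?_⟩
    have h := e'.sum_repr v
    rw [Fin.sum_univ_three] at h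
    exact h.symm
  · intro c₁ c₂ c₃ h
    have hli := Fintype.linearIndependent_iff.mp e'.linearIndependent ![c₁, c₂, c₃] (by
      rw [Fin.sum_univ_three]; simpa using h)
    exact ⟨by simpa using hli 0, by simpa using hli 1, by simpa using hli 2⟩

theorem m12_span4 (e' : Module.Basis (Fin 4) (ZMod 3) V) :
    (∀ v : V, ∃ c₁ c₂ c₃ c₄ : ZMod 3, v = c₁ • e' 0 + c₂ • e' 1 + c₃ • e' 2 + c₄ • e' 3) ∧
    (∀ c₁ c₂ c₃ c₄ : ZMod 3, c₁ • e' 0 + c₂ • e' 1 + c₃ • e' 2 + c₄ • e' 3 = 0 →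
      c₁ = 0 ∧ c₂ = 0 ∧ c₃ = 0 ∧ c₄ = 0) := by
  constructor
  · intro v
    refine ⟨e'.repr v 0, e'.repr v 1, e'.repr v 2, e'.repr v 3, ?_⟩
    have h := e'.sum_repr v
    rw [Fin.sum_univ_four] at h
    exact h.symm
  · intro c₁ c₂ c₃ c₄ h
    have hli := Fintype.linearIndependent_iff.mp e'.linearIndependent ![c₁, c₂, c₃, c₄] (by
      rw [Fin.sum_univ_four]; simpa using h)
    exact ⟨by simpa using hli 0, by simpa using hli 1, by simpa using hli 2,
      by simpa using hli 3⟩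

theorem m12_fourth : ∀ i₁ i₂ i₃ : Fin 4, ∃ i₄ : Fin 4, i₄ ≠ i₁ ∧ i₄ ≠ i₂ ∧ i₄ ≠ i₃ := by
  decide

theorem m12_inj3 {α : Type*} (a b c : α) (hab : a ≠ b) (hbc : b ≠ c) (hac : a ≠ c) :
    Function.Injective ![a, b, c] := by
  intro x y hxy
  fin_cases x <;> fin_cases y <;> simp_all

theorem m12_inj4 {α : Type*} (a b c d : α) (hab : a ≠ b) (hbc : b ≠ c) (hac : a ≠ c)
    (hda : d ≠ a) (hdb : d ≠ b) (hdc : d ≠ c) :
    Function.Injective ![a, b, c, d] := by
  intro x y hxy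
  fin_cases x <;> fin_cases y <;> simp_all

/-- M12 (plumbing). `n = 3` or `n = 4` (`n ≥ 3` by the three distinct indices); pass to the
explicit vectors `e i₁, e i₂, e i₃` (and the fourth basis vector). -/
theorem m12 (ρ : Representation (ZMod 3) G V) (b : G) (n : ℕ)
    (e : Module.Basis (Fin n) (ZMod 3) V) (h : MonoN ρ b n e) (hn : n ≤ 4) :
    (∃ e₁ e₂ e₃ : V, Mono3 ρ b e₁ e₂ e₃) ∨ ∃ e₁ e₂ e₃ e₄ : V, Mono4 ρ b e₁ e₂ e₃ e₄ := by
  classical
  obtain ⟨hmono, htrans, i₁, i₂, i₃, h12, h23, h13, hb1, hb2, hb3, hbfix⟩ := h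
  have hn3 : 3 ≤ n := by
    by_contra hlt
    have a1 := i₁.isLt
    have a2 := i₂.isLt
    have a3 := i₃.isLt
    have d1 := Fin.val_ne_of_ne h12
    have d2 := Fin.val_ne_of_ne h23
    have d3 := Fin.val_ne_of_ne h13
    omega
  rcases (by omega : n = 3 ∨ n = 4) with rfl | rfl
  · left
    have hinj : Function.Injective ![i₁, i₂, i₃] := m12_inj3 i₁ i₂ i₃ h12 h23 h13
    let σ : Fin 3 ≃ Fin 3 := Equiv.ofBijective _ (Finite.injective_iff_bijective.mp hinj)
    have hall : ∀ j : Fin 3, j = i₁ ∨ j = i₂ ∨ j = i₃ := by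
      intro j
      obtain ⟨k, hk⟩ := σ.surjective j
      fin_cases k
      · left; exact hk.symm
      · right; left; exact hk.symm
      · right; right; exact hk.symm
    have e0 : (e.reindex σ.symm) 0 = e i₁ := by
      rw [Module.Basis.reindex_apply]; rfl
    have e1 : (e.reindex σ.symm) 1 = e i₂ := by
      rw [Module.Basis.reindex_apply]; rfl
    have e2 : (e.reindex σ.symm) 2 = e i₃ := by
      rw [Module.Basis.reindex_apply]; rfl
    obtain ⟨hs, hi⟩ := m12_span3 (e.reindex σ.symm)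
    rw [e0, e1, e2] at hs hi
    refine ⟨e i₁, e i₂, e i₃, hs, hi, ?_, hb1, hb2, hb3⟩
    intro g x hx
    have hxi : ∃ i, x = e i := by
      rcases hx with rfl | rfl | rfl
      exacts [⟨i₁, rfl⟩, ⟨i₂, rfl⟩, ⟨i₃, rfl⟩]
    obtain ⟨i, rfl⟩ := hxi
    obtain ⟨j, hj⟩ := hmono g i
    refine ⟨e j, ?_, hj⟩
    rcases hall j with hj' | hj' | hj'
    · rw [hj']; exact Or.inl rfl
    · rw [hj']; exact Or.inr (Or.inl rfl)
    · rw [hj']; exact Or.inr (Or.inr rfl)
  · right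
    obtain ⟨i₄, h41, h42, h43⟩ := m12_fourth i₁ i₂ i₃
    have hinj : Function.Injective ![i₁, i₂, i₃, i₄] :=
      m12_inj4 i₁ i₂ i₃ i₄ h12 h23 h13 h41 h42 h43
    let σ : Fin 4 ≃ Fin 4 := Equiv.ofBijective _ (Finite.injective_iff_bijective.mp hinj)
    have hall : ∀ j : Fin 4, j = i₁ ∨ j = i₂ ∨ j = i₃ ∨ j = i₄ := by
      intro j
      obtain ⟨k, hk⟩ := σ.surjective j
      fin_cases k
      · left; exact hk.symm
      · right; left; exact hk.symm
      · right; right; left; exact hk.symm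
      · right; right; right; exact hk.symm
    have e0 : (e.reindex σ.symm) 0 = e i₁ := by
      rw [Module.Basis.reindex_apply]; rfl
    have e1 : (e.reindex σ.symm) 1 = e i₂ := by
      rw [Module.Basis.reindex_apply]; rfl
    have e2 : (e.reindex σ.symm) 2 = e i₃ := by
      rw [Module.Basis.reindex_apply]; rfl
    have e3 : (e.reindex σ.symm) 3 = e i₄ := by
      rw [Module.Basis.reindex_apply]; rfl
    obtain ⟨hs, hi⟩ := m12_span4 (e.reindex σ.symm)
    rw [e0, e1, e2, e3] at hs hi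
    have hmem : ∀ j : Fin 4, e j ∈ ({e i₁, e i₂, e i₃, e i₄} : Set V) := by
      intro j
      rcases hall j with hj' | hj' | hj' | hj'
      · rw [hj']; exact Or.inl rfl
      · rw [hj']; exact Or.inr (Or.inl rfl)
      · rw [hj']; exact Or.inr (Or.inr (Or.inl rfl))
      · rw [hj']; exact Or.inr (Or.inr (Or.inr rfl))
    have hidx : ∀ x ∈ ({e i₁, e i₂, e i₃, e i₄} : Set V), ∃ i, x = e i := by
      intro x hx
      rcases hx with rfl | rfl | rfl | rfl
      exacts [⟨i₁, rfl⟩, ⟨i₂, rfl⟩, ⟨i₃, rfl⟩, ⟨i₄, rfl⟩]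
    refine ⟨e i₁, e i₂, e i₃, e i₄, hs, hi, ?_, ?_, hb1, hb2, hb3, hbfix i₄ h41 h42 h43⟩
    · intro g x hx
      obtain ⟨i, rfl⟩ := hidx x hx
      obtain ⟨j, hj⟩ := hmono g i
      exact ⟨e j, hmem j, hj⟩
    · intro x hx
      obtain ⟨i, rfl⟩ := hidx x hx
      exact htrans i₄ i

end Cfsg.Agent.Helper51.N15
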