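import Cfsg.Agent.Helper55.N9Defs
import Cfsg.Agent.Helper35.Coprime

/-!
CALL S4409 (helper55), piece LA: a 2-group normalizing `D` and centralizing `K` centralizes `D`
(minimal configuration with `[D,K] = D`).
-/

set_option autoImplicit false

namespace Cfsg.Agent.Helper51.N9

open Subgroup Cfsg.Agent.Helper55.N9
open scoped commutatorElement

variable {G : Type*} [Group G] [Finite G]

omit [Finite G] in
/-- a subgroup normalizing `H` and `K` normalizes `⁅H, K⁆` -/
theorem le_normalizer_comm' {A H K : Subgroup G} (hH : A ≤ normalizer (H : Set G))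
    (hK : A ≤ normalizer (K : Set G)) : A ≤ normalizer ((⁅H, K⁆ : Subgroup G) : Set G) := by
  have key : ∀ a ∈ A, ∀ g ∈ (⁅H, K⁆ : Subgroup G), a * g * a⁻¹ ∈ (⁅H, K⁆ : Subgroup G) := by
    intro a ha
    have h1 : (⁅H, K⁆ : Subgroup G) ≤ (⁅H, K⁆ : Subgroup G).comap (MulAut.conj a).toMonoidHom := by
      rw [Subgroup.commutator_le]
      intro x hx y hy
      rw [Subgroup.mem_comap]
      have e : (MulAut.conj a).toMonoidHom ⁅x, y⁆ = ⁅a * x * a⁻¹, a * y * a⁻¹⁆ := by
        simp only [MulEquiv.coe_toMonoidHom, MulAut.conj_apply, commutatorElement_def]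
        group
      rw [e]
      exact Subgroup.commutator_mem_commutator ((Subgroup.mem_normalizer_iff.mp (hH ha) x).mp hx)
        ((Subgroup.mem_normalizer_iff.mp (hK ha) y).mp hy)
    intro g hg
    have := h1 hg
    rw [Subgroup.mem_comap] at this
    simpa [MulAut.conj_apply] using this
  intro a ha
  rw [Subgroup.mem_normalizer_iff]
  intro g
  constructor
  · exact key a ha g
  · intro hg
    have := key a⁻¹ (A.inv_mem ha) _ hg
    have e : a⁻¹ * (a * g * a⁻¹) * a⁻¹⁻¹ = g := by group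
    rwa [e] at this

-- LA
theorem n9_min_cent (T : Tools G) (K D : Subgroup G) (h : MinCfg K D) (hD : IsPGroup 2 D)
    (hK : Odd (Nat.card K)) (hDK : ⁅D, K⁆ = D) (C : Subgroup G) (hC : IsPGroup 2 C)
    (hCn : C ≤ normalizer (D : Set G)) (hCK : C ≤ centralizer (K : Set G)) :
    C ≤ centralizer (D : Set G) := by
  haveI : Fact (Nat.Prime 2) := ⟨Nat.prime_two⟩
  -- `E = [D, C]`
  have hEle : (⁅D, C⁆ : Subgroup G) ≤ D := Cfsg.Agent.Helper35.commutator_le_of_le_normalizer hCn
  have hKC : K ≤ normalizer (C : Set G) :=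
    (Subgroup.le_centralizer_iff.mp hCK).trans (Subgroup.centralizer_le_normalizer _)
  have hEK : K ≤ normalizer ((⁅D, C⁆ : Subgroup G) : Set G) := le_normalizer_comm' h.inv hKC
  have hEne : (⁅D, C⁆ : Subgroup G) ≠ D := by
    intro hE
    have hP : IsPGroup 2 (D ⊔ C : Subgroup G) := IsPGroup.to_sup_of_normal_left' hD hC hCn
    haveI := hP.isNilpotent
    obtain ⟨n, hn⟩ := (Subgroup.isNilpotent_iff_lowerCentralSeries (D ⊔ C)).mp inferInstance
    have hle : ∀ j : ℕ, D ≤ (D ⊔ C).lowerCentralSeries j := by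
      intro j
      induction j with
      | zero => exact le_sup_left
      | succ j ih =>
        rw [Subgroup.lowerCentralSeries_succ]
        calc D = ⁅D, C⁆ := hE.symm
          _ ≤ ⁅(D ⊔ C).lowerCentralSeries j, D ⊔ C⁆ := Subgroup.commutator_mono ih le_sup_right
    have hbot : D = ⊥ := le_bot_iff.mp (hn ▸ hle n)
    exact h.nt (hbot ▸ bot_le)
  have hEc : (⁅D, C⁆ : Subgroup G) ≤ centralizer (K : Set G) := h.min _ hEle hEne hEK
  have h1 : (⁅⁅D, C⁆, K⁆ : Subgroup G) = ⊥ := Subgroup.commutator_eq_bot_iff_le_centralizer.mpr hEc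
  have h2 : (⁅⁅C, K⁆, D⁆ : Subgroup G) = ⊥ := by
    rw [Subgroup.commutator_eq_bot_iff_le_centralizer.mpr hCK, Subgroup.commutator_bot_left]
  have h3 : (⁅⁅K, D⁆, C⁆ : Subgroup G) = ⊥ := Subgroup.commutator_commutator_eq_bot_of_rotate h1 h2
  rw [Subgroup.commutator_comm K D, hDK] at h3
  exact Subgroup.le_centralizer_iff.mp (Subgroup.commutator_eq_bot_iff_le_centralizer.mp h3)

end Cfsg.Agent.Helper51.N9
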