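import Cfsg.Agent.Helper55.N9Defs
import Cfsg.Agent.Helper35.Coprime

/-!
CALL S4409 (helper55), piece T2: `Y = [Y,K] C_Y(K)` elementwise (coprime action).
-/

set_option autoImplicit false

namespace Cfsg.Agent.Helper51.N9

open Subgroup Cfsg.Agent.Helper55.N9

variable {G : Type*} [Group G] [Finite G]

/-- a 2-group and a group of odd order have coprime orders -/
theorem coprime_of_odd_of_two {K Y : Subgroup G} (hY : IsPGroup 2 Y) (hK : Odd (Nat.card K)) :
    (Nat.card K).Coprime (Nat.card Y) := by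
  haveI : Fact (Nat.Prime 2) := ⟨Nat.prime_two⟩
  obtain ⟨n, hn⟩ := IsPGroup.iff_card.mp hY
  rw [hn]
  exact Nat.Coprime.pow_right n (Nat.coprime_two_right.mpr hK)

/-- a 2-subgroup is solvable -/
theorem solvable_of_two {Y : Subgroup G} (hY : IsPGroup 2 Y) : Group.IsSolvable Y := by
  haveI : Fact (Nat.Prime 2) := ⟨Nat.prime_two⟩
  haveI := hY.isNilpotent
  infer_instance

-- T2
theorem n9_decomp (Y K : Subgroup G) (hY : IsPGroup 2 Y) (hK : Odd (Nat.card K))
    (hinv : K ≤ normalizer (Y : Set G)) :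
    ∀ y ∈ Y, ∃ a ∈ ⁅Y, K⁆, ∃ c ∈ Y ⊓ centralizer (K : Set G), y = a * c := by
  intro y hy
  exact Cfsg.Agent.Helper35.exists_commutator_mul_fixed hinv (coprime_of_odd_of_two hY hK)
    (Or.inr (solvable_of_two hY)) hy

end Cfsg.Agent.Helper51.N9
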