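import Cfsg.Agent.Helper55.N9Defs
import Cfsg.Agent.Helper35.CoprimeAbelian
import Cfsg.Agent.Helper51.N9T2

/-!
CALL S4409 (helper55), piece M1: `[D,K] = D` in a minimal configuration.
-/

set_option autoImplicit false

namespace Cfsg.Agent.Helper51.N9

open Subgroup Cfsg.Agent.Helper55.N9

variable {G : Type*} [Group G] [Finite G]

-- M1
theorem n9_min_comm (T : Tools G) (K D : Subgroup G) (h : MinCfg K D) (hD : IsPGroup 2 D)
    (hK : Odd (Nat.card K)) : ⁅D, K⁆ = D := by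
  by_contra hne
  obtain ⟨hle, -, hKn⟩ := T.comm_inv D K h.inv
  have hc : ⁅D, K⁆ ≤ centralizer (K : Set G) := h.min _ hle hne hKn
  have h1 : (⁅⁅D, K⁆, K⁆ : Subgroup G) = ⊥ :=
    Subgroup.commutator_eq_bot_iff_le_centralizer.mpr hc
  have h2 : (⁅⁅D, K⁆, K⁆ : Subgroup G) = ⁅D, K⁆ :=
    Cfsg.Agent.Helper35.commutator_commutator_eq_of_coprime h.inv (coprime_of_odd_of_two hD hK)
      (Or.inr (solvable_of_two hD))
  rw [h1] at h2
  exact h.nt (Subgroup.commutator_eq_bot_iff_le_centralizer.mp h2.symm)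

end Cfsg.Agent.Helper51.N9
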