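import Mathlib
import Cfsg.Agent.Helper82.SmallCofactor

/-!
# PIECE EC3 of CALL S0983 part E (helper51): a non-commutative simple group of order
`3 p^a q^b` (`a ≤ 2`) has order 60 or 168.
-/

set_option autoImplicit false

namespace Cfsg.Agent.Helper51

variable {G : Type*} [Group G] [Finite G] [IsSimpleGroup G]

theorem eng_three (hG : ¬ IsMulCommutative G) (p q a b : ℕ) (hp : p.Prime) (hq : q.Prime)
    (hpq : p ≠ q) (ha : a ≤ 2) (h : Nat.card G = 3 * p ^ a * q ^ b) :
    Nat.card G = 60 ∨ Nat.card G = 168 := by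
  have hnc : ¬ ∀ x y : G, x * y = y * x := fun hc => hG ⟨⟨hc⟩⟩
  exact Cfsg.Agent.Helper82.sc_three hnc p q a b hp hq hpq ha h

end Cfsg.Agent.Helper51
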