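import Mathlib
import Cfsg.Agent.Helper3.Burnside2

/-!
# PIECE ER0 of CALL S0983 part E (helper51): a non-commutative simple group has at least three
prime divisors.
-/

set_option autoImplicit false

namespace Cfsg.Agent.Helper51

variable {G : Type*} [Group G] [Finite G] [IsSimpleGroup G]

theorem eng_two_primes (hG : ¬ IsMulCommutative G) (p q a b : ℕ) (hp : p.Prime) (hq : q.Prime)
    (h : Nat.card G = p ^ a * q ^ b) : False := by
  have hs := Cfsg.Agent.Helper3.isSolvable_of_card_eq p q a b hp hq h
  have hcomm := IsSimpleGroup.comm_iff_isSolvable.mpr hs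
  exact hG ⟨⟨hcomm⟩⟩

end Cfsg.Agent.Helper51
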