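import Mathlib
import Cfsg.Agent.Helper9.OrdTools
import Cfsg.Agent.Helper41.SmallSimple

/-!
# PIECE ER4 of CALL S0983 part E (helper51): the order of a non-commutative simple group is not
`2 mod 4`.
-/

set_option autoImplicit false

namespace Cfsg.Agent.Helper51

variable {G : Type*} [Group G] [Finite G] [IsSimpleGroup G]

theorem eng_two_mod_four (hG : ¬ IsMulCommutative G) (h : Nat.card G % 4 = 2) : False := by
  have hns : ¬ Group.IsSolvable G := fun hs =>
    hG ⟨⟨IsSimpleGroup.comm_iff_isSolvable.mpr hs⟩⟩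
  haveI : Fact (Nat.Prime 2) := ⟨Nat.prime_two⟩
  have h2 : (Nat.card G).minFac = 2 := by
    rw [Nat.minFac_eq_two_iff]
    omega
  obtain ⟨S⟩ : Nonempty (Sylow 2 G) := inferInstance
  have hS : Nat.card (S : Subgroup G) = 2 ^ 1 :=
    Cfsg.Agent.Helper9.OrdTools.sylow_card 1 (Nat.card G / 2) (by rw [pow_one]; omega)
      (by omega) S
  apply Cfsg.Agent.Helper41.not_isCyclic_sylow_minFac hns h2 S
  exact isCyclic_of_prime_card (p := 2) (by rw [hS]; norm_num)

end Cfsg.Agent.Helper51
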