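import Mathlib
import Cfsg.Agent.Helper9.OrdTools
import Cfsg.Agent.S0904

/-!
# PIECE ET3 of CALL S0983 part E (helper51): three primes, the last one to the first power.
-/

set_option autoImplicit false

namespace Cfsg.Agent.Helper51

variable {G : Type*} [Group G] [Finite G] [IsSimpleGroup G]

theorem eng_syl_three (hG : ¬ IsMulCommutative G) (p q₁ q₂ a₁ a₂ : ℕ) (hp : p.Prime)
    (hq₁ : q₁.Prime) (hq₂ : q₂.Prime) (h12 : q₁ ≠ q₂) (h1p : q₁ ≠ p) (h2p : q₂ ≠ p)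
    (hcard : Nat.card G = q₁ ^ a₁ * q₂ ^ a₂ * p) :
    ∃ e : ℕ, e ∣ p - 1 ∧ 1 < e ∧ Nat.card (Sylow p G) * e * p = Nat.card G := by
  haveI : Fact p.Prime := ⟨hp⟩
  obtain ⟨S⟩ : Nonempty (Sylow p G) := inferInstance
  have hSC := Cfsg.Agent.S0904.result q₁ q₂ p a₁ a₂ hq₁ hq₂ h12 h1p h2p hcard S
  have hpm : ¬ p ∣ q₁ ^ a₁ * q₂ ^ a₂ := by
    intro hd
    rcases (Nat.Prime.dvd_mul hp).1 hd with h | h
    · exact h1p ((Nat.prime_dvd_prime_iff_eq hp hq₁).1 (hp.dvd_of_dvd_pow h)).symm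
    · exact h2p ((Nat.prime_dvd_prime_iff_eq hp hq₂).1 (hp.dvd_of_dvd_pow h)).symm
  have hS : Nat.card (S : Subgroup G) = p := by
    have h1 := Cfsg.Agent.Helper9.OrdTools.sylow_card 1 (q₁ ^ a₁ * q₂ ^ a₂)
      (by rw [hcard, pow_one, mul_comm]) hpm S
    rw [pow_one] at h1
    exact h1
  have hm2 : 2 ≤ q₁ ^ a₁ * q₂ ^ a₂ := by
    by_contra hlt
    have hpos : 0 < q₁ ^ a₁ * q₂ ^ a₂ :=
      Nat.mul_pos (pow_pos hq₁.pos _) (pow_pos hq₂.pos _)
    have h1 : q₁ ^ a₁ * q₂ ^ a₂ = 1 := by omega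
    rw [h1, one_mul] at hcard
    haveI : IsCyclic G := isCyclic_of_prime_card hcard
    exact hG IsCyclic.isMulCommutative
  have hlt : p < Nat.card G := by
    rw [hcard]
    have := hp.pos
    nlinarith
  obtain ⟨e, he, he1, hN, -⟩ := Cfsg.Agent.Helper9.OrdTools.normalizer_centralizer_prime S hS hlt
  have hC : Nat.card (Subgroup.centralizer ((S : Subgroup G) : Set G)) = p := by
    have h1 : Subgroup.centralizer ((S : Subgroup G) : Set G) = (S : Subgroup G) := hSC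
    rw [h1, hS]
  rw [hC] at hN
  obtain ⟨-, -, -, hnum⟩ := Cfsg.Agent.Helper9.OrdTools.sylow_num S
    (by rw [hS]; exact hp.one_lt) (by rw [hS]; exact hlt)
  rw [hN] at hnum
  refine ⟨e, he, he1, ?_⟩
  rw [← hnum]
  ring

end Cfsg.Agent.Helper51
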