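import Mathlib

set_option autoImplicit false

/-!
CALL S1906 (helper14), piece FULL (double): `E` is the full group of sign changes of the basis.
-/

namespace Cfsg.Agent.Helper51.S1906P

variable {F : Type*} [Field F] {V : Type*} [AddCommGroup V] [Module F V] {P : Type*} [Group P]

/-- FULL. `E` is the full group of sign changes of the basis `b`. -/
theorem s1906_full (h2 : (2 : F) ≠ 0) (ρ : Representation F P V) (E : Subgroup P)
    (hfaith : ∀ a ∈ E, (∀ v : V, ρ a v = v) → a = 1) (hcard : Nat.card E = 8)
    (b : Module.Basis (Fin 3) F V)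
    (hb : ∀ a ∈ E, ∀ j, ρ a (b j) = b j ∨ ρ a (b j) = -b j) :
    ∀ i : Fin 3, ∃ a ∈ E, ∀ j, ρ a (b j) = if j = i then -b j else b j := by
  classical
  have hfin : Finite E := Nat.finite_of_card_ne_zero (by rw [hcard]; norm_num)
  let φ : E → (Fin 3 → Bool) := fun a j => decide (ρ (a : P) (b j) = -b j)
  have hinj : Function.Injective φ := by
    intro a a' h
    have hj : ∀ j, ρ (a : P) (b j) = ρ (a' : P) (b j) := by
      intro j
      have hj' : decide (ρ (a : P) (b j) = -b j) = decide (ρ (a' : P) (b j) = -b j) :=
        congrFun h j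
      have hiff : ρ (a : P) (b j) = -b j ↔ ρ (a' : P) (b j) = -b j := by
        simpa using hj'
      by_cases hc : ρ (a : P) (b j) = -b j
      · rw [hc, hiff.mp hc]
      · have h1 := (hb a a.2 j).resolve_right hc
        have h2' := (hb a' a'.2 j).resolve_right (fun h => hc (hiff.mpr h))
        rw [h1, h2']
    have heq : ρ (a : P) = ρ (a' : P) := b.ext hj
    have h1 : (a : P)⁻¹ * (a' : P) = 1 := by
      apply hfaith _ (E.mul_mem (E.inv_mem a.2) a'.2)
      intro v
      rw [map_mul, Module.End.mul_apply, ← heq, ← Module.End.mul_apply, ← map_mul,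
        inv_mul_cancel, map_one, Module.End.one_apply]
    apply Subtype.ext
    exact inv_mul_eq_one.mp h1
  have hcard' : Nat.card (Fin 3 → Bool) = 8 := by
    rw [Nat.card_eq_fintype_card]; rfl
  have hbij : Function.Bijective φ := hinj.bijective_of_nat_card_le (by rw [hcard, hcard'])
  intro i
  obtain ⟨a, ha⟩ := hbij.2 (fun j => decide (j = i))
  refine ⟨a, a.2, fun j => ?_⟩
  have hj : decide (ρ (a : P) (b j) = -b j) = decide (j = i) := congrFun ha j
  by_cases hji : j = i
  · rw [if_pos hji]
    simpa [hji] using hj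
  · rw [if_neg hji]
    have hne : ¬ ρ (a : P) (b j) = -b j := by simpa [hji] using hj
    exact (hb a a.2 j).resolve_right hne

end Cfsg.Agent.Helper51.S1906P
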