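import Mathlib

set_option autoImplicit false

/-!
CALL S1906 (helper14), piece TW (double): the factor at a coset does not depend on the
representative.
-/

namespace Cfsg.Agent.Helper51.S1906P

variable {G : Type*} [Group G] [Finite G] {A : Type*} [CommGroup A]

open scoped Classical in
/-- TW. The factor at a coset does not depend on the representative: `g = q.out * x` with
`x ∈ H`, `g⁻¹ * u * g = x⁻¹ * (q.out⁻¹ * u * q.out) * x`, and `A` is commutative. -/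
theorem s1906_tw (H : Subgroup G) (ϕ : ↥H →* A) (u g : G) :
    (if h : (g : G ⧸ H).out⁻¹ * u * (g : G ⧸ H).out ∈ H then
        ϕ ⟨(g : G ⧸ H).out⁻¹ * u * (g : G ⧸ H).out, h⟩ else 1) =
      (if h : g⁻¹ * u * g ∈ H then ϕ ⟨g⁻¹ * u * g, h⟩ else 1) := by
  have hx : (g : G ⧸ H).out⁻¹ * g ∈ H := by
    rw [← QuotientGroup.eq]
    exact QuotientGroup.out_eq' _
  generalize (g : G ⧸ H).out = r at hx ⊢
  have hg : g⁻¹ * u * g = (r⁻¹ * g)⁻¹ * (r⁻¹ * u * r) * (r⁻¹ * g) := by group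
  have hr : r⁻¹ * u * r = (r⁻¹ * g) * (g⁻¹ * u * g) * (r⁻¹ * g)⁻¹ := by group
  by_cases h : r⁻¹ * u * r ∈ H
  · have h' : g⁻¹ * u * g ∈ H := by
      rw [hg]; exact H.mul_mem (H.mul_mem (H.inv_mem hx) h) hx
    rw [dif_pos h, dif_pos h']
    have e : (⟨g⁻¹ * u * g, h'⟩ : H) =
        (⟨r⁻¹ * g, hx⟩ : H)⁻¹ * ⟨r⁻¹ * u * r, h⟩ * ⟨r⁻¹ * g, hx⟩ := by
      apply Subtype.ext; exact hg
    rw [e, map_mul, map_mul, map_inv, mul_right_comm, inv_mul_cancel, one_mul]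
  · have h' : ¬ g⁻¹ * u * g ∈ H := by
      intro h'
      apply h
      rw [hr]; exact H.mul_mem (H.mul_mem hx h') (H.inv_mem hx)
    rw [dif_neg h, dif_neg h']

end Cfsg.Agent.Helper51.S1906P
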